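import Mathlib

/-!
# Abstract affine-like structure on a permuted set

`ln a b` is the line through `a` and `b`, `Pl` the set of planes, `A ℓ`, `B Π` are elementary
abelian subgroups attached to the lines and to the planes.
-/

set_option autoImplicit false

open scoped Pointwise

namespace Cfsg.Agent.P3

/-- Lines with `q` points, planes with `q²` points in a set with `q³` points, permuted by `G`;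
`B Π` fixes exactly the points of `Π`. -/
structure AffS {G Ω : Type*} [Group G] [MulAction G Ω] (q : ℕ) (ln : Ω → Ω → Set Ω)
    (Pl : Set (Set Ω)) (A B : Set Ω → Subgroup G) : Prop where
  even : Even q
  pos : 2 ≤ q
  card : Nat.card Ω = q ^ 3
  mem_left : ∀ a b, a ≠ b → a ∈ ln a b
  mem_right : ∀ a b, a ≠ b → b ∈ ln a b
  line_eq : ∀ a b c d, a ≠ b → c ∈ ln a b → d ∈ ln a b → c ≠ d → ln c d = ln a b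
  line_card : ∀ a b, a ≠ b → (ln a b).ncard = q
  line_smul : ∀ (g : G) (a b : Ω), a ≠ b → ln (g • a) (g • b) = g • ln a b
  plane_line : ∀ Q ∈ Pl, ∀ a ∈ Q, ∀ b ∈ Q, a ≠ b → ln a b ⊆ Q
  plane_card : ∀ Q ∈ Pl, Q.ncard = q ^ 2
  plane_smul : ∀ g : G, ∀ Q ∈ Pl, g • Q ∈ Pl
  plane_ex : ∀ a b c, a ≠ b → c ∉ ln a b → ∃! Q, Q ∈ Pl ∧ a ∈ Q ∧ b ∈ Q ∧ c ∈ Q
  plane_meet : ∀ Q ∈ Pl, ∀ Q' ∈ Pl, ∀ a, a ∈ Q → a ∈ Q' → ∃ b, b ≠ a ∧ b ∈ Q ∧ b ∈ Q'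
  sqB : ∀ Q ∈ Pl, ∀ z ∈ B Q, z * z = 1
  cardB : ∀ Q ∈ Pl, Nat.card (B Q) = q ^ 2
  cardX : ∀ Q ∈ Pl, ∀ a ∈ Q, ∀ b ∈ Q, a ≠ b → Nat.card ↥(A (ln a b) ⊓ B Q) = q
  fixB : ∀ Q ∈ Pl, ∀ z ∈ B Q, z ≠ 1 → ∀ x : Ω, z • x = x ↔ x ∈ Q
  coverB : ∀ Q ∈ Pl, ∀ a ∈ Q, ∀ z ∈ B Q, ∃ b ∈ Q, b ≠ a ∧ z ∈ A (ln a b)
  fixA : ∀ a b, a ≠ b → ∀ z ∈ A (ln a b), z • a = a
  planeA : ∀ a b, a ≠ b → ∀ Q ∈ Pl, a ∈ Q → b ∈ Q → ∀ z ∈ A (ln a b), z • Q = Q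
  disjA : ∀ a b b', a ≠ b → a ≠ b' → ln a b ≠ ln a b' → A (ln a b) ⊓ A (ln a b') = ⊥

end Cfsg.Agent.P3
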