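import Cfsg.Agent.P3.Fam5

/-! The linear space. -/

set_option autoImplicit false
set_option linter.all false

open scoped Pointwise

namespace Cfsg.Agent.P3

open Subgroup MulAction

theorem part_dvd {α : Type*} [Finite α] (f : α → Set α) (S : Set α) (m : ℕ)
    (h1 : ∀ x ∈ S, x ∈ f x) (h2 : ∀ x ∈ S, f x ⊆ S) (h3 : ∀ x ∈ S, ∀ y ∈ f x, f y = f x)
    (h4 : ∀ x ∈ S, m ∣ (f x).ncard) : m ∣ S.ncard := by
  classical
  haveI := Fintype.ofFinite α
  set T : Finset (Set α) := S.toFinset.image f with hT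
  have hS : S = ((T.biUnion fun t => t.toFinset : Finset α) : Set α) := by
    ext x
    simp only [hT, Finset.coe_biUnion, Finset.coe_image, Set.coe_toFinset, Set.mem_iUnion, Set.mem_image,
      exists_prop]
    constructor
    · intro hx
      exact ⟨f x, ⟨x, hx, rfl⟩, h1 x hx⟩
    · rintro ⟨t, ⟨y, hy, rfl⟩, hx⟩
      exact h2 y hy hx
  rw [hS, Set.ncard_coe_finset, Finset.card_biUnion]
  · refine Finset.dvd_sum fun t ht => ?_
    rw [hT, Finset.mem_image] at ht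
    obtain ⟨x, hx, rfl⟩ := ht
    rw [← Set.ncard_eq_toFinset_card']
    exact h4 x (by simpa using hx)
  · intro t ht t' ht' hne
    rw [hT, Finset.coe_image, Set.coe_toFinset] at ht ht'
    obtain ⟨x, hx, rfl⟩ := ht
    obtain ⟨y, hy, rfl⟩ := ht'
    refine Set.disjoint_toFinset.2 ?_
    rw [Set.disjoint_left]
    intro z hz hz'
    exact hne ((h3 x hx z hz).symm.trans (h3 y hy z hz'))

variable {G Ω : Type*} [Group G] [Finite G] [Finite Ω] [MulAction G Ω] {q : ℕ} {N : Ω → Subgroup G}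
  {PL : Ω → Subgroup G → Prop}

/-- lines -/
def ln (N : Ω → Subgroup G) (q : ℕ) (a b : Ω) : Set Ω :=
  {c | ∀ U, IsFl (N a) q U → U ≤ stabilizer G b → U ≤ stabilizer G c}

theorem GP.mem_ln (R : GP N q PL) {a b c : Ω} (hab : a ≠ b) {U : Subgroup G} (hU : IsFl (N a) q U)
    (hUb : U ≤ stabilizer G b) : c ∈ ln N q a b ↔ U ≤ stabilizer G c :=
  ⟨fun h => h U hU hUb, fun h U' hU' hUb' => R.u1 a b c hab U U' hU hUb hU' hUb' h⟩

theorem ln_left (F : Fam G Ω q N) (a b : Ω) : a ∈ ln N q a b := fun U hU _ x hx => F.le a x (hU.le hx)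

theorem ln_right (a b : Ω) : b ∈ ln N q a b := fun U _ h => h

theorem GP.ln_eq (R : GP N q PL) (F : Fam G Ω q N) {a b c d : Ω} (hab : a ≠ b) (hc : c ∈ ln N q a b)
    (hd : d ∈ ln N q a b) (hcd : c ≠ d) : ln N q c d = ln N q a b := by
  obtain ⟨U, hU, hUb⟩ := F.exists_fl hab
  have hUc := (R.mem_ln hab hU hUb).1 hc
  have hUd := (R.mem_ln hab hU hUb).1 hd
  ext e
  rw [R.mem_ln hab hU hUb, R.mem_ln hcd (F.star_fl hU hUc) hUd]

theorem GP.ln_symm (R : GP N q PL) (F : Fam G Ω q N) {a b : Ω} (hab : a ≠ b) : ln N q b a = ln N q a b :=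
  R.ln_eq F hab (ln_right a b) (ln_left F a b) (Ne.symm hab)

theorem GP.ln_smul (R : GP N q PL) (F : Fam G Ω q N) {a b : Ω} (hab : a ≠ b) (g : G) :
    ln N q (g • a) (g • b) = g • ln N q a b := by
  obtain ⟨U, hU, hUb⟩ := F.exists_fl hab
  have h1 : IsFl (N (g • a)) q (cj g U) := by rw [← F.conj]; exact hU.cj g
  ext e
  rw [R.mem_ln (Fam.smul_ne hab) h1 (cj_le_stab hUb), Set.mem_smul_set_iff_inv_smul_mem,
    R.mem_ln hab hU hUb]
  constructor
  · intro h2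
    have := cj_le_stab (g := g⁻¹) h2
    rwa [cj_inv_cj] at this
  · intro h2
    have := cj_le_stab (g := g) h2
    rwa [smul_inv_smul] at this

theorem GP.ln_card (R : GP N q PL) (F : Fam G Ω q N) {a b c d : Ω} (hab : a ≠ b) (hcd : c ≠ d) :
    (ln N q a b).ncard = (ln N q c d).ncard := by
  obtain ⟨g, rfl, rfl⟩ := F.tt a b c d hab hcd
  rw [R.ln_smul F hab]
  exact (Set.ncard_image_of_injective _ (MulAction.injective g)).symm

theorem GP.ln_even (R : GP N q PL) (F : Fam G Ω q N) {a b : Ω} (hab : a ≠ b) :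
    Even (ln N q a b).ncard := by
  obtain ⟨U, hU, hUb⟩ := F.exists_fl hab
  have h1 := hU.pg.card_modEq_card_fixedPoints Ω
  have h2 : ln N q a b = fixedPoints U Ω := by
    ext c
    rw [R.mem_ln hab hU hUb]
    constructor
    · intro h3 u; exact h3 u.2
    · intro h3 x hx; exact h3 ⟨x, hx⟩
  rw [h2, ← Nat.card_coe_set_eq, Nat.even_iff]
  have h3 := F.even
  rw [Nat.even_iff] at h3
  rw [Nat.ModEq, h3] at h1
  exact h1.symm

theorem GP.two_le_ln (R : GP N q PL) (F : Fam G Ω q N) {a b : Ω} (hab : a ≠ b) :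
    2 ≤ (ln N q a b).ncard := by
  have h1 : ({a, b} : Set Ω) ⊆ ln N q a b := by
    rintro x (rfl | rfl)
    · exact ln_left F _ _
    · exact ln_right _ _
  have h2 := Set.ncard_le_ncard h1
  rwa [Set.ncard_pair hab] at h2

/-- two lines through `c` sharing a further point -/
theorem GP.ln_eq' (R : GP N q PL) (F : Fam G Ω q N) {a b c : Ω} (hab : a ≠ b) (hac : a ≠ c)
    (h : c ∈ ln N q a b) : ln N q a c = ln N q a b :=
  R.ln_eq F hab (ln_left F a b) h hac

/-- every flag group fixes a second point -/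
theorem Fam.flag_fix (F : Fam G Ω q N) {a : Ω} {U : Subgroup G} (hU : IsFl (N a) q U) :
    ∃ b, b ≠ a ∧ U ≤ stabilizer G b := by
  obtain ⟨c, hc, hfix⟩ := exists_fixed (fun (g : G) (x : Ω) => g • x) (one_smul G) mul_smul U hU.pg
    ({a}ᶜ : Set Ω) (by
      have h1 := Set.ncard_add_ncard_compl ({a} : Set Ω)
      rw [Set.ncard_singleton] at h1
      obtain ⟨m, hm⟩ := F.even
      refine ⟨m - 1, ?_⟩
      omega) (by
      intro t ht x hx hxa
      apply hx
      have h1 : t • x = a := hxa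
      have h2 : t • a = a := F.le a t (hU.le ht)
      exact smul_left_cancel t (h1.trans h2.symm))
  exact ⟨c, hc, hfix⟩

/-- the plane of `B` -/
def pln (B : Subgroup G) : Set Ω := {c : Ω | B ≤ stabilizer G c}

omit [Finite G] [Finite Ω] in
theorem mem_pln {B : Subgroup G} {c : Ω} : c ∈ (pln B : Set Ω) ↔ B ≤ stabilizer G c := Iff.rfl

/-- planes are subspaces -/
theorem GP.pln_sub (R : GP N q PL) (F : Fam G Ω q N) {a b c : Ω} {B : Subgroup G} (hB : PL a B)
    (hb : b ∈ (pln B : Set Ω)) (hc : c ∈ (pln B : Set Ω)) (hbc : b ≠ c) : ln N q b c ⊆ pln B := by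
  have hBb := R.p1 a b B hB hb
  obtain ⟨U, hU, hBU, hUc⟩ := R.p2 b c B hBb hbc hc
  intro e he
  exact hBU.trans ((R.mem_ln hbc hU hUc).1 he)

theorem GP.self_pln (R : GP N q PL) (F : Fam G Ω q N) {a : Ω} {B : Subgroup G} (hB : PL a B) :
    a ∈ (pln B : Set Ω) := fun x hx => F.le a x ((R.p0 a B hB).le hx)

/-- fixed points of `x ∈ U \ B` in the plane of `B` -/
theorem GP.fix_pln (R : GP N q PL) (F : Fam G Ω q N) {a b c : Ω} {B U : Subgroup G} (hB : PL a B)
    (hab : a ≠ b) (hU : IsFl (N a) q U) (hBU : B ≤ U) (hUb : U ≤ stabilizer G b) (hc : c ∈ (pln B : Set Ω))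
    {x : G} (hx : x ∈ U) (hxB : x ∉ B) (hxc : x • c = c) : c ∈ ln N q a b := by
  by_cases hac : a = c
  · rw [← hac]; exact ln_left F a b
  · exact (R.mem_ln hab hU hUb).2 (R.p3 a c B U x hB hac hc hU hBU hx hxB hxc)

/-- counting the points of a plane -/
theorem GP.pln_card (R : GP N q PL) (F : Fam G Ω q N) {a a₀ b₀ : Ω} (h0 : a₀ ≠ b₀) {B : Subgroup G}
    (hB : PL a B) : (pln B : Set Ω).ncard = 1 + (q + 1) * ((ln N q a₀ b₀).ncard - 1) := by
  obtain ⟨P₀, L₀, h₀⟩ := F.ps a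
  obtain ⟨L, P, h, hBL⟩ := h₀.of_isE (R.p0 a B hB)
  have hU : ∀ A ∈ P, B ⊓ A ≠ ⊥ → IsFl (N a) q (A ⊔ B) := fun A hA hAB => by
    rw [sup_comm]; exact h.isFl hBL hA hAB
  have h1 : (pln B : Set Ω) \ {a} = ⋃ A ∈ {A | A ∈ P ∧ B ⊓ A ≠ ⊥}, (pln (A ⊔ B) : Set Ω) \ {a} := by
    ext c
    simp only [Set.mem_iUnion, Set.mem_diff, Set.mem_singleton_iff, exists_prop, Set.mem_setOf_eq]
    constructor
    · rintro ⟨hc, hca⟩
      obtain ⟨U, hUf, hBU, hUc⟩ := R.p2 a c B hB (Ne.symm hca) hc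
      obtain ⟨A, hA, hAB, rfl⟩ := h.symm.fl_mem hBL hUf hBU
      exact ⟨A, ⟨hA, inf_ne hAB⟩, hUc, hca⟩
    · rintro ⟨A, ⟨hA, hAB⟩, hc, hca⟩
      exact ⟨fun x hx => hc (mem_sup_right hx), hca⟩
  have h2 := ncard_biUnion_const {A | A ∈ P ∧ B ⊓ A ≠ ⊥} (fun A => (pln (A ⊔ B) : Set Ω) \ {a})
    ((ln N q a₀ b₀).ncard - 1) (by
      rintro A ⟨hA, hAB⟩
      obtain ⟨b, hba, hUb⟩ := F.flag_fix (hU A hA hAB)
      have h3 : (pln (A ⊔ B) : Set Ω) = ln N q a b := by
        ext c; rw [R.mem_ln (Ne.symm hba) (hU A hA hAB) hUb]; rfl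
      rw [h3, Set.ncard_diff_singleton_of_mem (ln_left F a b), R.ln_card F (Ne.symm hba) h0]) (by
      rintro A ⟨hA, hAB⟩ A' ⟨hA', hAB'⟩ hne
      rw [Set.disjoint_left]
      rintro c ⟨hc, hca⟩ ⟨hc', _⟩
      have h3 := R.p4 a c B (A ⊔ B) (A' ⊔ B) hB (Ne.symm hca) (hU A hA hAB) le_sup_right hc
        (hU A' hA' hAB') le_sup_right hc'
      -- `A = A'`
      rcases h.char_U hBL hA hAB (h.h2.card A' hA') (h.h2.sq A' hA') (by
        rw [sup_comm B A, h3]; exact le_sup_left) with h4 | h4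
      · exact h.disj hBL (h4 ▸ hA')
      · exact hne h4.symm)
  rw [← h1, h.h1.deg B hBL, Set.ncard_diff_singleton_of_mem (R.self_pln F hB)] at h2
  have h3 : 0 < (pln B : Set Ω).ncard := (Set.ncard_pos).2 ⟨a, R.self_pln F hB⟩
  omega

/-- `k ∣ q` -/
theorem GP.k_dvd (R : GP N q PL) (F : Fam G Ω q N) {a₀ b₀ : Ω} (h0 : a₀ ≠ b₀) :
    (ln N q a₀ b₀).ncard ∣ q := by
  classical
  set k := (ln N q a₀ b₀).ncard with hk
  have hk2 := R.two_le_ln F h0
  rw [← hk] at hk2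
  obtain ⟨B, hB⟩ := R.ex a₀
  set a := a₀ with ha
  obtain ⟨P₀, L₀, h₀⟩ := F.ps a
  obtain ⟨L, P, h, hBL⟩ := h₀.of_isE (R.p0 a B hB)
  obtain ⟨A, hA, hBA⟩ := h.exists_inc hBL
  have hUf : IsFl (N a) q (A ⊔ B) := by rw [sup_comm]; exact h.isFl hBL hA hBA
  obtain ⟨b, hba, hUb⟩ := F.flag_fix hUf
  have hab := Ne.symm hba
  obtain ⟨z, hzA, hzB⟩ := h.symm.exists_not_mem hA hBL
  have hz2 := h.h2.sq A hA z hzA
  have hzU : z ∈ A ⊔ B := mem_sup_left hzA
  have hℓ : ∀ c, c ∈ ln N q a b ↔ A ⊔ B ≤ stabilizer G c := fun c => R.mem_ln hab hUf hUb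
  have hfix : ∀ c ∈ (pln B : Set Ω), z • c = c → c ∈ ln N q a b := fun c hc hzc =>
    R.fix_pln F hB hab hUf le_sup_right hUb hc hzU hzB hzc
  have hzz : ∀ c : Ω, z • z • c = c := fun c => by rw [← mul_smul, hz2, one_smul]
  have hℓsub : ln N q a b ⊆ pln B := fun c hc => le_sup_right.trans ((hℓ c).1 hc)
  have hzpln : ∀ c ∈ (pln B : Set Ω), z • c ∈ (pln B : Set Ω) := by
    intro c hc
    have h1 : cj z B = B := (h.symm.U_norm hA hBL (inf_ne hBA) hzU).2
    have := cj_le_stab (g := z) hc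
    rwa [h1] at this
  set f : Ω → Set Ω := fun x => if x ∈ ln N q a b then ln N q a b else ln N q x (z • x) with hf
  -- invariant lines are disjoint from `ℓ`
  have hinv : ∀ x ∈ (pln B : Set Ω), x ∉ ln N q a b → x ≠ z • x ∧ (∀ y ∈ ln N q x (z • x), y ∉ ln N q a b) ∧
      (∀ y ∈ ln N q x (z • x), z • y ∈ ln N q x (z • x)) := by
    intro x hx hxℓ
    have hne : x ≠ z • x := fun e => hxℓ (hfix x hx e.symm)
    have hm : z • ln N q x (z • x) = ln N q x (z • x) := by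
      rw [← R.ln_smul F hne, hzz, R.ln_symm F hne]
    have hmz : ∀ y ∈ ln N q x (z • x), z • y ∈ ln N q x (z • x) := by
      intro y hy
      rw [← hm]; exact Set.smul_mem_smul_set hy
    refine ⟨hne, ?_, hmz⟩
    intro y hy hyℓ
    have hzy : z • y = y := (hℓ y).1 hyℓ hzU
    obtain ⟨w, ⟨hw, hwy⟩, hzw⟩ := exists_fixed_elt (fun (g : G) (x : Ω) => g • x) (one_smul G) mul_smul
      (g := z) ⟨1, by simpa [pow_two] using hz2⟩ (ln N q x (z • x) \ {y}) (by
        rw [Set.ncard_diff_singleton_of_mem hy, R.ln_card F hne h0, ← hk]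
        have := R.ln_even F h0
        rw [← hk] at this
        obtain ⟨m, hm⟩ := this
        exact ⟨m - 1, by omega⟩) (by
        rintro s ⟨hs, hsy⟩
        exact ⟨hmz s hs, fun e => hsy (smul_left_cancel z (Eq.trans e hzy.symm))⟩)
    have hwp : w ∈ (pln B : Set Ω) := R.pln_sub F hB hx (hzpln x hx) hne hw
    have hwℓ := hfix w hwp hzw
    have h1 : ln N q w y = ln N q a b := R.ln_eq F hab hwℓ hyℓ hwy
    have h2 : ln N q w y = ln N q x (z • x) := R.ln_eq F hne hw hy hwy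
    exact hxℓ (by rw [← h1, h2]; exact ln_left F _ _)
  have hdvd := part_dvd f (pln B) k (by
    intro x hx
    simp only [hf]
    split_ifs with h1
    · exact h1
    · exact ln_left F _ _) (by
    intro x hx
    simp only [hf]
    split_ifs with h1
    · exact hℓsub
    · exact R.pln_sub F hB hx (hzpln x hx) (hinv x hx h1).1) (by
    intro x hx y hy
    simp only [hf] at hy ⊢
    split_ifs at hy with h1
    · rw [if_pos hy, if_pos h1]
    · obtain ⟨e1, e2, e3⟩ := hinv x hx h1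
      rw [if_neg (e2 y hy), if_neg h1]
      have hyp : y ∈ (pln B : Set Ω) := R.pln_sub F hB hx (hzpln x hx) e1 hy
      exact R.ln_eq F e1 hy (e3 y hy) (hinv y hyp (e2 y hy)).1) (by
    intro x hx
    simp only [hf]
    split_ifs with h1
    · rw [R.ln_card F hab h0]
    · rw [R.ln_card F (hinv x hx h1).1 h0])
  rw [R.pln_card F h0 hB, ← hk] at hdvd
  obtain ⟨m, hm⟩ : ∃ m, k = m + 1 := ⟨k - 1, by omega⟩
  rw [hm] at hdvd ⊢
  have h1 : 1 + (q + 1) * (m + 1 - 1) + q = (q + 1) * (m + 1) := by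
    rw [Nat.add_sub_cancel]; ring
  exact (Nat.dvd_add_right hdvd).1 (h1 ▸ Dvd.intro_left _ rfl)

end Cfsg.Agent.P3
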