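import Cfsg.Agent.P3.Pl1
import Cfsg.Agent.H55.NumTh

/-! The line size is `2` or `q`. -/

set_option autoImplicit false
set_option linter.all false

open scoped Pointwise

namespace Cfsg.Agent.P3

open Subgroup MulAction

theorem cyc_eq {T : Type*} [Group T] [Finite T] [IsCyclic T] {H K : Subgroup T}
    (hc : Nat.card H = Nat.card K) : H = K := by
  classical
  haveI := Fintype.ofFinite T
  have key : ∀ H : Subgroup T, (H : Set T) = {x | x ^ Nat.card H = 1} := by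
    intro H
    apply Set.eq_of_subset_of_ncard_le
    · intro x hx
      have h1 : (⟨x, hx⟩ : H) ^ Nat.card H = 1 := pow_card_eq_one'
      exact congrArg Subtype.val h1
    · have h2 := IsCyclic.card_pow_eq_one_le (α := T) (n := Nat.card H) Nat.card_pos
      have h3 : ({x : T | x ^ Nat.card H = 1}).ncard = (Finset.univ.filter fun x : T => x ^ Nat.card H = 1).card := by
        rw [← Set.ncard_coe_finset]; congr 1; ext x; simp
      rw [h3]
      have h4 : (H : Set T).ncard = Nat.card H := rfl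
      rw [h4]; exact h2
    · exact Set.toFinite _
  exact SetLike.coe_injective (by rw [key H, key K, hc])

variable {G Ω : Type*} [Group G] [Finite G] [Finite Ω] [MulAction G Ω] {q : ℕ} {N : Ω → Subgroup G}
  {PL : Ω → Subgroup G → Prop}

theorem cyc_eq' {t : G} {H K : Subgroup G} (hH : H ≤ zpowers t) (hK : K ≤ zpowers t)
    (hc : Nat.card H = Nat.card K) : H = K := by
  have h1 : H.subgroupOf (zpowers t) = K.subgroupOf (zpowers t) := by
    apply cyc_eq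
    rw [Nat.card_congr (subgroupOfEquivOfLe hH).toEquiv, Nat.card_congr (subgroupOfEquivOfLe hK).toEquiv, hc]
  rw [Subgroup.subgroupOf_inj] at h1
  rwa [inf_eq_left.2 hH, inf_eq_left.2 hK] at h1

theorem orb_card (H : Subgroup G) (x : Ω) :
    {y : Ω | ∃ g ∈ H, g • x = y}.ncard * Nat.card ↥(H ⊓ stabilizer G x) = Nat.card H := by
  have h1 : {y : Ω | ∃ g ∈ H, g • x = y} = orbit H x := by
    ext y
    constructor
    · rintro ⟨g, hg, rfl⟩; exact ⟨⟨g, hg⟩, rfl⟩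
    · rintro ⟨g, rfl⟩; exact ⟨g, g.2, rfl⟩
  have h2 : Nat.card ↥(H ⊓ stabilizer G x) = Nat.card (stabilizer H x) := by
    refine Nat.card_congr
      { toFun := fun g => ⟨⟨g, (Subgroup.mem_inf.1 g.2).1⟩, (Subgroup.mem_inf.1 g.2).2⟩
        invFun := fun g => ⟨(g : H), Subgroup.mem_inf.2 ⟨(g : H).2, g.2⟩⟩
        left_inv := fun g => rfl
        right_inv := fun g => rfl }
  rw [h1, h2, ← MulAction.index_stabilizer, mul_comm]
  exact Subgroup.card_mul_index _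

theorem GP.torus_dvd (R : GP N q PL) (F : Fam G Ω q N) {a b₀ : Ω} (h0 : a ≠ b₀) :
    (q - 1) / Nat.gcd (q - 1) ((ln N q a b₀).ncard - 2) ∣ (ln N q a b₀).ncard - 1 := by
  classical
  set k := (ln N q a b₀).ncard with hk
  obtain ⟨B, hB⟩ := R.ex a
  obtain ⟨P₀, L₀, h₀⟩ := F.ps a
  obtain ⟨L, P, hs, hBL⟩ := h₀.of_isE (R.p0 a B hB)
  have h := hs.symm
  have hq := h.two_le
  obtain ⟨A₁, hA₁, hBA₁⟩ := h.symm.exists_inc hBL
  have hAB₁ := inf_ne hBA₁
  obtain ⟨A₂, hA₂, hAB₂, hne, -⟩ := h.third hBL A₁ A₁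
  obtain ⟨A₃, hA₃, hAB₃, hne31, hne32⟩ := h.third hBL A₁ A₂
  have hUf : ∀ A ∈ P, A ⊓ B ≠ ⊥ → IsFl (N a) q (A ⊔ B) := fun A hA hAB => h.isFl hA hBL hAB
  have huniq : ∀ A ∈ P, ∀ A' ∈ P, A ⊓ B ≠ ⊥ → A' ⊓ B ≠ ⊥ → ∀ c : Ω, c ≠ a → A ⊔ B ≤ stabilizer G c →
      A' ⊔ B ≤ stabilizer G c → A = A' := by
    intro A hA A' hA' hAB hAB' c hca hc hc'
    have h3 := R.p4 a c B (A ⊔ B) (A' ⊔ B) hB (Ne.symm hca) (hUf A hA hAB) le_sup_right hc
        (hUf A' hA' hAB') le_sup_right hc'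
    rcases h.char_U hA hBL hAB (h.h1.card A' hA') (h.h1.sq A' hA') (by
        rw [h3]; exact le_sup_left) with h4 | h4
    · exact h4.symm
    · exact absurd (h4 ▸ hA') (h.symm.disj hBL)
  obtain ⟨t, htY, hto, htA₁, htA₂, htB, hsr, hlast⟩ := h.h1.torus B hBL A₁ hA₁ A₂ hA₂ (Ne.symm hne) hAB₁ hAB₂
  have htN := h.YY_le_N htY
  have hta : ∀ x ∈ N a, x • a = a := F.le a
  have hTp : ∀ x ∈ zpowers t, ∃ i : ℕ, x = t ^ i := by
    intro x hx
    obtain ⟨i, rfl⟩ := (mem_powers_iff_mem_zpowers (x := t) (y := x)).2 hx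
    exact ⟨i, rfl⟩
  have hTN : ∀ x ∈ zpowers t, x ∈ N a := by
    intro x hx
    obtain ⟨i, rfl⟩ := hTp x hx
    exact (N a).pow_mem htN i
  have hTY : ∀ x ∈ zpowers t, x ∈ YY P B := by
    intro x hx
    obtain ⟨i, rfl⟩ := hTp x hx
    exact (YY P B).pow_mem htY i
  have hTB : ∀ x ∈ zpowers t, cj x B = B ∧ cj x A₁ = A₁ ∧ cj x A₂ = A₂ := by
    intro x hx
    obtain ⟨i, rfl⟩ := hTp x hx
    exact ⟨cj_pow_eq htB i, cj_pow_eq htA₁ i, cj_pow_eq htA₂ i⟩
  have hTpln : ∀ x : G, cj x B = B → ∀ c ∈ (pln B : Set Ω), x • c ∈ (pln B : Set Ω) := by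
    intro x hx c hc
    have := cj_le_stab (g := x) hc
    rwa [hx] at this
  -- fixed points of the torus
  have hTfix : ∀ x ∈ zpowers t, x ≠ 1 → ∀ e ∈ (pln B : Set Ω), e ≠ a → x • e = e →
      A₁ ⊔ B ≤ stabilizer G e ∨ A₂ ⊔ B ≤ stabilizer G e := by
    intro x hx hx1 e he hea hxe
    obtain ⟨U, hU, hBU, hUe⟩ := R.p2 a e B hB (Ne.symm hea) he
    obtain ⟨A, hA, hAB, rfl⟩ := h.fl_mem hBL hU hBU
    have hxA : cj x A ∈ P := h.h1.conj x (hTN x hx) A hA
    have hxAB : cj x A ⊓ B ≠ ⊥ := by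
      have : cj x A ⊓ B = cj x (A ⊓ B) := by rw [cj_inf, (hTB x hx).1]
      rw [this]; exact fun h3 => hAB (cj_eq_bot.1 h3)
    have h1 : cj x A ⊔ B ≤ stabilizer G e := by
      have h2 := cj_le_stab (g := x) hUe
      rwa [cj_sup, (hTB x hx).1, hxe] at h2
    have h2 := huniq A hA (cj x A) hxA hAB hxAB e hea hUe h1
    obtain ⟨i, rfl⟩ := hTp x hx
    rcases hsr A hA hAB i hx1 h2.symm with h3 | h3
    · left; rw [← h3]; exact hUe
    · right; rw [← h3]; exact hUe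
  -- the element swapping `A₁` and `A₂`
  obtain ⟨s, hs3, hsA⟩ := h.symm.trans_lines hBL hA₃ (inf_ne hAB₃) hA₁ (inf_ne hAB₁) (Ne.symm hne31) hA₂
    (inf_ne hAB₂) (Ne.symm hne32)
  have hs2 : s * s = 1 := h.h1.sq A₃ hA₃ s hs3
  have hsi : s⁻¹ = s := inv_of_sq hs2
  have hsA' : cj s A₂ = A₁ := by rw [← hsA, ← cj_mul, hs2, cj_one]
  have hsY : s ∈ YY P B := le_YY hA₃ hAB₃ hs3
  have hsB : cj s B = B := h.YY_norm hBL s hsY
  have hss : ∀ c : Ω, s • s • c = c := fun c => by rw [← mul_smul, hs2, one_smul]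
  have hsa : s • a = a := hta s (h.YY_le_N hsY)
  -- comparison of the stabilizers
  have hle : ∀ c ∈ (pln B : Set Ω), Nat.card ↥(zpowers t ⊓ stabilizer G c) ≤
      Nat.card ↥(zpowers t ⊓ stabilizer G (s • c)) := by
    intro c hc
    have key : ∀ x : ↥(zpowers t ⊓ stabilizer G c), ∃ y : ↥(zpowers t ⊓ stabilizer G (s • c)),
        ∃ b ∈ B, s * (x : G) * s⁻¹ = y * b := by
      rintro ⟨x, hx⟩
      obtain ⟨hxT, hxc⟩ := Subgroup.mem_inf.1 hx
      have hr : s * x * s⁻¹ ∈ YY P B := (YY P B).mul_mem ((YY P B).mul_mem hsY (hTY x hxT)) ((YY P B).inv_mem hsY)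
      have hr1 : cj (s * x * s⁻¹) A₁ = A₁ := by
        rw [cj_mul, cj_mul, hsi, hsA, (hTB x hxT).2.2, hsA']
      have hr2 : cj (s * x * s⁻¹) A₂ = A₂ := by
        rw [cj_mul, cj_mul, hsi, hsA', (hTB x hxT).2.1, hsA]
      obtain ⟨i, b, hb, h1⟩ := hlast _ hr hr1 hr2
      refine ⟨⟨t ^ i, Subgroup.mem_inf.2 ⟨(zpowers t).pow_mem (mem_zpowers t) i, ?_⟩⟩, b, hb, h1⟩
      have h2 : t ^ i = s * x * s⁻¹ * b⁻¹ := by rw [h1]; simp
      have h3 : b⁻¹ • s • c = s • c := (hTpln s hsB c hc) (B.inv_mem hb)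
      show t ^ i • s • c = s • c
      rw [h2, mul_smul, h3, mul_smul, mul_smul, inv_smul_smul]
      have hxc' : x • c = c := hxc
      rw [hxc']
    choose φ β hβ hφ using key
    refine Nat.card_le_card_of_injective φ ?_
    rintro ⟨x, hx⟩ ⟨y, hy⟩ hxy
    have e1 := hφ ⟨x, hx⟩
    have e2 := hφ ⟨y, hy⟩
    rw [← hxy] at e2
    have hb1 := hβ ⟨x, hx⟩
    have hb2 := hβ ⟨y, hy⟩
    simp only at e1 e2
    have h3 : s * (x⁻¹ * y) * s⁻¹ ∈ B := by
      have h4 : s * (x⁻¹ * y) * s⁻¹ = (s * x * s⁻¹)⁻¹ * (s * y * s⁻¹) := by simp [mul_assoc]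
      rw [h4, e1, e2, mul_inv_rev]
      have : (β ⟨x, hx⟩)⁻¹ * (φ ⟨x, hx⟩ : G)⁻¹ * ((φ ⟨x, hx⟩ : G) * β ⟨y, hy⟩) = (β ⟨x, hx⟩)⁻¹ * β ⟨y, hy⟩ := by
        simp [mul_assoc]
      rw [this]
      exact B.mul_mem (B.inv_mem hb1) hb2
    have h5 : x⁻¹ * y ∈ B := by
      have := conj_mem_of_cj (cj_inv_eq hsB) h3
      simpa [mul_assoc] using this
    have hxT := (Subgroup.mem_inf.1 hx).1
    have hyT := (Subgroup.mem_inf.1 hy).1
    have hxyT : x⁻¹ * y ∈ zpowers t := (zpowers t).mul_mem ((zpowers t).inv_mem hxT) hyT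
    have h6 : x⁻¹ * y = 1 := by
      by_contra hne1
      obtain ⟨i, hi⟩ := hTp _ hxyT
      have h7 : cj (t ^ i) A₃ = A₃ := by
        rw [← hi]; exact h.h2.norm B hBL A₃ hA₃ (inf_ne hAB₃) _ h5
      rcases hsr A₃ hA₃ hAB₃ i (by rw [← hi]; exact hne1) h7 with h8 | h8
      · exact hne31 h8
      · exact hne32 h8
    exact Subtype.ext (inv_mul_eq_one.1 h6)
  have hTeq : ∀ c ∈ (pln B : Set Ω), zpowers t ⊓ stabilizer G c = zpowers t ⊓ stabilizer G (s • c) := by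
    intro c hc
    refine cyc_eq' inf_le_left inf_le_left (le_antisymm (hle c hc) ?_)
    have := hle (s • c) (hTpln s hsB c hc)
    rwa [hss] at this
  -- the line `ℓ₁`
  obtain ⟨b₁, hb₁, hUb₁⟩ := F.flag_fix (hUf A₁ hA₁ hAB₁)
  have hℓ₁ : ∀ c, c ∈ ln N q a b₁ ↔ A₁ ⊔ B ≤ stabilizer G c := fun c =>
    R.mem_ln (Ne.symm hb₁) (hUf A₁ hA₁ hAB₁) hUb₁
  -- stabilizer orders divide `k - 2`
  have hdvd : ∀ c, c ≠ a → A₁ ⊔ B ≤ stabilizer G c → Nat.card ↥(zpowers t ⊓ stabilizer G c) ∣ k - 2 := by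
    intro c hca hc
    have hcB : c ∈ (pln B : Set Ω) := fun x hx => hc (mem_sup_right hx)
    set c' := s • c with hc'
    have hc'B : c' ∈ (pln B : Set Ω) := hTpln s hsB c hcB
    have hc'a : c' ≠ a := fun e => hca (smul_left_cancel s (e.trans hsa.symm))
    have hUc' : A₂ ⊔ B ≤ stabilizer G c' := by
      have := cj_le_stab (g := s) hc
      rwa [cj_sup, hsA, hsB] at this
    have hc'1 : ¬ A₁ ⊔ B ≤ stabilizer G c' := fun h1 =>
      hne (huniq A₁ hA₁ A₂ hA₂ hAB₁ hAB₂ c' hc'a h1 hUc').symm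
    have hc2 : ¬ A₂ ⊔ B ≤ stabilizer G c := fun h1 =>
      hne (huniq A₁ hA₁ A₂ hA₂ hAB₁ hAB₂ c hca hc h1).symm
    have hcc' : c ≠ c' := fun e => hc'1 (e ▸ hc)
    set H := zpowers t ⊓ stabilizer G c with hH
    have hHc' : H = zpowers t ⊓ stabilizer G c' := hTeq c hcB
    have hHm : ∀ x ∈ H, ∀ e ∈ ln N q c c', x • e ∈ ln N q c c' := by
      intro x hx e he
      have h1 := R.ln_smul F hcc' x
      have h2 : x • c = c := (Subgroup.mem_inf.1 hx).2
      have h3 : x • c' = c' := by rw [hHc'] at hx; exact (Subgroup.mem_inf.1 hx).2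
      rw [h2, h3] at h1
      rw [h1]; exact Set.smul_mem_smul_set he
    -- `c'` not on the line `a c`
    have hnot : ∀ e, e ≠ c → A₁ ⊔ B ≤ stabilizer G e → e ∉ ln N q c c' := by
      intro e hec he hem
      have h1 : ln N q c e = ln N q c c' := R.ln_eq' F hcc' (Ne.symm hec) hem
      have h2 : ln N q c e = ln N q a b₁ := R.ln_eq F (Ne.symm hb₁) ((hℓ₁ c).2 hc) ((hℓ₁ e).2 he) (Ne.symm hec)
      have h3 : c' ∈ ln N q a b₁ := by rw [← h2, h1]; exact ln_right _ _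
      exact hc'1 ((hℓ₁ c').1 h3)
    obtain ⟨b₂, hb₂, hUb₂⟩ := F.flag_fix (hUf A₂ hA₂ hAB₂)
    have hℓ₂ : ∀ c, c ∈ ln N q a b₂ ↔ A₂ ⊔ B ≤ stabilizer G c := fun c =>
      R.mem_ln (Ne.symm hb₂) (hUf A₂ hA₂ hAB₂) hUb₂
    have hnot' : ∀ e, e ≠ c' → A₂ ⊔ B ≤ stabilizer G e → e ∉ ln N q c c' := by
      intro e hec he hem
      have h1 : ln N q c' e = ln N q c c' := R.ln_eq F hcc' (ln_right _ _) hem (Ne.symm hec)
      have h2 : ln N q c' e = ln N q a b₂ := R.ln_eq F (Ne.symm hb₂) ((hℓ₂ c').2 hUc') ((hℓ₂ e).2 he) (Ne.symm hec)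
      have h3 : c ∈ ln N q a b₂ := by rw [← h2, h1]; exact ln_left F _ _
      exact hc2 ((hℓ₂ c).1 h3)
    have hfree : ∀ x ∈ H, x ≠ 1 → ∀ e ∈ ln N q c c', x • e = e → e = c ∨ e = c' := by
      intro x hx hx1 e he hxe
      have heB : e ∈ (pln B : Set Ω) := R.pln_sub F hB hcB hc'B hcc' he
      by_cases hea : e = a
      · exfalso
        refine hnot e (by rw [hea]; exact Ne.symm hca) ?_ he
        rw [hea]; exact fun y hy => F.le a y ((hUf A₁ hA₁ hAB₁).le hy)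
      rcases hTfix x (Subgroup.mem_inf.1 hx).1 hx1 e heB hea hxe with h1 | h1
      · left; by_contra h2; exact hnot e h2 h1 he
      · right; by_contra h2; exact hnot' e h2 h1 he
    have hcount := part_dvd (fun x : Ω => {y : Ω | ∃ g ∈ H, g • x = y}) (ln N q c c' \ {c, c'}) (Nat.card H)
      (fun x _ => ⟨1, H.one_mem, one_smul G x⟩) (by
        rintro x ⟨hx, hx'⟩ y ⟨g, hg, rfl⟩
        refine ⟨hHm g hg x hx, ?_⟩
        rintro (e | e)
        · apply hx'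
          left
          have h2 : g • c = c := (Subgroup.mem_inf.1 hg).2
          exact smul_left_cancel g (e.trans h2.symm)
        · apply hx'
          right
          have h2 : g • c' = c' := by rw [hHc'] at hg; exact (Subgroup.mem_inf.1 hg).2
          exact smul_left_cancel g (Eq.trans e h2.symm)) (by
        rintro x hx y ⟨g, hg, rfl⟩
        ext z
        constructor
        · rintro ⟨g', hg', rfl⟩
          exact ⟨g' * g, H.mul_mem hg' hg, by rw [mul_smul]⟩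
        · rintro ⟨g', hg', rfl⟩
          exact ⟨g' * g⁻¹, H.mul_mem hg' (H.inv_mem hg), by rw [mul_smul, inv_smul_smul]⟩) (by
        rintro x ⟨hx, hx'⟩
        have h1 := orb_card H x
        have h2 : H ⊓ stabilizer G x = ⊥ := by
          rw [eq_bot_iff]
          intro y hy
          by_contra hy1
          obtain ⟨hyH, hyx⟩ := Subgroup.mem_inf.1 hy
          rcases hfree y hyH (fun e => hy1 (by rw [e]; exact one_mem _)) x hx hyx with h3 | h3
          · exact hx' (Or.inl h3)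
          · exact hx' (Or.inr h3)
        rw [h2, Subgroup.card_bot, mul_one] at h1
        rw [← h1])
    have hk2 : (ln N q c c' \ {c, c'}).ncard = k - 2 := by
      have h1 : ({c, c'} : Set Ω) ⊆ ln N q c c' := by
        rintro x (rfl | rfl)
        · exact ln_left F _ _
        · exact ln_right _ _
      rw [Set.ncard_diff h1, Set.ncard_pair hcc', R.ln_card F hcc' h0, ← hk]
    rwa [hk2] at hcount
  -- orbits of the torus on `ℓ₁ \ {a}`
  have hfin := part_dvd (fun x : Ω => {y : Ω | ∃ g ∈ zpowers t, g • x = y}) (ln N q a b₁ \ {a})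
    ((q - 1) / Nat.gcd (q - 1) (k - 2)) (fun x _ => ⟨1, one_mem _, one_smul G x⟩) (by
      rintro x ⟨hx, hxa⟩ y ⟨g, hg, rfl⟩
      refine ⟨?_, fun e => hxa ?_⟩
      · rw [hℓ₁] at hx ⊢
        have h1 := cj_le_stab (g := g) hx
        rwa [cj_sup, (hTB g hg).1, (hTB g hg).2.1] at h1
      · exact smul_left_cancel g (Eq.trans e (hta g (hTN g hg)).symm)) (by
      rintro x hx y ⟨g, hg, rfl⟩
      ext z
      constructor
      · rintro ⟨g', hg', rfl⟩
        exact ⟨g' * g, mul_mem hg' hg, by rw [mul_smul]⟩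
      · rintro ⟨g', hg', rfl⟩
        exact ⟨g' * g⁻¹, mul_mem hg' (inv_mem hg), by rw [mul_smul, inv_smul_smul]⟩) (by
      rintro x ⟨hx, hxa⟩
      have h1 := orb_card (zpowers t) x
      rw [Nat.card_zpowers, hto] at h1
      have h2 := hdvd x hxa ((hℓ₁ x).1 hx)
      have h3 : Nat.card ↥(zpowers t ⊓ stabilizer G x) ∣ Nat.gcd (q - 1) (k - 2) :=
        Nat.dvd_gcd (Dvd.intro_left _ h1) h2
      obtain ⟨w, hw⟩ := h3
      obtain ⟨u, hu⟩ := Nat.gcd_dvd_left (q - 1) (k - 2)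
      have hg0 : 0 < Nat.gcd (q - 1) (k - 2) := Nat.gcd_pos_of_pos_left _ (by omega)
      have he0 : 0 < Nat.card ↥(zpowers t ⊓ stabilizer G x) := Nat.card_pos
      have h4 : (q - 1) / Nat.gcd (q - 1) (k - 2) = u := by
        rw [Nat.div_eq_of_eq_mul_right hg0 hu]
      rw [h4]
      refine ⟨w, ?_⟩
      apply Nat.eq_of_mul_eq_mul_right he0
      rw [h1]
      calc q - 1 = Nat.gcd (q - 1) (k - 2) * u := hu
        _ = (Nat.card ↥(zpowers t ⊓ stabilizer G x) * w) * u := by rw [← hw]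
        _ = u * w * Nat.card ↥(zpowers t ⊓ stabilizer G x) := by ring)
  rwa [Set.ncard_diff_singleton_of_mem (ln_left F a b₁), R.ln_card F (Ne.symm hb₁) h0, ← hk] at hfin

/-- `k = 2` or `k = q`. -/
theorem GP.k_cases (R : GP N q PL) (F : Fam G Ω q N) {a b : Ω} (hab : a ≠ b) :
    (ln N q a b).ncard = 2 ∨ (ln N q a b).ncard = q := by
  obtain ⟨P, L, h⟩ := F.ps a
  obtain ⟨n, hn, hq⟩ := h.pow
  have h1 := R.k_dvd F hab
  have h2 := R.torus_dvd F hab
  have h3 := R.two_le_ln F hab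
  set k := (ln N q a b).ncard with hk
  rw [hq] at h1 h2
  obtain ⟨j, hj, hkj⟩ := (Nat.dvd_prime_pow Nat.prime_two).1 h1
  rw [hkj] at h2
  have hj1 : 1 ≤ j := by
    rcases Nat.eq_zero_or_pos j with h4 | h4
    · rw [h4] at hkj; omega
    · exact h4
  rcases H55.numth n j hj1 hj h2 with h4 | h4
  · left; rw [hkj, h4]; norm_num
  · right; rw [hkj, h4, hq]

end Cfsg.Agent.P3
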