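import Cfsg.Agent.P3.Pl2
import Cfsg.Agent.P3.AffDef

/-! The affine structure (parabolic type, `k = q`). -/

set_option autoImplicit false
set_option linter.all false

open scoped Pointwise

namespace Cfsg.Agent.P3

open Subgroup MulAction

variable {G Ω : Type*} [Group G] [Finite G] [Finite Ω] [MulAction G Ω] {q : ℕ} {N : Ω → Subgroup G}
  {E : Ω → Ω → Subgroup G}

theorem PD.surj (D : PD N q E) (F : Fam G Ω q N) {a : Ω} {P L : Set (Subgroup G)} (h : PS (N a) q P L)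
    (hE : ∀ b, b ≠ a → E a b ∈ P) {A : Subgroup G} (hA : A ∈ P) : ∃ b, b ≠ a ∧ E a b = A := by
  obtain ⟨b, hb⟩ := F.exists_ne a
  obtain ⟨n, hn, h2⟩ := h.trans_P (hE b hb) hA
  have hna : n • a = a := F.le a n hn
  have h3 := D.conj F (Ne.symm hb) n
  rw [hna, h2] at h3
  exact ⟨n • b, fun e => hb (smul_left_cancel n (e.trans hna.symm)), h3.symm⟩

theorem PD.memL (D : PD N q E) (F : Fam G Ω q N) {a : Ω} {P L : Set (Subgroup G)} (h : PS (N a) q P L)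
    (hE : ∀ b, b ≠ a → E a b ∈ P) {B : Subgroup G} :
    (IsE (N a) q B ∧ ∀ b, b ≠ a → E a b ≠ B) ↔ B ∈ L := by
  constructor
  · intro hB
    rcases h.char hB.1.le hB.1.card hB.1.sq with h1 | h1
    · exfalso
      obtain ⟨b, hb, h2⟩ := D.surj F h hE h1
      exact hB.2 b hb h2
    · exact h1
  · intro hB
    exact ⟨h.symm.isE hB, fun b hb e => h.disj (hE b hb) (e ▸ hB)⟩

theorem PD.mem_pln (D : PD N q E) (F : Fam G Ω q N) {a b : Ω} {P L : Set (Subgroup G)}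
    (h : PS (N a) q P L) (hE : ∀ b, b ≠ a → E a b ∈ P) {B : Subgroup G} (hB : B ∈ L) (hb : b ≠ a) :
    b ∈ (pln B : Set Ω) ↔ E a b ⊓ B ≠ ⊥ := by
  constructor
  · intro hBb
    exact h.inc_of_fix (hE b hb) hB fun x hx => D.e3 a b (Ne.symm hb) x (h.h2.le B hB hx) (hBb hx)
  · intro h1
    have h2 := D.e2 a b (Ne.symm hb)
    rw [h.YYc_eq (hE b hb)] at h2
    exact (le_YY hB (inf_ne h1)).trans h2

theorem PD.mem_ln (D : PD N q E) (F : Fam G Ω q N) {a b c : Ω} (hab : a ≠ b) (hac : a ≠ c) :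
    c ∈ ln N q a b ↔ E a c = E a b := by
  obtain ⟨P, L, h, hE⟩ := D.type F a
  have hA := hE b (Ne.symm hab)
  obtain ⟨B, hB, hAB⟩ := h.exists_inc hA
  have hU := h.isFl hA hB hAB
  have hUst : ∀ c, a ≠ c → E a c = E a b → E a b ⊔ B ≤ stabilizer G c := by
    intro c hac hc
    have h2 := D.e2 a c hac
    rw [hc, h.YYc_eq hA] at h2
    exact (h.U_le_YY hA hB hAB).trans h2
  rw [(D.gp F).mem_ln hab hU (hUst b hab rfl)]
  exact ⟨fun h1 => D.fix_E F hab hac (le_sup_left.trans h1), fun h1 => hUst c hac h1⟩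

theorem PD.line (D : PD N q E) (F : Fam G Ω q N) {a b c d : Ω} (hab : a ≠ b) (hcd : c ≠ d)
    (hc : c ∈ ln N q a b) (hd : d ∈ ln N q a b) : E c d = E a b := by
  by_cases hac : a = c
  · subst hac
    exact (D.mem_ln F hab hcd).1 hd
  have h1 : E a c = E a b := (D.mem_ln F hab hac).1 hc
  have h2 : E c a = E a c := D.symm F hac
  have h3 : ln N q c d = ln N q a b := (D.gp F).ln_eq F hab hc hd hcd
  have h4 : a ∈ ln N q c d := by rw [h3]; exact ln_left F a b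
  have h5 : E c a = E c d := (D.mem_ln F hcd (Ne.symm hac)).1 h4
  rw [← h5, h2, h1]

theorem PD.card (D : PD N q E) (F : Fam G Ω q N) {a₀ b₀ : Ω} (h0 : a₀ ≠ b₀) :
    Nat.card Ω = 1 + (q ^ 2 + q + 1) * ((ln N q a₀ b₀).ncard - 1) := by
  set a := a₀ with ha
  obtain ⟨P, L, h, hE⟩ := D.type F a
  have h1 : ({a}ᶜ : Set Ω) = ⋃ A ∈ P, {b | b ≠ a ∧ E a b = A} := by
    ext c
    simp only [Set.mem_iUnion, Set.mem_compl_iff, Set.mem_singleton_iff, exists_prop, Set.mem_setOf_eq]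
    exact ⟨fun hc => ⟨E a c, hE c hc, hc, rfl⟩, fun ⟨A, hA, hc, _⟩ => hc⟩
  have h2 := ncard_biUnion_const P (fun A => {b | b ≠ a ∧ E a b = A}) ((ln N q a b₀).ncard - 1) (by
      intro A hA
      obtain ⟨b, hb, h3⟩ := D.surj F h hE hA
      have h4 : {c | c ≠ a ∧ E a c = A} = ln N q a b \ {a} := by
        ext c
        constructor
        · rintro ⟨hc, hc'⟩
          exact ⟨(D.mem_ln F (Ne.symm hb) (Ne.symm hc)).2 (hc'.trans h3.symm), hc⟩
        · rintro ⟨hc, hca⟩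
          exact ⟨hca, ((D.mem_ln F (Ne.symm hb) (Ne.symm hca)).1 hc).trans h3⟩
      rw [h4, Set.ncard_diff_singleton_of_mem (ln_left F a b), (D.gp F).ln_card F (Ne.symm hb) h0]) (by
      intro A hA A' hA' hne
      rw [Set.disjoint_left]
      rintro c ⟨_, hc⟩ ⟨_, hc'⟩
      exact hne (hc.symm.trans hc'))
  rw [← h1, h.h1.ncard] at h2
  have h3 := Set.ncard_add_ncard_compl ({a} : Set Ω)
  rw [Set.ncard_singleton, h2] at h3
  exact h3.symm

theorem smul_pln (g : G) (B : Subgroup G) : g • (pln B : Set Ω) = pln (cj g B) := by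
  ext c
  rw [Set.mem_smul_set_iff_inv_smul_mem]
  constructor
  · intro h1
    have := cj_le_stab (g := g) h1
    rwa [smul_inv_smul] at this
  · intro h1
    have := cj_le_stab (g := g⁻¹) h1
    rwa [cj_inv_cj] at this

theorem PD.affS (D : PD N q E) (F : Fam G Ω q N) (hk : ∀ a b : Ω, a ≠ b → (ln N q a b).ncard = q) :
    ∃ (Pl : Set (Set Ω)) (A B : Set Ω → Subgroup G), AffS q (ln N q) Pl A B ∧
      ∀ a b : Ω, a ≠ b → A (ln N q a b) = E a b := by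
  classical
  have R := D.gp F
  obtain ⟨a₀⟩ := F.ne
  obtain ⟨b₀, hb₀⟩ := F.exists_ne a₀
  obtain ⟨P₀, L₀, h₀⟩ := F.ps a₀
  have hq := h₀.two_le
  have heven := h₀.even
  set PL : Ω → Subgroup G → Prop := fun a B => IsE (N a) q B ∧ ∀ b, b ≠ a → E a b ≠ B with hPL
  set Pl : Set (Set Ω) := {Q | ∃ a B, PL a B ∧ pln B = Q} with hPl
  set Af : Set Ω → Subgroup G := fun ℓ =>
    if h : ∃ p : Ω × Ω, p.1 ≠ p.2 ∧ ln N q p.1 p.2 = ℓ then E h.choose.1 h.choose.2 else ⊥ with hAf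
  set Bf : Set Ω → Subgroup G := fun Q =>
    if h : ∃ B : Subgroup G, (∃ a, PL a B) ∧ pln B = Q then h.choose else ⊥ with hBf
  have hA : ∀ a b : Ω, a ≠ b → Af (ln N q a b) = E a b := by
    intro a b hab
    have hex : ∃ p : Ω × Ω, p.1 ≠ p.2 ∧ ln N q p.1 p.2 = ln N q a b := ⟨(a, b), hab, rfl⟩
    simp only [hAf]
    rw [dif_pos hex]
    obtain ⟨h1, h2⟩ := hex.choose_spec
    exact D.line F hab h1 (Set.ext_iff.1 h2 _ |>.1 (ln_left F _ _)) (Set.ext_iff.1 h2 _ |>.1 (ln_right _ _))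
  have hB : ∀ Q ∈ Pl, (∃ a, PL a (Bf Q)) ∧ pln (Bf Q) = Q := by
    rintro Q ⟨a, B, h1, h2⟩
    have hex : ∃ B : Subgroup G, (∃ a, PL a B) ∧ pln B = Q := ⟨B, ⟨a, h1⟩, h2⟩
    simp only [hBf]
    rw [dif_pos hex]
    exact hex.choose_spec
  have hB' : ∀ Q ∈ Pl, ∀ a ∈ Q, PL a (Bf Q) := by
    intro Q hQ a ha
    obtain ⟨⟨a', h1⟩, h2⟩ := hB Q hQ
    rw [← h2] at ha
    exact R.p1 a' a _ h1 ha
  have hmem : ∀ Q ∈ Pl, ∀ x : Ω, x ∈ Q ↔ x ∈ (pln (Bf Q) : Set Ω) := by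
    intro Q hQ x; rw [(hB Q hQ).2]
  -- through two points of a plane
  have hinc : ∀ Q ∈ Pl, ∀ a ∈ Q, ∀ b, b ≠ a → ∀ P L, PS (N a) q P L → (∀ b, b ≠ a → E a b ∈ P) →
      (b ∈ Q ↔ E a b ⊓ Bf Q ≠ ⊥) := by
    intro Q hQ a ha b hba P L h hE
    rw [hmem Q hQ, D.mem_pln F h hE ((D.memL F h hE).1 (hB' Q hQ a ha)) hba]
  have hplcard : ∀ Q ∈ Pl, Q.ncard = q ^ 2 := by
    rintro Q ⟨a, B, h1, rfl⟩
    rw [R.pln_card F (Ne.symm hb₀) h1, hk a₀ b₀ (Ne.symm hb₀)]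
    obtain ⟨m, rfl⟩ : ∃ m, q = m + 1 := ⟨q - 1, by omega⟩
    rw [Nat.add_sub_cancel]; ring
  refine ⟨Pl, Af, Bf, ?_, hA⟩
  refine
    { even := heven
      pos := hq
      card := ?_
      mem_left := fun a b _ => ln_left F a b
      mem_right := fun a b _ => ln_right a b
      line_eq := fun a b c d hab hc hd hcd => R.ln_eq F hab hc hd hcd
      line_card := hk
      line_smul := fun g a b hab => R.ln_smul F hab g
      plane_line := ?_
      plane_card := hplcard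
      plane_smul := ?_
      plane_ex := ?_
      plane_meet := ?_
      sqB := ?_
      cardB := ?_
      cardX := ?_
      fixB := ?_
      coverB := ?_
      fixA := ?_
      planeA := ?_
      disjA := ?_ }
  · rw [D.card F (Ne.symm hb₀), hk a₀ b₀ (Ne.symm hb₀)]
    obtain ⟨m, rfl⟩ : ∃ m, q = m + 1 := ⟨q - 1, by omega⟩
    rw [Nat.add_sub_cancel]; ring
  · intro Q hQ a ha b hb hab
    have h1 := hB' Q hQ a ha
    rw [hmem Q hQ] at ha hb
    have h2 := R.pln_sub F h1 ha hb hab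
    rwa [(hB Q hQ).2] at h2
  · rintro g Q ⟨a, B, h1, rfl⟩
    exact ⟨g • a, cj g B, R.p5 g a B h1, (smul_pln g B).symm⟩
  · intro a b c hab hc
    obtain ⟨P, L, h, hE⟩ := D.type F a
    have hac : a ≠ c := by rintro rfl; exact hc (ln_left F _ _)
    have hne : E a b ≠ E a c := fun e => hc ((D.mem_ln F hab hac).2 e.symm)
    obtain ⟨B, ⟨hBL, h1, h2⟩, huniq⟩ := h.h1.join _ (hE b (Ne.symm hab)) _ (hE c (Ne.symm hac)) hne
    have hPLB := (D.memL F h hE).2 hBL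
    refine ⟨pln B, ⟨⟨a, B, hPLB, rfl⟩, R.self_pln F hPLB, (D.mem_pln F h hE hBL (Ne.symm hab)).2 h1,
      (D.mem_pln F h hE hBL (Ne.symm hac)).2 h2⟩, ?_⟩
    rintro Q ⟨hQ, haQ, hbQ, hcQ⟩
    have h3 := (hinc Q hQ a haQ b (Ne.symm hab) P L h hE).1 hbQ
    have h4 := (hinc Q hQ a haQ c (Ne.symm hac) P L h hE).1 hcQ
    have h5 := huniq (Bf Q) ⟨(D.memL F h hE).1 (hB' Q hQ a haQ), h3, h4⟩
    rw [← h5, (hB Q hQ).2]
  · intro Q hQ Q' hQ' a ha ha'
    obtain ⟨P, L, h, hE⟩ := D.type F a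
    have hBL := (D.memL F h hE).1 (hB' Q hQ a ha)
    have hBL' := (D.memL F h hE).1 (hB' Q' hQ' a ha')
    have : ∃ A ∈ P, A ⊓ Bf Q ≠ ⊥ ∧ A ⊓ Bf Q' ≠ ⊥ := by
      by_cases hBB : Bf Q = Bf Q'
      · obtain ⟨A, hA, h1⟩ := h.symm.exists_inc hBL
        exact ⟨A, hA, inf_ne h1, by rw [← hBB]; exact inf_ne h1⟩
      · obtain ⟨A, ⟨hA, h1, h2⟩, -⟩ := h.h2.join _ hBL _ hBL' hBB
        exact ⟨A, hA, inf_ne h1, inf_ne h2⟩
    obtain ⟨A, hA, h1, h2⟩ := this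
    obtain ⟨b, hb, h3⟩ := D.surj F h hE hA
    refine ⟨b, hb, ?_, ?_⟩
    · rw [hinc Q hQ a ha b hb P L h hE, h3]; exact h1
    · rw [hinc Q' hQ' a ha' b hb P L h hE, h3]; exact h2
  · intro Q hQ
    obtain ⟨⟨a, h1⟩, h2⟩ := hB Q hQ
    exact h1.1.sq
  · intro Q hQ
    obtain ⟨⟨a, h1⟩, h2⟩ := hB Q hQ
    exact h1.1.card
  · intro Q hQ a ha b hb hab
    obtain ⟨P, L, h, hE⟩ := D.type F a
    rw [hA a b hab]
    exact h.h1.inc _ (hE b (Ne.symm hab)) _ ((D.memL F h hE).1 (hB' Q hQ a ha))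
      ((hinc Q hQ a ha b (Ne.symm hab) P L h hE).1 hb)
  · intro Q hQ z hz hz1 x
    constructor
    · intro hzx
      obtain ⟨⟨a, h1⟩, h2⟩ := hB Q hQ
      have ha : a ∈ Q := by rw [← h2]; exact R.self_pln F h1
      by_cases hxa : x = a
      · rw [hxa]; exact ha
      obtain ⟨P, L, h, hE⟩ := D.type F a
      have hBL := (D.memL F h hE).1 h1
      rw [hinc Q hQ a ha x hxa P L h hE]
      have h3 := D.e3 a x (Ne.symm hxa) z (h.h2.le _ hBL hz) hzx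
      exact inf_ne ((h.symm.fix_iff hBL (hE x hxa) hz hz1).1 h3)
    · intro hx
      rw [hmem Q hQ] at hx
      exact hx hz
  · intro Q hQ a ha z hz
    obtain ⟨P, L, h, hE⟩ := D.type F a
    have hBL := (D.memL F h hE).1 (hB' Q hQ a ha)
    have : ∃ A ∈ P, z ∈ A ∧ A ⊓ Bf Q ≠ ⊥ := by
      by_cases hz1 : z = 1
      · obtain ⟨A, hA, h1⟩ := h.symm.exists_inc hBL
        exact ⟨A, hA, by rw [hz1]; exact A.one_mem, inf_ne h1⟩
      · obtain ⟨A, hA, h1⟩ := h.symm.cover hBL hz hz1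
        exact ⟨A, hA, h1, inf_ne_of_mem h1 hz hz1⟩
    obtain ⟨A, hAP, hzA, h1⟩ := this
    obtain ⟨b, hb, h3⟩ := D.surj F h hE hAP
    refine ⟨b, ?_, hb, ?_⟩
    · rw [hinc Q hQ a ha b hb P L h hE, h3]; exact h1
    · rw [hA a b (Ne.symm hb), h3]; exact hzA
  · intro a b hab z hz
    rw [hA a b hab] at hz
    exact F.le a z ((D.e1 a b hab).le hz)
  · intro a b hab Q hQ ha hb z hz
    rw [hA a b hab] at hz
    obtain ⟨P, L, h, hE⟩ := D.type F a
    have hBL := (D.memL F h hE).1 (hB' Q hQ a ha)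
    have h1 := (hinc Q hQ a ha b (Ne.symm hab) P L h hE).1 hb
    have h2 : cj z (Bf Q) = Bf Q := h.h1.norm _ (hE b (Ne.symm hab)) _ hBL h1 z hz
    rw [← (hB Q hQ).2, smul_pln, h2]
  · intro a b b' hab hab' hne
    rw [hA a b hab, hA a b' hab']
    obtain ⟨P, L, h, hE⟩ := D.type F a
    refine h.h1.ti _ (hE b (Ne.symm hab)) _ (hE b' (Ne.symm hab')) fun e => hne ?_
    exact ((R.ln_eq' F hab hab' ((D.mem_ln F hab hab').2 e.symm))).symm

end Cfsg.Agent.P3
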