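import Mathlib

/-!
# The plane of a subgroup isomorphic to `PSL₃(2ⁿ)`, described by elementary abelian subgroups

`P` = points and `L` = lines are sets of elementary abelian subgroups of order `q²`
(elations with given centre / with given axis).
-/

set_option autoImplicit false

namespace Cfsg.Agent.P3

variable {G : Type*} [Group G]

/-- The conjugate `g A g⁻¹`. -/
def cj (g : G) (A : Subgroup G) : Subgroup G := A.map (MulAut.conj g).toMonoidHom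

/-- The subgroup generated by the members of `P` which meet `B` non-trivially. -/
def YY (P : Set (Subgroup G)) (B : Subgroup G) : Subgroup G :=
  ⨆ A ∈ {A : Subgroup G | A ∈ P ∧ A ⊓ B ≠ ⊥}, A

/-- One half of the axioms (they are required for `(P, L)` and for `(L, P)`). -/
structure Half (N : Subgroup G) (q : ℕ) (P L : Set (Subgroup G)) : Prop where
  le : ∀ A ∈ P, A ≤ N
  card : ∀ A ∈ P, Nat.card A = q ^ 2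
  sq : ∀ A ∈ P, ∀ x ∈ A, x * x = 1
  conj : ∀ g ∈ N, ∀ A ∈ P, cj g A ∈ P
  ncard : P.ncard = q ^ 2 + q + 1
  ti : ∀ A ∈ P, ∀ A' ∈ P, A ≠ A' → A ⊓ A' = ⊥
  join : ∀ A ∈ P, ∀ A' ∈ P, A ≠ A' → ∃! B, B ∈ L ∧ A ⊓ B ≠ ⊥ ∧ A' ⊓ B ≠ ⊥
  inc : ∀ A ∈ P, ∀ B ∈ L, A ⊓ B ≠ ⊥ → Nat.card ↥(A ⊓ B) = q
  deg : ∀ A ∈ P, {B | B ∈ L ∧ A ⊓ B ≠ ⊥}.ncard = q + 1
  norm : ∀ A ∈ P, ∀ B ∈ L, A ⊓ B ≠ ⊥ → ∀ a ∈ A, cj a B = B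
  reg : ∀ A ∈ P, ∀ B ∈ L, ∀ B' ∈ L, A ⊓ B = ⊥ → A ⊓ B' = ⊥ → ∃ a ∈ A, cj a B = B'
  faith : ∀ g ∈ N, (∀ A ∈ P, cj g A = A) → g = 1
  torus : ∀ B ∈ L, ∀ A ∈ P, ∀ A' ∈ P, A ≠ A' → A ⊓ B ≠ ⊥ → A' ⊓ B ≠ ⊥ →
    ∃ t ∈ YY P B, orderOf t = q - 1 ∧ cj t A = A ∧ cj t A' = A' ∧ cj t B = B ∧
      (∀ A'' ∈ P, A'' ⊓ B ≠ ⊥ → ∀ i : ℕ, t ^ i ≠ 1 → cj (t ^ i) A'' = A'' →
        A'' = A ∨ A'' = A') ∧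
      (∀ r ∈ YY P B, cj r A = A → cj r A' = A' → ∃ i : ℕ, ∃ b ∈ B, r = t ^ i * b)
  omega : 3 ∣ q - 1 → q ≠ 1 → ∃ x ∈ N, x ≠ 1 ∧ ∃ A₁ ∈ P, ∃ A₂ ∈ P, ∃ A₃ ∈ P,
    A₁ ≠ A₂ ∧ A₁ ≠ A₃ ∧ A₂ ≠ A₃ ∧ x ∈ YY L A₁ ∧ x ∈ YY L A₂ ∧ x ∈ YY L A₃ ∧
    ∀ A ∈ P, cj x A = A → A = A₁ ∨ A = A₂ ∨ A = A₃

/-- The plane of a subgroup isomorphic to `PSL₃(q)`, `q = 2ⁿ`. -/
structure PS (N : Subgroup G) (q : ℕ) (P L : Set (Subgroup G)) : Prop where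
  pow : ∃ n : ℕ, 1 ≤ n ∧ q = 2 ^ n
  simple : IsSimpleGroup N
  h1 : Half N q P L
  h2 : Half N q L P
  syl : ∀ A ∈ P, ∀ B ∈ L, A ⊓ B ≠ ⊥ → ∀ g ∈ N, (∃ k : ℕ, g ^ 2 ^ k = 1) →
    cj g A = A → cj g B = B → g ∈ A ⊔ B

end Cfsg.Agent.P3
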