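import Cfsg.Agent.P3.Geo4

/-! The family of normal subgroups of the point stabilizers. -/

set_option autoImplicit false
set_option linter.all false

namespace Cfsg.Agent.P3

open Subgroup MulAction

section
variable {G : Type*} [Group G] [Finite G] {N : Subgroup G} {q : ℕ} {P L : Set (Subgroup G)}

/-- flag subgroup -/
structure IsFl (N : Subgroup G) (q : ℕ) (U : Subgroup G) : Prop where
  le : U ≤ N
  pg : IsPGroup 2 U
  card : Nat.card U = q ^ 3

theorem isPGroup_cj {U : Subgroup G} (h : IsPGroup 2 U) (g : G) : IsPGroup 2 (cj g U) := h.map _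

theorem IsFl.cj {U : Subgroup G} (h : IsFl N q U) (g : G) : IsFl (cj g N) q (P3.cj g U) :=
  ⟨cj_mono h.le, isPGroup_cj h.pg g, by rw [card_cj, h.card]⟩

theorem PS.isFl (h : PS N q P L) {A B : Subgroup G} (hA : A ∈ P) (hB : B ∈ L) (hAB : A ⊓ B ≠ ⊥) :
    IsFl N q (A ⊔ B) :=
  ⟨sup_le (h.h1.le A hA) (h.h2.le B hB), h.isPGroup_U hA hB hAB, h.card_U hA hB hAB⟩

theorem PS.fl (h : PS N q P L) {U : Subgroup G} (hU : IsFl N q U) :
    ∃ A ∈ P, ∃ B ∈ L, A ⊓ B ≠ ⊥ ∧ U = A ⊔ B := by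
  obtain ⟨A, hA, B, hB, hAB, hle⟩ := h.sylow hU.le hU.pg
  exact ⟨A, hA, B, hB, hAB, Subgroup.eq_of_le_of_card_ge hle (by rw [h.card_U hA hB hAB, hU.card])⟩

/-- a 2-subgroup containing a flag group is equal to it -/
theorem PS.fl_max (h : PS N q P L) {U T : Subgroup G} (hU : IsFl N q U) (hUT : U ≤ T) (hTN : T ≤ N)
    (hT : IsPGroup 2 T) : T = U := by
  obtain ⟨A, hA, B, hB, hAB, hle⟩ := h.sylow hTN hT
  refine (Subgroup.eq_of_le_of_card_ge hUT ?_).symm
  rw [hU.card, ← h.card_U hA hB hAB]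
  exact Nat.card_le_card_of_injective _ (Subgroup.inclusion_injective hle)

theorem PS.exists_order4 (h : PS N q P L) {U : Subgroup G} (hU : IsFl N q U) : ∃ x ∈ U, x * x ≠ 1 := by
  obtain ⟨A, hA, B, hB, hAB, rfl⟩ := h.fl hU
  by_contra hcon
  push Not at hcon
  have h1 := h.le_sup_cases hA hB hAB le_rfl hcon
  have hq := h.two_le
  have h2 := h.card_U hA hB hAB
  rcases h1 with h1 | h1
  · have h3 := Nat.card_le_card_of_injective _ (Subgroup.inclusion_injective h1)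
    rw [h2, h.h1.card A hA] at h3
    nlinarith [sq_nonneg q]
  · have h3 := Nat.card_le_card_of_injective _ (Subgroup.inclusion_injective h1)
    rw [h2, h.h2.card B hB] at h3
    nlinarith [sq_nonneg q]

theorem PS.exists_flag (h : PS N q P L) : ∃ U, IsFl N q U := by
  obtain ⟨A, hA⟩ : P.Nonempty := by
    rw [Set.nonempty_iff_ne_empty]; intro h1
    have := h.h1.ncard
    rw [h1, Set.ncard_empty] at this
    omega
  obtain ⟨B, hB, hAB⟩ := h.exists_inc hA
  exact ⟨_, h.isFl hA hB hAB⟩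

theorem PS.N_ne_bot (h : PS N q P L) : N ≠ ⊥ := by
  obtain ⟨U, hU⟩ := h.exists_flag
  obtain ⟨x, hx, hx1⟩ := h.exists_order4 hU
  exact ne_bot_of_mem (hU.le hx) (fun h1 => hx1 (by rw [h1, one_mul]))

theorem PS.center_triv (h : PS N q P L) {x : G} (hx : x ∈ N) (hc : x ∈ centralizer (N : Set G)) : x = 1 := by
  refine h.h1.faith x hx fun A hA => cj_of_comm fun y hy => ?_
  exact mem_centralizer_iff'.1 hc y (h.h1.le A hA hy)

theorem exists_syl2 (K : Subgroup G) : ∃ S ≤ K, IsPGroup 2 S ∧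
    ∀ T ≤ K, IsPGroup 2 T → ∃ g ∈ K, cj g T ≤ S := by
  obtain ⟨S₀⟩ : Nonempty (Sylow 2 K) := inferInstance
  refine ⟨(S₀ : Subgroup K).map K.subtype, Subgroup.map_subtype_le _, S₀.2.map _, fun T hT hT2 => ?_⟩
  obtain ⟨Q, hQ⟩ := (hT2.comap_subtype (K := K)).exists_le_sylow
  obtain ⟨g, hg⟩ := MulAction.exists_smul_eq K Q S₀
  refine ⟨g, g.2, fun x hx => ?_⟩
  rw [mem_cj] at hx
  have hxK : (g : G)⁻¹ * x * g ∈ K := hT hx
  have h1 : (⟨(g : G)⁻¹ * x * g, hxK⟩ : K) ∈ (Q : Subgroup K) := hQ (Subgroup.mem_comap.2 hx)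
  have h2 : g * (⟨(g : G)⁻¹ * x * g, hxK⟩ : K) * g⁻¹ ∈ (S₀ : Subgroup K) := by
    rw [← hg]
    exact Subgroup.mem_map.2 ⟨_, h1, rfl⟩
  refine Subgroup.mem_map.2 ⟨_, h2, ?_⟩
  simp [mul_assoc]

theorem isPGroup_zpowers_sq {x : G} (h : x * x = 1) : IsPGroup 2 (zpowers x) :=
  isPGroup_zpowers ⟨1, by simpa [pow_two] using h⟩

/-- A two-element of `N` normalising a flag group is in it. -/
theorem PS.mem_of_cj_flag (h : PS N q P L) {U : Subgroup G} (hU : IsFl N q U) {v : G} (hv : v ∈ N)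
    (hv2 : ∃ k : ℕ, v ^ 2 ^ k = 1) (hvU : cj v U = U) : v ∈ U := by
  have h1 : zpowers v ≤ normalizer (U : Set G) := by
    rw [Subgroup.zpowers_le]
    rw [Subgroup.mem_normalizer_iff]
    intro x
    constructor
    · intro hx; exact conj_mem_of_cj hvU hx
    · intro hx
      have := conj_mem_of_cj (cj_inv_eq hvU) hx
      simpa [mul_assoc] using this
  have h2 : IsPGroup 2 ↥(zpowers v ⊔ U) := IsPGroup.to_sup_of_normal_right' (isPGroup_zpowers hv2) hU.pg h1
  have h3 := h.fl_max hU le_sup_right (sup_le (by rwa [Subgroup.zpowers_le]) hU.le) h2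
  rw [← h3]
  exact mem_sup_left (mem_zpowers v)

/-- odd index: a two-element of `N` normalising `H ≥ U` lies in `H`. -/
theorem PS.mem_of_norm (h : PS N q P L) {H U : Subgroup G} (hHN : H ≤ N) (hU : IsFl N q U) (hUH : U ≤ H)
    {v : G} (hv : v ∈ N) (hv2 : ∃ k : ℕ, v ^ 2 ^ k = 1) (hn : ∀ x ∈ H, v * x * v⁻¹ ∈ H) : v ∈ H := by
  classical
  have hvH : cj v H = H := cj_eq_of_le (cj_le_of v hn)
  set S : Set (Subgroup G) := Set.range (fun Q : Sylow 2 H => (Q : Subgroup H).map H.subtype) with hS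
  have hinj : Function.Injective (fun Q : Sylow 2 H => (Q : Subgroup H).map H.subtype) := by
    intro Q Q' hQ
    exact Sylow.ext (Subgroup.map_injective H.subtype_injective hQ)
  have hodd : Odd S.ncard := by
    rw [hS, ← Set.image_univ, Set.ncard_image_of_injective _ hinj, Set.ncard_univ]
    have := card_sylow_modEq_one 2 H
    rw [Nat.odd_iff]
    exact this
  -- characterisation of the members of `S`
  have hchar : ∀ T : Subgroup G, T ∈ S ↔ T ≤ H ∧ IsFl N q T := by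
    obtain ⟨S₁, hS₁, hS₁p, huniv⟩ := exists_syl2 H
    obtain ⟨g, hg, hle⟩ := huniv U hUH hU.pg
    have hS₁fl : S₁ = cj g U := by
      have hgN := hHN hg
      have h1 : IsFl N q (cj g U) := by
        have := hU.cj g
        rwa [(Nz.of_mem hgN).cj_eq] at this
      exact h.fl_max h1 hle (hS₁.trans hHN) hS₁p
    have hcardQ : ∀ Q : Sylow 2 H, Nat.card Q = q ^ 3 := by
      intro Q
      obtain ⟨Q', hQ'⟩ := (hS₁p.comap_subtype (K := H)).exists_le_sylow
      have h2 : Nat.card Q = Nat.card Q' := Nat.card_congr (Sylow.equiv Q Q').toEquiv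
      have h3 : Nat.card S₁ = q ^ 3 := by rw [hS₁fl, card_cj, hU.card]
      have h4 : Nat.card S₁ ≤ Nat.card Q' := by
        have h5 : S₁ ≤ (Q' : Subgroup H).map H.subtype := by
          intro x hx
          exact Subgroup.mem_map.2 ⟨⟨x, hS₁ hx⟩, hQ' (Subgroup.mem_comap.2 hx), rfl⟩
        have h6 := Nat.card_le_card_of_injective _ (Subgroup.inclusion_injective h5)
        rwa [Nat.card_congr ((Q' : Subgroup H).equivMapOfInjective _ H.subtype_injective).symm.toEquiv] at h6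
      have h7 : Nat.card Q' ≤ q ^ 3 := by
        have hp : IsPGroup 2 ((Q' : Subgroup H).map H.subtype) := Q'.2.map _
        obtain ⟨A, hA, B, hB, hAB, hle⟩ := h.sylow ((Subgroup.map_subtype_le _).trans hHN) hp
        have h6 := Nat.card_le_card_of_injective _ (Subgroup.inclusion_injective hle)
        rwa [Nat.card_congr ((Q' : Subgroup H).equivMapOfInjective _ H.subtype_injective).symm.toEquiv,
          h.card_U hA hB hAB] at h6
      rw [h2]; exact le_antisymm h7 (h3 ▸ h4)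
    intro T
    constructor
    · rintro ⟨Q, rfl⟩
      refine ⟨Subgroup.map_subtype_le _, (Subgroup.map_subtype_le _).trans hHN, Q.2.map _, ?_⟩
      show Nat.card ↥((Q : Subgroup H).map H.subtype) = q ^ 3
      rw [Nat.card_congr ((Q : Subgroup H).equivMapOfInjective _ H.subtype_injective).symm.toEquiv]
      exact hcardQ Q
    · rintro ⟨hTH, hT⟩
      obtain ⟨Q, hQ⟩ := (hT.pg.comap_subtype (K := H)).exists_le_sylow
      refine ⟨Q, ?_⟩
      have h5 : T ≤ (Q : Subgroup H).map H.subtype := by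
        intro x hx
        exact Subgroup.mem_map.2 ⟨⟨x, hTH hx⟩, hQ (Subgroup.mem_comap.2 hx), rfl⟩
      exact h.fl_max hT h5 ((Subgroup.map_subtype_le _).trans hHN) (Q.2.map _)
  obtain ⟨T, hT, hvT⟩ := exists_fixed_elt cj cj_one cj_mul hv2 S hodd (by
    intro T hT
    obtain ⟨h1, h2⟩ := (hchar T).1 hT
    refine (hchar _).2 ⟨?_, ?_⟩
    · calc cj v T ≤ cj v H := cj_mono h1
        _ = H := hvH
    · have := h2.cj v
      rwa [(Nz.of_mem hv).cj_eq] at this)
  obtain ⟨h1, h2⟩ := (hchar T).1 hT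
  exact h1 (h.mem_of_cj_flag h2 hv hv2 hvT)

end

/-- The family `N a ⊴ G_a`. -/
structure Fam (G Ω : Type*) [Group G] [MulAction G Ω] (q : ℕ) (N : Ω → Subgroup G) : Prop where
  le : ∀ a, ∀ x ∈ N a, x • a = a
  conj : ∀ (g : G) (a : Ω), cj g (N a) = N (g • a)
  ps : ∀ a, ∃ P L, PS (N a) q P L
  tt : ∀ a b c d : Ω, a ≠ b → c ≠ d → ∃ g : G, g • a = c ∧ g • b = d
  even : Even (Nat.card Ω)
  faith : ∀ g : G, (∀ x : Ω, g • x = x) → g = 1
  ne : Nonempty Ω

section
variable {G Ω : Type*} [Group G] [Finite G] [Finite Ω] [MulAction G Ω] {q : ℕ} {N : Ω → Subgroup G}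

theorem Fam.Nz (F : Fam G Ω q N) {g : G} {a : Ω} (h : g • a = a) : Nz g (N a) := by
  intro x hx
  have := conj_mem_of_cj (F.conj g a) hx
  rwa [h] at this

theorem Fam.exists_ne (F : Fam G Ω q N) (a : Ω) : ∃ b, b ≠ a := by
  by_contra hcon
  push Not at hcon
  have h1 : Nat.card Ω = 1 := by
    rw [Nat.card_eq_one_iff_unique]
    exact ⟨⟨fun x y => by rw [hcon x, hcon y]⟩, ⟨a⟩⟩
  have := F.even
  rw [h1] at this
  exact absurd this (by decide)

theorem Fam.smul_ne {g : G} {a b : Ω} (h : a ≠ b) : g • a ≠ g • b := fun e => h (smul_left_cancel g e)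

theorem Fam.moves (F : Fam G Ω q N) {a b : Ω} (hab : a ≠ b) : ∃ n ∈ N a, n • b ≠ b := by
  by_contra hcon
  push Not at hcon
  have h1 : ∀ n ∈ N a, ∀ c : Ω, n • c = c := by
    intro n hn c
    by_cases hac : c = a
    · rw [hac]; exact F.le a n hn
    obtain ⟨g, hga, hgb⟩ := F.tt a b a c hab (Ne.symm hac)
    have h2 : g⁻¹ * n * g ∈ N a := by
      have h3 := F.conj g a
      rw [hga] at h3
      rw [← mem_cj, h3]; exact hn
    have h4 := hcon _ h2
    rw [← hgb]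
    rw [mul_smul, mul_smul, inv_smul_eq_iff] at h4
    exact h4
  obtain ⟨P, L, h⟩ := F.ps a
  obtain ⟨x, hx, hx1⟩ := exists_mem_of_ne_bot h.N_ne_bot
  exact hx1 (F.faith x (h1 x hx))

theorem Fam.exists_fl (F : Fam G Ω q N) {a b : Ω} (hab : a ≠ b) :
    ∃ U, IsFl (N a) q U ∧ U ≤ stabilizer G b := by
  obtain ⟨P, L, h⟩ := F.ps a
  obtain ⟨U, hU⟩ := h.exists_flag
  obtain ⟨c, hc, hfix⟩ := exists_fixed (fun (g : G) (x : Ω) => g • x) (one_smul G) mul_smul U hU.pg
    ({a}ᶜ : Set Ω) (by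
      have h1 := Set.ncard_add_ncard_compl ({a} : Set Ω)
      rw [Set.ncard_singleton] at h1
      obtain ⟨m, hm⟩ := F.even
      refine ⟨m - 1, ?_⟩
      omega) (by
      intro t ht x hx hxa
      apply hx
      have h1 : t • x = a := hxa
      have h2 : t • a = a := F.le a t (hU.le ht)
      exact smul_left_cancel t (h1.trans h2.symm))
  have hac : a ≠ c := fun e => hc e.symm
  obtain ⟨g, hga, hgc⟩ := F.tt a c a b hac hab
  refine ⟨cj g U, ?_, ?_⟩
  · have := hU.cj g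
    rwa [F.conj, hga] at this
  · intro x hx
    rw [mem_cj] at hx
    have h1 := hfix _ hx
    rw [mem_stabilizer_iff, ← hgc]
    rw [mul_smul, mul_smul, inv_smul_eq_iff] at h1
    exact h1

/-- Sylow 2-subgroup of `G_{ab}`. -/
structure Sy (N : Ω → Subgroup G) (q : ℕ) (a b : Ω) (S : Subgroup G) : Prop where
  sa : S ≤ stabilizer G a
  sb : S ≤ stabilizer G b
  pg : IsPGroup 2 S
  fa : IsFl (N a) q (S ⊓ N a)
  fb : IsFl (N b) q (S ⊓ N b)
  univ : ∀ T : Subgroup G, T ≤ stabilizer G a → T ≤ stabilizer G b → IsPGroup 2 T →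
    ∃ g : G, g • a = a ∧ g • b = b ∧ cj g T ≤ S

theorem Sy.symm {a b : Ω} {S : Subgroup G} (h : Sy N q a b S) : Sy N q b a S :=
  ⟨h.sb, h.sa, h.pg, h.fb, h.fa, fun T h1 h2 h3 => by
    obtain ⟨g, h4, h5, h6⟩ := h.univ T h2 h1 h3
    exact ⟨g, h5, h4, h6⟩⟩

theorem Fam.exists_sy (F : Fam G Ω q N) {a b : Ω} (hab : a ≠ b) : ∃ S, Sy N q a b S := by
  obtain ⟨S, hS, hSp, huniv⟩ := exists_syl2 (stabilizer G a ⊓ stabilizer G b)
  have key : ∀ c : Ω, (∀ g ∈ stabilizer G a ⊓ stabilizer G b, g • c = c) →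
      (∃ U, IsFl (N c) q U ∧ U ≤ stabilizer G a ⊓ stabilizer G b) → IsFl (N c) q (S ⊓ N c) := by
    rintro c hc ⟨U, hU, hUle⟩
    obtain ⟨g, hg, hgS⟩ := huniv U hUle hU.pg
    obtain ⟨P, L, h⟩ := F.ps c
    have h1 : IsFl (N c) q (cj g U) := by
      have := hU.cj g
      rwa [F.conj, hc g hg] at this
    have h2 := h.fl_max h1 (T := S ⊓ N c) (le_inf hgS h1.le) inf_le_right (hSp.to_le inf_le_left)
    rw [h2]; exact h1
  refine ⟨S, hS.trans inf_le_left, hS.trans inf_le_right, hSp, key a ?_ ?_, key b ?_ ?_, ?_⟩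
  · exact fun g hg => (Subgroup.mem_inf.1 hg).1
  · obtain ⟨U, hU, hUb⟩ := F.exists_fl hab
    exact ⟨U, hU, le_inf (fun x hx => F.le a x (hU.le hx)) hUb⟩
  · exact fun g hg => (Subgroup.mem_inf.1 hg).2
  · obtain ⟨U, hU, hUa⟩ := F.exists_fl (Ne.symm hab)
    exact ⟨U, hU, le_inf hUa (fun x hx => F.le b x (hU.le hx))⟩
  · intro T hTa hTb hT
    obtain ⟨g, hg, h1⟩ := huniv T (le_inf hTa hTb) hT
    exact ⟨g, (Subgroup.mem_inf.1 hg).1, (Subgroup.mem_inf.1 hg).2, h1⟩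

end

end Cfsg.Agent.P3
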