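import Cfsg.Agent.P3.Fam1

/-! `N_a ∩ N_b ≠ 1`, `C_a ∩ C_b = 1`, `N_b ∩ C_a = 1`. -/

set_option autoImplicit false
set_option linter.all false

namespace Cfsg.Agent.P3

open Subgroup MulAction

variable {G Ω : Type*} [Group G] [Finite G] [Finite Ω] [MulAction G Ω] {q : ℕ} {N : Ω → Subgroup G}

/-- `C a` -/
abbrev Ct (N : Ω → Subgroup G) (a : Ω) : Subgroup G := centralizer (N a : Set G)

theorem Fam.ct_comm {a : Ω} {c x : G} (hc : c ∈ Ct N a) (hx : x ∈ N a) : c * x = x * c :=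
  mem_centralizer_iff'.1 hc x hx

theorem Fam.inj (F : Fam G Ω q N) {a b : Ω} (h : N a = N b) : a = b := by
  by_contra hab
  obtain ⟨n, hn, h1⟩ := F.moves hab
  exact h1 (F.le b n (h ▸ hn))

theorem Fam.ct_le (F : Fam G Ω q N) {a : Ω} {c : G} (hc : c ∈ Ct N a) : c • a = a := by
  apply F.inj
  rw [← F.conj]
  exact cj_of_comm fun x hx => Fam.ct_comm hc hx

theorem Fam.ct_conj (F : Fam G Ω q N) (g : G) (a : Ω) : cj g (Ct N a) = Ct N (g • a) := by
  ext x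
  rw [mem_cj]
  unfold Ct
  rw [mem_centralizer_iff', mem_centralizer_iff', ← F.conj]
  constructor
  · intro h y hy
    rw [mem_cj] at hy
    have h1 := h _ hy
    have h2 : g * ((g⁻¹ * x * g) * (g⁻¹ * y * g)) * g⁻¹ = g * ((g⁻¹ * y * g) * (g⁻¹ * x * g)) * g⁻¹ := by rw [h1]
    simpa [mul_assoc] using h2
  · intro h y hy
    have h1 := h _ (cj_mem hy)
    have h2 : g⁻¹ * (x * (g * y * g⁻¹)) * g = g⁻¹ * ((g * y * g⁻¹) * x) * g := by rw [h1]
    simpa [mul_assoc] using h2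

theorem Fam.center (F : Fam G Ω q N) {a : Ω} {x : G} (hx : x ∈ N a) (hc : x ∈ Ct N a) : x = 1 := by
  obtain ⟨P, L, h⟩ := F.ps a
  exact h.center_triv hx hc

theorem Fam.mem_conj (F : Fam G Ω q N) {g x : G} {a : Ω} (hx : x ∈ N a) : g * x * g⁻¹ ∈ N (g • a) := by
  rw [← F.conj]; exact cj_mem hx

theorem Fam.mem_conj' (F : Fam G Ω q N) {g x : G} {a b : Ω} (hg : g • a = b) (hx : x ∈ N a) :
    g * x * g⁻¹ ∈ N b := hg ▸ F.mem_conj hx

theorem Fam.ct_mem_conj' (F : Fam G Ω q N) {g x : G} {a b : Ω} (hg : g • a = b) (hx : x ∈ Ct N a) :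
    g * x * g⁻¹ ∈ Ct N b := by
  rw [← hg, ← F.ct_conj]; exact cj_mem hx

/-- normal subgroups of `N_ba` contain involutions -/
theorem Fam.exists_inv (F : Fam G Ω q N) {a b : Ω} (hab : a ≠ b) {M : Subgroup G} (hM1 : M ≤ N b)
    (hMa : M ≤ stabilizer G a) (hne : M ≠ ⊥)
    (hn : ∀ h ∈ N b, h • a = a → ∀ m ∈ M, h * m * h⁻¹ ∈ M) : ∃ m ∈ M, m ≠ 1 ∧ m * m = 1 := by
  obtain ⟨P, L, h⟩ := F.ps b
  obtain ⟨U, hU, hUa⟩ := F.exists_fl (Ne.symm hab)
  obtain ⟨A, hA, B, hB, hAB, rfl⟩ := h.fl hU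
  have hH : A ⊔ B ≤ N b ⊓ stabilizer G a := le_inf hU.le hUa
  -- a normal member of `P ∪ L`
  have key : ∀ {P L : Set (Subgroup G)} {E : Subgroup G}, PS (N b) q P L → E ∈ P → E ≤ stabilizer G a →
      (∀ x ∈ N b ⊓ stabilizer G a, cj x E = E) → ∃ m ∈ M, m ≠ 1 ∧ m * m = 1 := by
    intro P L E h hE hEa hnE
    by_contra hcon
    push Not at hcon
    apply hne
    have hEN := h.h1.le E hE
    have h1 : M ⊓ E = ⊥ := by
      rw [eq_bot_iff]
      intro x hx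
      by_contra hx1
      exact hcon x (Subgroup.mem_inf.1 hx).1 (fun e => hx1 (by rw [e]; exact one_mem _))
        (h.h1.sq E hE x (Subgroup.mem_inf.1 hx).2)
    have h2 : M ≤ E := by
      intro m hm
      have h3 : ∀ x ∈ E, m * x = x * m := by
        intro x hx
        have h4 : x * m * x⁻¹ * m⁻¹ ∈ M ⊓ E := by
          refine Subgroup.mem_inf.2 ⟨M.mul_mem (hn x (hEN hx) (hEa hx) m hm) (M.inv_mem hm), ?_⟩
          have h5 := conj_mem_of_cj (hnE m (Subgroup.mem_inf.2 ⟨hM1 hm, hMa hm⟩)) (E.inv_mem hx)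
          have := E.mul_mem hx h5
          simpa [mul_assoc] using this
        rw [h1, Subgroup.mem_bot, mul_inv_eq_one, mul_inv_eq_iff_eq_mul] at h4
        exact h4.symm
      obtain ⟨e, he, c, hc, h6⟩ := h.K6 hE (Nz.of_mem (hM1 hm)) h3
      have h7 : c ∈ N b := by
        have : c = e⁻¹ * m := by rw [h6]; simp
        rw [this]; exact (N b).mul_mem ((N b).inv_mem (hEN he)) (hM1 hm)
      rw [h6, h.center_triv h7 hc, mul_one]; exact he
    rw [← h1]; exact (inf_eq_left.2 h2).symm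
  rcases h.L7 hA hB hAB inf_le_left hH with h1 | h1 | h1 | h1
  · exact key h hA (le_sup_left.trans hUa) fun x hx => (h1 x hx).1
  · exact key h.symm hB (le_sup_right.trans hUa) h1.2
  · exact key h hA (le_sup_left.trans hUa) h1.2
  · exfalso
    obtain ⟨n, hn, h2⟩ := F.moves (Ne.symm hab)
    exact h2 (Subgroup.mem_inf.1 (h1 ▸ hn)).2

/-- Lemma 1 -/
theorem Fam.exists_both (F : Fam G Ω q N) {a b : Ω} (hab : a ≠ b) : ∃ x ∈ N a, x ∈ N b ∧ x ≠ 1 := by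
  by_contra hcon
  push Not at hcon
  have hall : ∀ c d : Ω, c ≠ d → ∀ x ∈ N c, x ∈ N d → x = 1 := by
    intro c d hcd x hxc hxd
    obtain ⟨g, hgc, hgd⟩ := F.tt c d a b hcd hab
    have := hcon _ (F.mem_conj' hgc hxc) (F.mem_conj' hgd hxd)
    simpa using this
  obtain ⟨S, hS⟩ := F.exists_sy hab
  obtain ⟨P, L, h⟩ := F.ps b
  obtain ⟨A, hA, B, hB, hAB, hU⟩ := h.fl hS.fb
  obtain ⟨P', L', h'⟩ := F.ps a
  obtain ⟨x, hx, hx2⟩ := h'.exists_order4 hS.fa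
  have hxS := (Subgroup.mem_inf.1 hx).1
  have hxa := (Subgroup.mem_inf.1 hx).2
  have hxb : x • b = b := hS.sb hxS
  have hc : ∀ y ∈ A, x * y = y * x := by
    intro y hy
    have hyU : y ∈ S ⊓ N b := by rw [hU]; exact mem_sup_left hy
    have hyS := (Subgroup.mem_inf.1 hyU).1
    have hyb := (Subgroup.mem_inf.1 hyU).2
    have h1 : x * y * x⁻¹ * y⁻¹ = 1 := by
      refine hall a b hab _ ?_ ?_
      · have := (N a).mul_mem hxa (F.mem_conj' (hS.sa hyS) ((N a).inv_mem hxa))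
        simpa [mul_assoc] using this
      · exact (N b).mul_mem (F.mem_conj' hxb hyb) ((N b).inv_mem hyb)
    rwa [mul_inv_eq_one, mul_inv_eq_iff_eq_mul] at h1
  obtain ⟨e, he, c, hcc, h2⟩ := h.K6 hA (F.Nz hxb) hc
  have h3 : x * x = c * c := by
    have h4 := h.h1.sq A hA e he
    have h5 : c * e = e * c := Fam.ct_comm hcc (h.h1.le A hA he)
    calc x * x = e * (c * e) * c := by rw [h2]; simp [mul_assoc]
      _ = (e * e) * (c * c) := by rw [h5]; simp [mul_assoc]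
      _ = c * c := by rw [h4, one_mul]
  have h4 : x * x ∈ Ct N b := by rw [h3]; exact mul_mem hcc hcc
  obtain ⟨v, hv, hva⟩ := F.moves (Ne.symm hab)
  have h5 : x * x ∈ N (v • a) := by
    have h6 := F.mem_conj (g := v) ((N a).mul_mem hxa hxa)
    have h7 : v * (x * x) * v⁻¹ = x * x := by
      rw [← Fam.ct_comm h4 hv]; simp
    rwa [h7] at h6
  exact hx2 (hall a (v • a) (Ne.symm hva) _ ((N a).mul_mem hxa hxa) h5)

/-- Lemma 0 -/
theorem Fam.ct_inf (F : Fam G Ω q N) {a b : Ω} (hab : a ≠ b) : Ct N a ⊓ Ct N b = ⊥ := by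
  by_contra hne
  set K : Ω → Ω → Subgroup G := fun c d => Ct N c ⊓ Ct N d with hK
  have hKconj : ∀ (g : G) c d, cj g (K c d) = K (g • c) (g • d) := by
    intro g c d
    rw [hK]
    simp only
    rw [cj_inf, F.ct_conj, F.ct_conj]
  have hcard : ∀ c d, c ≠ d → Nat.card (K c d) = Nat.card (K a b) := by
    intro c d hcd
    obtain ⟨g, h1, h2⟩ := F.tt a b c d hab hcd
    rw [← h1, ← h2, ← hKconj, card_cj]
  have hKeq : ∀ a' b' c d, a' ≠ b' → c ≠ d → K a' b' ≤ Ct N c → K a' b' ≤ Ct N d → K a' b' = K c d := by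
    intro a' b' c d hab' hcd h1 h2
    exact Subgroup.eq_of_le_of_card_ge (le_inf h1 h2) (by rw [hcard a' b' hab', hcard c d hcd])
  obtain ⟨t, hta, htb, ht1⟩ := F.exists_both hab
  have hfixa : t • a = a := F.le a t hta
  have hfixb : t • b = b := F.le b t htb
  -- `t` normalises `K a c` and `K b c`
  have hta' : ∀ c d, K a c ≤ Ct N d → K a c ≤ Ct N (t • d) := by
    intro c d h1
    have h2 : cj t (K a c) = K a c := cj_of_comm fun x hx =>
      (Fam.ct_comm (Subgroup.mem_inf.1 hx).1 hta).symm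
    rw [← h2, ← F.ct_conj]; exact cj_mono h1
  have htb' : ∀ c d, K b c ≤ Ct N d → K b c ≤ Ct N (t • d) := by
    intro c d h1
    have h2 : cj t (K b c) = K b c := cj_of_comm fun x hx =>
      (Fam.ct_comm (Subgroup.mem_inf.1 hx).1 htb).symm
    rw [← h2, ← F.ct_conj]; exact cj_mono h1
  have h1 : ∀ c, ¬ K a b ≤ Ct N c → t • c = c := by
    intro c hc
    by_contra hne2
    have hac : a ≠ c := by rintro rfl; exact hc inf_le_left
    have hbc : b ≠ c := by rintro rfl; exact hc inf_le_right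
    have h2 := hKeq a c c (t • c) hac (Ne.symm hne2) inf_le_right (hta' c c inf_le_right)
    have h3 := hKeq b c c (t • c) hbc (Ne.symm hne2) inf_le_right (htb' c c inf_le_right)
    have h4 : K a c ≤ Ct N b := by
      have h5 : K b c ≤ Ct N b := inf_le_left
      rw [h3, ← h2] at h5
      exact h5
    have h5 := hKeq a c a b hac hab inf_le_left h4
    exact hc (h5 ▸ inf_le_right)
  obtain ⟨e, he⟩ : ∃ e, ¬ K a b ≤ Ct N e := by
    by_contra hcon
    push Not at hcon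
    apply hne
    rw [eq_bot_iff]
    intro x hx
    exact Subgroup.mem_bot.2 (F.faith x fun c => F.ct_le (hcon c hx))
  refine ht1 (F.faith t fun c => ?_)
  by_cases hc : K a b ≤ Ct N c
  · by_contra hne2
    have hca : c ≠ a := by rintro rfl; exact hne2 hfixa
    have hcb : c ≠ b := by rintro rfl; exact hne2 hfixb
    have hec : e ≠ c := by rintro rfl; exact he hc
    -- a third point of the line `e c`
    obtain ⟨g, hga, hgb⟩ := F.tt a b e c hab hec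
    have hf1 : K e c ≤ Ct N (g • c) := by
      rw [← hga, ← hgb, ← hKconj, ← F.ct_conj]
      rw [hgb] 
      exact cj_mono hc
    have hfe : g • c ≠ e := by
      rw [← hga]; exact fun h => hca (smul_left_cancel g h)
    have hfc : g • c ≠ c := by
      intro h
      rw [← hgb] at h
      rw [hgb] at h
      exact hcb (smul_left_cancel g (h.trans hgb.symm))
    set f := g • c with hf
    have h6 : K e c = K e f := hKeq e c e f hec (Ne.symm hfe) inf_le_left hf1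
    have hfL : ¬ K a b ≤ Ct N f := by
      intro h7
      have h8 := hKeq a b c f hab (Ne.symm hfc) hc h7
      have h9 := hKeq e c c f hec (Ne.symm hfc) inf_le_right hf1
      apply he
      rw [h8, ← h9]; exact inf_le_left
    have hte := h1 e he
    have htf := h1 f hfL
    have h7 : cj t (K e f) = K e f := by rw [hKconj, hte, htf]
    have h8 : K e c ≤ Ct N (t • c) := by
      rw [h6, ← h7, ← h6, ← F.ct_conj]
      exact cj_mono inf_le_right
    have h9 : K a b ≤ Ct N (t • c) := by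
      have := hta' b c hc
      exact this
    have h10 := hKeq e c c (t • c) hec (Ne.symm hne2) inf_le_right h8
    have h11 := hKeq a b c (t • c) hab (Ne.symm hne2) hc h9
    apply he
    rw [h11, ← h10]; exact inf_le_left
  · exact h1 c hc

theorem Sy.inv_mem {a b : Ω} {S : Subgroup G} (hS : Sy N q a b S) {M : Subgroup G}
    (hMa : M ≤ stabilizer G a) (hMb : M ≤ stabilizer G b)
    (hn : ∀ g : G, g • a = a → g • b = b → ∀ m ∈ M, g * m * g⁻¹ ∈ M) {x : G} (hx : x ∈ M) (hx1 : x ≠ 1)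
    (hx2 : ∃ k : ℕ, x ^ 2 ^ k = 1) : ∃ y ∈ M, y ∈ S ∧ y ≠ 1 := by
  obtain ⟨g, h1, h2, h3⟩ := hS.univ (zpowers x) (by rw [Subgroup.zpowers_le]; exact hMa hx)
    (by rw [Subgroup.zpowers_le]; exact hMb hx) (isPGroup_zpowers hx2)
  exact ⟨g * x * g⁻¹, hn g h1 h2 x hx, h3 (cj_mem (mem_zpowers x)), by simpa using hx1⟩

theorem Fam.exists_D (F : Fam G Ω q N) {a b : Ω} (hab : a ≠ b) {S : Subgroup G} (hS : Sy N q a b S) :
    ∃ d ∈ S, d ∈ N a ∧ d ∈ N b ∧ d ≠ 1 := by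
  obtain ⟨x, hxa, hxb, hx1⟩ := F.exists_both hab
  obtain ⟨m, hm, hm1, hm2⟩ := F.exists_inv hab (M := N a ⊓ N b) inf_le_right
    (fun x hx => F.le a x (Subgroup.mem_inf.1 hx).1)
    (ne_bot_of_mem (Subgroup.mem_inf.2 ⟨hxa, hxb⟩) hx1)
    (fun h hh hha m hm => Subgroup.mem_inf.2 ⟨F.mem_conj' hha (Subgroup.mem_inf.1 hm).1,
      (N b).mul_mem ((N b).mul_mem hh (Subgroup.mem_inf.1 hm).2) ((N b).inv_mem hh)⟩)
  obtain ⟨y, hy, hyS, hy1⟩ := hS.inv_mem (M := N a ⊓ N b)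
    (fun x hx => F.le a x (Subgroup.mem_inf.1 hx).1) (fun x hx => F.le b x (Subgroup.mem_inf.1 hx).2)
    (fun g h1 h2 m hm => Subgroup.mem_inf.2 ⟨F.mem_conj' h1 (Subgroup.mem_inf.1 hm).1,
      F.mem_conj' h2 (Subgroup.mem_inf.1 hm).2⟩) hm hm1 ⟨1, by simpa [pow_two] using hm2⟩
  exact ⟨y, hyS, (Subgroup.mem_inf.1 hy).1, (Subgroup.mem_inf.1 hy).2, hy1⟩

/-- first half of Lemma 2 -/
theorem Fam.lem2a (F : Fam G Ω q N) {a b : Ω} (hab : a ≠ b) {S : Subgroup G} (hS : Sy N q a b S)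
    (hne : ∃ x ∈ N b, x ∈ Ct N a ∧ x ≠ 1) {P L : Set (Subgroup G)} (h : PS (N b) q P L)
    {A B : Subgroup G} (hA : A ∈ P) (hB : B ∈ L) (hAB : A ⊓ B ≠ ⊥) (hU : S ⊓ N b = A ⊔ B) :
    (∀ d ∈ S, d ∈ N a → d ∈ N b → d ∈ A ⊓ B) ∧ ∃ z ∈ A ⊓ B, z ∈ Ct N a ∧ z ≠ 1 := by
  obtain ⟨x, hxb, hxa, hx1⟩ := hne
  obtain ⟨m, hm, hm1, hm2⟩ := F.exists_inv hab (M := N b ⊓ Ct N a) inf_le_left
    (fun x hx => F.ct_le (Subgroup.mem_inf.1 hx).2)
    (ne_bot_of_mem (Subgroup.mem_inf.2 ⟨hxb, hxa⟩) hx1)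
    (fun h hh hha m hm => Subgroup.mem_inf.2 ⟨
      (N b).mul_mem ((N b).mul_mem hh (Subgroup.mem_inf.1 hm).1) ((N b).inv_mem hh),
      F.ct_mem_conj' hha (Subgroup.mem_inf.1 hm).2⟩)
  obtain ⟨y, hy, hyS, hy1⟩ := hS.inv_mem (M := N b ⊓ Ct N a)
    (fun x hx => F.ct_le (Subgroup.mem_inf.1 hx).2) (fun x hx => F.le b x (Subgroup.mem_inf.1 hx).1)
    (fun g h1 h2 m hm => Subgroup.mem_inf.2 ⟨F.mem_conj' h2 (Subgroup.mem_inf.1 hm).1,
      F.ct_mem_conj' h1 (Subgroup.mem_inf.1 hm).2⟩) hm hm1 ⟨1, by simpa [pow_two] using hm2⟩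
  have hyb := (Subgroup.mem_inf.1 hy).1
  have hya := (Subgroup.mem_inf.1 hy).2
  -- a non-trivial element of `Z(U_b)` in `C_a`
  have hz : ∃ z ∈ A ⊓ B, z ∈ Ct N a ∧ z ≠ 1 := by
    by_cases hyZ : y ∈ A ⊓ B
    · exact ⟨y, hyZ, hya, hy1⟩
    obtain ⟨z, hz, hz1⟩ := exists_mem_of_ne_bot hAB
    have hyU : y ∈ A ⊔ B := by rw [← hU]; exact Subgroup.mem_inf.2 ⟨hyS, hyb⟩
    obtain ⟨u, hu, h1⟩ := h.comm_surj' hA hB hAB hyU hyZ hz
    refine ⟨z, hz, ?_, hz1⟩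
    have huS : u ∈ S := by rw [← hU] at hu; exact (Subgroup.mem_inf.1 hu).1
    have h2 := F.ct_mem_conj' (hS.sa huS) ((Ct N a).inv_mem hya)
    have h3 := (Ct N a).mul_mem hya h2
    rw [← h1]
    simpa [mul_assoc] using h3
  refine ⟨?_, hz⟩
  obtain ⟨z, hz, hza, hz1⟩ := hz
  intro d hdS hda hdb
  by_contra hdZ
  have hdU : d ∈ A ⊔ B := by rw [← hU]; exact Subgroup.mem_inf.2 ⟨hdS, hdb⟩
  obtain ⟨u, hu, h1⟩ := h.comm_surj' hA hB hAB hdU hdZ hz
  have huS : u ∈ S := by rw [← hU] at hu; exact (Subgroup.mem_inf.1 hu).1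
  have h2 : z ∈ N a := by
    have h3 := (N a).mul_mem hda (F.mem_conj' (hS.sa huS) ((N a).inv_mem hda))
    rw [← h1]
    simpa [mul_assoc] using h3
  exact hz1 (F.center h2 hza)

/-- Lemma 2 -/
theorem Fam.lem2 (F : Fam G Ω q N) {a b : Ω} (hab : a ≠ b) {x : G} (hxb : x ∈ N b) (hxa : x ∈ Ct N a) :
    x = 1 := by
  by_contra hx1
  obtain ⟨S, hS⟩ := F.exists_sy hab
  obtain ⟨P, L, h⟩ := F.ps b
  obtain ⟨A, hA, B, hB, hAB, hU⟩ := h.fl hS.fb
  obtain ⟨P', L', h'⟩ := F.ps a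
  obtain ⟨A', hA', B', hB', hAB', hU'⟩ := h'.fl hS.fa
  obtain ⟨hD, z, hz, hza, hz1⟩ := F.lem2a hab hS ⟨x, hxb, hxa, hx1⟩ h hA hB hAB hU
  obtain ⟨g, hga, hgb⟩ := F.tt a b b a hab (Ne.symm hab)
  obtain ⟨hD', z', hz', hzb', hz1'⟩ := F.lem2a (Ne.symm hab) hS.symm
    ⟨g * x * g⁻¹, F.mem_conj' hgb hxb, F.ct_mem_conj' hga hxa, by simpa using hx1⟩ h' hA' hB' hAB' hU'
  obtain ⟨d, hdS, hda, hdb, hd1⟩ := F.exists_D hab hS
  -- elements of `U_b` act on `N_a` as elements of `Z(U_a)`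
  have key : ∀ w ∈ A ⊔ B, ∃ u ∈ A' ⊓ B', ∃ c ∈ Ct N a, w = u * c := by
    intro w hw
    have hwU := hw
    rw [← hU] at hwU
    have hwS := (Subgroup.mem_inf.1 hwU).1
    have hwb := (Subgroup.mem_inf.1 hwU).2
    have hcomm : ∀ u ∈ A' ⊔ B', w * u * w⁻¹ * u⁻¹ ∈ S ⊓ N a ⊓ N b := by
      intro u hu
      rw [← hU'] at hu
      have huS := (Subgroup.mem_inf.1 hu).1
      have hua := (Subgroup.mem_inf.1 hu).2
      refine Subgroup.mem_inf.2 ⟨Subgroup.mem_inf.2 ⟨?_, ?_⟩, ?_⟩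
      · exact S.mul_mem (S.mul_mem (S.mul_mem hwS huS) (S.inv_mem hwS)) (S.inv_mem huS)
      · exact (N a).mul_mem (F.mem_conj' (hS.sa hwS) hua) ((N a).inv_mem hua)
      · have h3 := (N b).mul_mem hwb (F.mem_conj' (hS.sb huS) ((N b).inv_mem hwb))
        simpa [mul_assoc] using h3
    obtain ⟨u, hu, c, hc, h1⟩ := h'.K1 hA' hB' hAB' (D := S ⊓ N a ⊓ N b)
      (fun y hy => mem_sup_left (hD' y (Subgroup.mem_inf.1 (Subgroup.mem_inf.1 hy).1).1
        (Subgroup.mem_inf.1 hy).2 (Subgroup.mem_inf.1 (Subgroup.mem_inf.1 hy).1).2 |>.1))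
      (fun y hy => h'.h1.sq A' hA' y (hD' y (Subgroup.mem_inf.1 (Subgroup.mem_inf.1 hy).1).1
        (Subgroup.mem_inf.1 hy).2 (Subgroup.mem_inf.1 (Subgroup.mem_inf.1 hy).1).2 |>.1))
      (F.Nz (hS.sa hwS)) ⟨2, h.pow4 hA hB hAB hw⟩ hcomm
    refine ⟨u, ?_, c, hc, h1⟩
    by_contra huZ
    obtain ⟨y, hy, h2⟩ := h'.comm_surj' hA' hB' hAB' hu huZ hz'
    have h3 := hcomm y hy
    have hya : y ∈ N a := by rw [← hU'] at hy; exact (Subgroup.mem_inf.1 hy).2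
    have h4 : w * y * w⁻¹ * y⁻¹ = z' := by
      rw [h1, ← h2]
      have h5 : c * y = y * c := Fam.ct_comm hc hya
      have h6 : u * c * y * (u * c)⁻¹ * y⁻¹ = u * (c * y) * c⁻¹ * u⁻¹ * y⁻¹ := by simp [mul_assoc]
      rw [h6, h5]; simp [mul_assoc]
    rw [h4] at h3
    exact hz1' (F.center (Subgroup.mem_inf.1 h3).2 hzb')
  have hdZ := hD d hdS hda hdb
  -- `d` is a commutator in `U_b`
  obtain ⟨w, hw, hw2⟩ := h.exists_order4 hS.fb
  rw [hU] at hw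
  have hwZ : w ∉ A ⊓ B := fun h1 => hw2 (h.h1.sq A hA w (Subgroup.mem_inf.1 h1).1)
  obtain ⟨y, hy, h1⟩ := h.comm_surj' hA hB hAB hw hwZ hdZ
  obtain ⟨u, hu, c, hc, hw'⟩ := key w hw
  obtain ⟨u', hu', c', hc', hy'⟩ := key y hy
  have hua : u ∈ N a := h'.h1.le A' hA' (Subgroup.mem_inf.1 hu).1
  have hua' : u' ∈ N a := h'.h1.le A' hA' (Subgroup.mem_inf.1 hu').1
  have e1 : c * u' = u' * c := Fam.ct_comm hc hua'
  have e2 : c' * u = u * c' := Fam.ct_comm hc' hua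
  have e3 : u * u' = u' * u := h'.comm hA' (Subgroup.mem_inf.1 hu).1 (Subgroup.mem_inf.1 hu').1
  have e4 : w * y = y * w * (c⁻¹ * c'⁻¹ * c * c') := by
    rw [hw', hy']
    have e5 : u * c * (u' * c') = u * u' * (c * c') := by
      rw [mul_assoc, ← mul_assoc c, e1]; simp only [mul_assoc]
    have e6 : u' * c' * (u * c) = u * u' * (c' * c) := by
      rw [mul_assoc, ← mul_assoc c', e2, e3]; simp only [mul_assoc]
    rw [e5, e6]; simp [mul_assoc]
  have e5 : d = y * w * (c⁻¹ * c'⁻¹ * c * c') * w⁻¹ * y⁻¹ := by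
    rw [← h1, e4]
  have hc2 : c⁻¹ * c'⁻¹ * c * c' ∈ Ct N a :=
    mul_mem (mul_mem (mul_mem (inv_mem hc) (inv_mem hc')) hc) hc'
  have hyw : (y * w) • a = a := by
    have hyS : y ∈ S := by rw [← hU] at hy; exact (Subgroup.mem_inf.1 hy).1
    have hwS : w ∈ S := by rw [← hU] at hw; exact (Subgroup.mem_inf.1 hw).1
    exact hS.sa (S.mul_mem hyS hwS)
  have h6 := F.ct_mem_conj' hyw hc2
  have h7 : d ∈ Ct N a := by
    rw [e5]; simpa [mul_assoc] using h6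
  exact hd1 (F.center hda h7)

end Cfsg.Agent.P3
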