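import Cfsg.Agent.P3.Fam2

/-! Lemma 3: an element of order `4` in `U_a ∩ U_b`. -/

set_option autoImplicit false
set_option linter.all false

namespace Cfsg.Agent.P3

open Subgroup MulAction

variable {G Ω : Type*} [Group G] [Finite G] [Finite Ω] [MulAction G Ω] {q : ℕ} {N : Ω → Subgroup G}

theorem Fam.comm_S (F : Fam G Ω q N) {a b : Ω} {S : Subgroup G} (hS : Sy N q a b S) {w u : G}
    (hwS : w ∈ S) (hwb : w ∈ N b) (huS : u ∈ S) (hua : u ∈ N a) : w * u * w⁻¹ * u⁻¹ ∈ S ⊓ N a ⊓ N b := by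
  refine Subgroup.mem_inf.2 ⟨Subgroup.mem_inf.2 ⟨?_, ?_⟩, ?_⟩
  · exact S.mul_mem (S.mul_mem (S.mul_mem hwS huS) (S.inv_mem hwS)) (S.inv_mem huS)
  · exact (N a).mul_mem (F.mem_conj' (hS.sa hwS) hua) ((N a).inv_mem hua)
  · have h3 := (N b).mul_mem hwb (F.mem_conj' (hS.sb huS) ((N b).inv_mem hwb))
    simpa [mul_assoc] using h3

/-- an element of `N_a ∩ N_b` which normalises all `N_{bb'}`, `b' ∈ b^{N_a}`, is trivial -/
theorem Fam.core_triv (F : Fam G Ω q N) {a b : Ω} (hab : a ≠ b) {v : G} (hva : v ∈ N a)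
    (hv : ∀ x ∈ N a, v • (x • b) = x • b) : v = 1 := by
  obtain ⟨P, L, h⟩ := F.ps a
  haveI := h.simple
  let K : Subgroup (N a) :=
    { carrier := {y | ∀ x ∈ N a, (y : G) • (x • b) = x • b}
      one_mem' := fun x _ => by simp
      mul_mem' := by
        intro y z hy hz x hx
        show ((y : G) * (z : G)) • (x • b) = x • b
        rw [mul_smul, hz x hx, hy x hx]
      inv_mem' := by
        intro y hy x hx
        show (y : G)⁻¹ • (x • b) = x • b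
        rw [inv_smul_eq_iff, hy x hx] }
  have hKn : K.Normal := by
    constructor
    intro y hy g x hx
    show ((g : G) * (y : G) * (g : G)⁻¹) • (x • b) = x • b
    have h1 := hy ((g : G)⁻¹ * x) ((N a).mul_mem ((N a).inv_mem g.2) hx)
    rw [mul_smul, mul_smul, ← mul_smul (g : G)⁻¹, h1, mul_smul, smul_inv_smul]
  rcases hKn.eq_bot_or_eq_top with h1 | h1
  · have h2 : (⟨v, hva⟩ : N a) ∈ K := hv
    rw [h1, Subgroup.mem_bot] at h2
    exact congrArg Subtype.val h2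
  · exfalso
    obtain ⟨n, hn, h2⟩ := F.moves hab
    have h3 : (⟨n, hn⟩ : N a) ∈ K := h1 ▸ Subgroup.mem_top _
    have h4 := h3 1 (N a).one_mem
    rw [one_smul] at h4
    exact h2 h4

/-- Lemma 3 -/
theorem Fam.lem3 (F : Fam G Ω q N) {a b : Ω} (hab : a ≠ b) {S : Subgroup G} (hS : Sy N q a b S)
    (h1 : ∀ w ∈ S ⊓ N b, ∃ u ∈ S ⊓ N a, ∃ c ∈ Ct N a, w = u * c)
    (h2 : ∀ w ∈ S ⊓ N a, ∃ u ∈ S ⊓ N b, ∃ c ∈ Ct N b, w = u * c) : S ⊓ N b = S ⊓ N a := by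
  obtain ⟨P, L, h⟩ := F.ps b
  obtain ⟨A, hA, B, hB, hAB, hU⟩ := h.fl hS.fb
  -- surjectivity of `U_a → U_b`
  have hsurj : ∀ y ∈ S ⊓ N b, ∃ x ∈ S ⊓ N a, ∃ d ∈ Ct N b, x = y * d := by
    choose! f hf g hg hfg using h2
    let φ : ↥(S ⊓ N a) → ↥(S ⊓ N b) := fun x => ⟨f x, hf x x.2⟩
    have hinj : Function.Injective φ := by
      rintro ⟨x, hx⟩ ⟨x', hx'⟩ he
      have he' : f x = f x' := congrArg Subtype.val he
      have h3 : x⁻¹ * x' = (g x)⁻¹ * g x' := by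
        calc x⁻¹ * x' = (f x * g x)⁻¹ * (f x' * g x') := by rw [← hfg x hx, ← hfg x' hx']
          _ = _ := by rw [he']; simp [mul_assoc]
      have h4 : x⁻¹ * x' = 1 := by
        refine F.lem2 (Ne.symm hab) (x := x⁻¹ * x') ((N a).mul_mem ((N a).inv_mem (Subgroup.mem_inf.1 hx).2)
          (Subgroup.mem_inf.1 hx').2) ?_
        rw [h3]; exact (Ct N b).mul_mem ((Ct N b).inv_mem (hg x hx)) (hg x' hx')
      exact Subtype.ext (inv_mul_eq_one.1 h4)
    have hbij : Function.Bijective φ :=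
      (Nat.bijective_iff_injective_and_card φ).2 ⟨hinj, by rw [hS.fa.card, hS.fb.card]⟩
    intro y hy
    obtain ⟨⟨x, hx⟩, he⟩ := hbij.2 ⟨y, hy⟩
    have he' : f x = y := congrArg Subtype.val he
    exact ⟨x, hx, g x, hg x hx, by rw [← he', ← hfg x hx]⟩
  refine Subgroup.eq_of_le_of_card_ge ?_ (by rw [hS.fa.card, hS.fb.card])
  intro w hw
  obtain ⟨u, hu, c, hc, hwc⟩ := h1 w hw
  have huS := (Subgroup.mem_inf.1 hu).1
  have hua := (Subgroup.mem_inf.1 hu).2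
  have hwS := (Subgroup.mem_inf.1 hw).1
  have hwb := (Subgroup.mem_inf.1 hw).2
  have hcS : c ∈ S := by
    have : c = u⁻¹ * w := by rw [hwc]; simp
    rw [this]; exact S.mul_mem (S.inv_mem huS) hwS
  have hcb : c • b = b := hS.sb hcS
  -- `c = v d`
  obtain ⟨v', hv', d, hd, hud⟩ := h2 u⁻¹ (Subgroup.inv_mem _ hu)
  have hv'b := (Subgroup.mem_inf.1 hv').2
  set v := v' * w with hv
  have hvb : v ∈ N b := (N b).mul_mem hv'b hwb
  have hvS : v ∈ S := S.mul_mem (Subgroup.mem_inf.1 hv').1 hwS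
  have hcv : c = v * d := by
    have h3 : c = u⁻¹ * w := by rw [hwc]; simp
    rw [h3, hud, hv, mul_assoc, Fam.ct_comm hd hwb, mul_assoc]
  -- `c` centralises `U_b`
  have hcU : ∀ y ∈ S ⊓ N b, c * y = y * c := by
    intro y hy
    obtain ⟨uy, huy, cy, hcy, hy'⟩ := h1 y hy
    have huya := (Subgroup.mem_inf.1 huy).2
    have h3 : c * y * c⁻¹ * y⁻¹ = 1 := by
      refine F.lem2 hab ?_ ?_
      · exact (N b).mul_mem (F.mem_conj' hcb (Subgroup.mem_inf.1 hy).2) ((N b).inv_mem (Subgroup.mem_inf.1 hy).2)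
      · have e1 : c * uy = uy * c := Fam.ct_comm hc huya
        have h4 : c * cy * c⁻¹ * cy⁻¹ ∈ Ct N a :=
          mul_mem (mul_mem (mul_mem hc hcy) (inv_mem hc)) (inv_mem hcy)
        have e3 : c * y * c⁻¹ * y⁻¹ = uy * (c * cy * c⁻¹ * cy⁻¹) * uy⁻¹ := by
          rw [hy']
          have : c * (uy * cy) * c⁻¹ * (uy * cy)⁻¹ = (c * uy) * cy * c⁻¹ * cy⁻¹ * uy⁻¹ := by
            simp [mul_assoc]
          rw [this, e1]; simp only [mul_assoc]
        have e4 : uy * (c * cy * c⁻¹ * cy⁻¹) * uy⁻¹ = c * cy * c⁻¹ * cy⁻¹ := by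
          rw [← Fam.ct_comm h4 huya]; simp
        rw [e3, e4]; exact h4
    rwa [mul_inv_eq_one, mul_inv_eq_iff_eq_mul] at h3
  have hvU : ∀ y ∈ S ⊓ N b, v * y = y * v := by
    intro y hy
    have e1 : v = c * d⁻¹ := by rw [hcv]; simp
    have e2 : d⁻¹ * y = y * d⁻¹ := Fam.ct_comm ((Ct N b).inv_mem hd) (Subgroup.mem_inf.1 hy).2
    rw [e1, mul_assoc, e2, ← mul_assoc, hcU y hy, mul_assoc]
  -- `v ∈ Z(U_b)`
  have hvZ : v ∈ A ⊓ B := by
    by_contra hvZ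
    obtain ⟨z, hz, hz1⟩ := exists_mem_of_ne_bot hAB
    obtain ⟨y, hy, h3⟩ := h.comm_surj' hA hB hAB (by rw [← hU]; exact Subgroup.mem_inf.2 ⟨hvS, hvb⟩) hvZ hz
    rw [← hU] at hy
    rw [hvU y hy] at h3
    apply hz1
    rw [← h3]; simp
  -- `v ∈ N a`
  have hva : v ∈ N a := by
    obtain ⟨y, hy, hy2⟩ := h.exists_order4 hS.fb
    have hy' := hy
    rw [hU] at hy'
    have hyZ : y ∉ A ⊓ B := fun h3 => hy2 (h.h1.sq A hA y (Subgroup.mem_inf.1 h3).1)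
    obtain ⟨y', hy'', h3⟩ := h.comm_surj' hA hB hAB hy' hyZ hvZ
    rw [← hU] at hy''
    obtain ⟨x, hx, e, he, hxy⟩ := hsurj y' hy''
    have hyb := (Subgroup.mem_inf.1 hy).2
    have hyS := (Subgroup.mem_inf.1 hy).1
    have hxa := (Subgroup.mem_inf.1 hx).2
    have e1 : e * y⁻¹ = y⁻¹ * e := Fam.ct_comm he ((N b).inv_mem hyb)
    have e2 : y * x * y⁻¹ * x⁻¹ = v := by
      rw [hxy, ← h3]
      have : y * (y' * e) * y⁻¹ * (y' * e)⁻¹ = y * y' * (e * y⁻¹) * e⁻¹ * y'⁻¹ := by simp [mul_assoc]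
      rw [this, e1]; simp [mul_assoc]
    rw [← e2]
    exact (N a).mul_mem (F.mem_conj' (hS.sa hyS) hxa) ((N a).inv_mem hxa)
  have hv2 : v * v = 1 := h.h1.sq A hA v (Subgroup.mem_inf.1 hvZ).1
  -- `v` fixes `b^{N_a}`
  have hv1 : v = 1 := by
    refine F.core_triv hab hva fun x hx => ?_
    by_cases hb' : x • b = b
    · rw [hb']; exact F.le b v hvb
    obtain ⟨U, hUf, hUb'⟩ := F.exists_fl (Ne.symm hb')
    have hcb' : c • (x • b) = x • b := by
      rw [← mul_smul, Fam.ct_comm hc hx, mul_smul, hcb]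
    have h3 : v ∈ N b ⊓ stabilizer G (x • b) := by
      refine h.mem_of_norm (H := N b ⊓ stabilizer G (x • b)) (U := U) inf_le_left hUf (le_inf hUf.le hUb') hvb
        ⟨1, by simpa [pow_two] using hv2⟩ ?_
      intro y hy
      have hyb := (Subgroup.mem_inf.1 hy).1
      have hyx : y • (x • b) = x • b := (Subgroup.mem_inf.1 hy).2
      have e1 : v * y * v⁻¹ = c * y * c⁻¹ := by
        have e2 : d * y = y * d := Fam.ct_comm hd hyb
        rw [hcv]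
        have : v * d * y * (v * d)⁻¹ = v * (d * y) * d⁻¹ * v⁻¹ := by simp [mul_assoc]
        rw [this, e2]; simp [mul_assoc]
      rw [e1]
      refine Subgroup.mem_inf.2 ⟨F.mem_conj' hcb hyb, ?_⟩
      show (c * y * c⁻¹) • (x • b) = x • b
      have e3 : c⁻¹ • (x • b) = x • b := by rw [inv_smul_eq_iff, hcb']
      rw [mul_smul, mul_smul, e3, hyx, hcb']
    exact (Subgroup.mem_inf.1 h3).2
  have hc1 : c = 1 := by
    have h3 : c ∈ Ct N a ⊓ Ct N b := by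
      refine Subgroup.mem_inf.2 ⟨hc, ?_⟩
      rw [hcv, hv1, one_mul]; exact hd
    rw [F.ct_inf hab] at h3
    exact Subgroup.mem_bot.1 h3
  rw [hwc, hc1, mul_one]; exact hu

/-- `U_a ∩ U_b` contains an element of order `4` -/
theorem Fam.exists_D4 (F : Fam G Ω q N) {a b : Ω} (hab : a ≠ b) {S : Subgroup G} (hS : Sy N q a b S) :
    ∃ d ∈ S, d ∈ N a ∧ d ∈ N b ∧ d * d ≠ 1 := by
  by_contra hcon
  push Not at hcon
  obtain ⟨P, L, h⟩ := F.ps b
  obtain ⟨A, hA, B, hB, hAB, hU⟩ := h.fl hS.fb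
  obtain ⟨P', L', h'⟩ := F.ps a
  obtain ⟨A', hA', B', hB', hAB', hU'⟩ := h'.fl hS.fa
  have hD : ∀ x ∈ S ⊓ N a ⊓ N b, x * x = 1 := fun x hx =>
    hcon x (Subgroup.mem_inf.1 (Subgroup.mem_inf.1 hx).1).1 (Subgroup.mem_inf.1 (Subgroup.mem_inf.1 hx).1).2
      (Subgroup.mem_inf.1 hx).2
  have heq := F.lem3 hab hS (by
    intro w hw
    have hw4 : ∃ k : ℕ, w ^ 2 ^ k = 1 := ⟨2, h.pow4 hA hB hAB (by rw [← hU]; exact hw)⟩
    have h1 := h'.K1 hA' hB' hAB' (D := S ⊓ N a ⊓ N b) (by rw [← hU']; exact inf_le_left) hD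
      (F.Nz (hS.sa (Subgroup.mem_inf.1 hw).1)) hw4 (by
        intro u hu
        rw [← hU'] at hu
        exact F.comm_S hS (Subgroup.mem_inf.1 hw).1 (Subgroup.mem_inf.1 hw).2 (Subgroup.mem_inf.1 hu).1
          (Subgroup.mem_inf.1 hu).2)
    rwa [← hU'] at h1) (by
    intro w hw
    have hw4 : ∃ k : ℕ, w ^ 2 ^ k = 1 := ⟨2, h'.pow4 hA' hB' hAB' (by rw [← hU']; exact hw)⟩
    have h1 := h.K1 hA hB hAB (D := S ⊓ N a ⊓ N b) (by rw [← hU, inf_right_comm]; exact inf_le_left) hD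
      (F.Nz (hS.sb (Subgroup.mem_inf.1 hw).1)) hw4 (by
        intro u hu
        rw [← hU] at hu
        have := F.comm_S hS.symm (Subgroup.mem_inf.1 hw).1 (Subgroup.mem_inf.1 hw).2 (Subgroup.mem_inf.1 hu).1
          (Subgroup.mem_inf.1 hu).2
        rwa [inf_right_comm] at this)
    rwa [← hU] at h1)
  obtain ⟨x, hx, hx2⟩ := h'.exists_order4 hS.fa
  have hx' : x ∈ S ⊓ N b := by rw [heq]; exact hx
  exact hx2 (hcon x (Subgroup.mem_inf.1 hx).1 (Subgroup.mem_inf.1 hx).2 (Subgroup.mem_inf.1 hx').2)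

end Cfsg.Agent.P3
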