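import Cfsg.Agent.P3.Fam1

/-! More facts on flag groups. -/

set_option autoImplicit false
set_option linter.all false

namespace Cfsg.Agent.P3

open Subgroup

variable {G : Type*} [Group G] [Finite G] {N : Subgroup G} {q : ℕ} {P L : Set (Subgroup G)}

theorem PS.exists_not_mem (h : PS N q P L) {A B : Subgroup G} (hA : A ∈ P) (hB : B ∈ L) :
    ∃ a ∈ A, a ∉ B := by
  by_contra hcon
  push Not at hcon
  have : A = B := Subgroup.eq_of_le_of_card_ge hcon (by rw [h.h1.card A hA, h.h2.card B hB])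
  exact h.disj hA (this ▸ hB)

/-- the only point fixed by a flag group -/
theorem PS.fix_U (h : PS N q P L) {A B X : Subgroup G} (hA : A ∈ P) (hB : B ∈ L) (hAB : A ⊓ B ≠ ⊥)
    (hX : X ∈ P) (hf : ∀ x ∈ A ⊔ B, cj x X = X) : X = A := by
  by_contra hne
  by_cases hXB : X ⊓ B = ⊥
  · obtain ⟨b, hb, hb1⟩ := exists_mem_of_ne_bot (h.symm.ne_bot hB)
    exact hb1 (h.symm.reg_free hB hX (inf_eq hXB) hb (hf b (mem_sup_right hb)))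
  · obtain ⟨a, ha, haB⟩ := h.exists_not_mem hA hB
    exact haB (h.mem_of_fix hA hX (Ne.symm hne) hB hAB hXB ha (hf a (mem_sup_left ha)))

/-- `b ∈ B` fixing a line `B' ≠ B` through `A` lies in `A` -/
theorem PS.mem_of_fix' (h : PS N q P L) {A B B' : Subgroup G} (hA : A ∈ P) (hB : B ∈ L) (hB' : B' ∈ L)
    (hne : B ≠ B') (h1 : A ⊓ B ≠ ⊥) (h2 : A ⊓ B' ≠ ⊥) {b : G} (hb : b ∈ B) (hf : cj b B' = B') : b ∈ A :=
  h.symm.mem_of_fix hB hB' hne hA (inf_ne h1) (inf_ne h2) hb hf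

theorem PS.inf_U (h : PS N q P L) {A B B' : Subgroup G} (hA : A ∈ P) (hB : B ∈ L) (hB' : B' ∈ L)
    (hne : B ≠ B') (h1 : A ⊓ B ≠ ⊥) (h2 : A ⊓ B' ≠ ⊥) {x : G} (hx : x ∈ A ⊔ B) (hx' : cj x B' = B') :
    x ∈ A := by
  obtain ⟨a, ha, b, hb, rfl⟩ := (h.mem_sup hA hB h1).1 hx
  refine A.mul_mem ha (h.mem_of_fix' hA hB hB' hne h1 h2 hb ?_)
  have h3 : cj b B' = cj a⁻¹ (cj (a * b) B') := by rw [cj_mul, cj_inv_cj]
  rw [h3, hx', h.h1.norm A hA B' hB' h2 _ (A.inv_mem ha)]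

theorem PS.U_norm (h : PS N q P L) {A B : Subgroup G} (hA : A ∈ P) (hB : B ∈ L) (h1 : A ⊓ B ≠ ⊥) {x : G}
    (hx : x ∈ A ⊔ B) : cj x A = A ∧ cj x B = B := by
  obtain ⟨a, ha, b, hb, rfl⟩ := (h.mem_sup hA hB h1).1 hx
  rw [cj_mul, cj_mul, h.h2.norm B hB A hA (inf_ne h1) b hb, cj_self hb, cj_self ha,
    h.h1.norm A hA B hB h1 a ha]
  exact ⟨rfl, rfl⟩

theorem PS.inf_U' (h : PS N q P L) {A B B' : Subgroup G} (hA : A ∈ P) (hB : B ∈ L) (hB' : B' ∈ L)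
    (hne : B ≠ B') (h1 : A ⊓ B ≠ ⊥) (h2 : A ⊓ B' ≠ ⊥) {x : G} (hx : x ∈ A ⊔ B) (hx' : x ∈ A ⊔ B') :
    x ∈ A :=
  h.inf_U hA hB hB' hne h1 h2 hx (h.U_norm hA hB' h2 hx').2

theorem PS.cent_of_order4 (h : PS N q P L) {A B : Subgroup G} (hA : A ∈ P) (hB : B ∈ L)
    (h1 : A ⊓ B ≠ ⊥) {d z : G} (hd : d ∈ A ⊔ B) (hd2 : d * d ≠ 1) (hz : z ∈ A ⊔ B) (hz2 : z * z = 1)
    (hc : z * d = d * z) : z ∈ A ⊓ B := by
  obtain ⟨a, ha, b, hb, rfl⟩ := (h.mem_sup hA hB h1).1 hd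
  have haB : a ∉ B := fun h3 => hd2 (h.h2.sq B hB _ (B.mul_mem h3 hb))
  have hbA : b ∉ A := fun h3 => hd2 (h.h1.sq A hA _ (A.mul_mem ha h3))
  by_cases hzA : z ∈ A
  · refine Subgroup.mem_inf.2 ⟨hzA, ?_⟩
    refine h.symm.comm_ne hB hA (inf_ne h1) hb hbA hzA ?_
    have h2 : z * a = a * z := h.comm hA hzA ha
    have h3 : a * (z * b) = a * (b * z) := by
      rw [← mul_assoc, ← h2, mul_assoc, hc, mul_assoc]
    exact (mul_left_cancel h3).symm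
  · have hzB : z ∈ B := by
      by_contra hzB
      exact h.order4 hA hB h1 hz hzA hzB hz2
    refine Subgroup.mem_inf.2 ⟨?_, hzB⟩
    refine h.comm_ne hA hB h1 ha haB hzB ?_
    have h2 : z * b = b * z := h.symm.comm hB hzB hb
    have h3 : (a * z) * b = (z * a) * b := by
      rw [mul_assoc, h2, ← mul_assoc, ← hc, mul_assoc]
    exact mul_right_cancel h3

/-- the centre of a flag group -/
def Zc (U : Subgroup G) : Subgroup G := U ⊓ centralizer (U : Set G)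

omit [Finite G] in
theorem mem_Zc {U : Subgroup G} {z : G} : z ∈ Zc U ↔ z ∈ U ∧ ∀ u ∈ U, z * u = u * z := by
  unfold Zc
  rw [Subgroup.mem_inf, mem_centralizer_iff']

theorem PS.zc (h : PS N q P L) {A B : Subgroup G} (hA : A ∈ P) (hB : B ∈ L) (h1 : A ⊓ B ≠ ⊥) :
    Zc (A ⊔ B) = A ⊓ B := by
  ext z
  rw [mem_Zc]
  constructor
  · rintro ⟨hz, hc⟩
    by_contra hzZ
    obtain ⟨w, hw, hw1⟩ := exists_mem_of_ne_bot h1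
    obtain ⟨y, hy, h2⟩ := h.comm_surj' hA hB h1 hz hzZ hw
    rw [hc y hy] at h2
    apply hw1
    rw [← h2]; simp
  · intro hz
    exact ⟨mem_sup_left (Subgroup.mem_inf.1 hz).1, fun u hu => h.central hA hB h1 hz hu⟩

theorem PS.split (h : PS N q P L) {A B₁ B₂ : Subgroup G} (hA : A ∈ P) (hB₁ : B₁ ∈ L) (hB₂ : B₂ ∈ L)
    (hne : B₁ ≠ B₂) (h1 : A ⊓ B₁ ≠ ⊥) (h2 : A ⊓ B₂ ≠ ⊥) {x : G} (hx : x ∈ A) :
    ∃ x₁ ∈ A ⊓ B₁, ∃ x₂ ∈ A ⊓ B₂, x = x₁ * x₂ := by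
  have hn : ∀ b ∈ A ⊓ B₂, cj b (A ⊓ B₁) = A ⊓ B₁ := by
    intro b hb
    exact cj_of_comm fun y hy => h.comm hA (Subgroup.mem_inf.1 hb).1 (Subgroup.mem_inf.1 hy).1
  have h3 := card_sup_mul hn
  have h4 : (A ⊓ B₁) ⊓ (A ⊓ B₂) = ⊥ := by
    rw [eq_bot_iff]
    intro y hy
    have := h.h2.ti B₁ hB₁ B₂ hB₂ hne
    rw [← this]
    exact Subgroup.mem_inf.2 ⟨(Subgroup.mem_inf.1 (Subgroup.mem_inf.1 hy).1).2,
      (Subgroup.mem_inf.1 (Subgroup.mem_inf.1 hy).2).2⟩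
  rw [h4, Subgroup.card_bot, mul_one, h.h1.inc A hA B₁ hB₁ h1, h.h1.inc A hA B₂ hB₂ h2] at h3
  have h5 : (A ⊓ B₁) ⊔ (A ⊓ B₂) = A := h.eq_of_le hA (by rw [h3]; ring) (sup_le inf_le_left inf_le_left)
  rw [← h5] at hx
  exact (mem_sup_of_norm hn).1 hx

/-- two flag groups `V ≠ W` with `Z(V) ≤ W` have a common member of `P ∪ L`. -/
theorem PS.two_flags (h : PS N q P L) {V W : Subgroup G} (hV : IsFl N q V) (hW : IsFl N q W)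
    (hne : V ≠ W) (hZ : Zc V ≤ W) : ∃ P L, PS N q P L ∧ ∃ E ∈ P, ∃ B₁ ∈ L, ∃ B₂ ∈ L, B₁ ≠ B₂ ∧
      E ⊓ B₁ ≠ ⊥ ∧ E ⊓ B₂ ≠ ⊥ ∧ V = E ⊔ B₁ ∧ W = E ⊔ B₂ := by
  obtain ⟨A₁, hA₁, B₁, hB₁, h1, rfl⟩ := h.fl hV
  obtain ⟨A₂, hA₂, B₂, hB₂, h2, rfl⟩ := h.fl hW
  rw [h.zc hA₁ hB₁ h1] at hZ
  obtain ⟨z, hz, hz1⟩ := exists_mem_of_ne_bot h1
  obtain ⟨hzA, hzB⟩ := Subgroup.mem_inf.1 hz
  obtain ⟨e1, e2⟩ := h.U_norm hA₂ hB₂ h2 (hZ hz)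
  have h3 : A₁ ⊓ B₂ ≠ ⊥ := (h.fix_iff hA₁ hB₂ hzA hz1).1 e2
  have h4 : B₁ ⊓ A₂ ≠ ⊥ := (h.symm.fix_iff hB₁ hA₂ hzB hz1).1 e1
  by_cases hAA : A₁ = A₂
  · subst hAA
    exact ⟨P, L, h, A₁, hA₁, B₁, hB₁, B₂, hB₂, fun e => hne (by rw [e]), h1, h2, rfl, rfl⟩
  · have hBB : B₁ = B₂ := h.join_eq hA₁ hA₂ hAA hB₁ hB₂ h1 (inf_ne h4) h3 h2
    subst hBB
    exact ⟨L, P, h.symm, B₁, hB₁, A₁, hA₁, A₂, hA₂, hAA, inf_ne h1, inf_ne h2, sup_comm _ _, sup_comm _ _⟩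

/-- members of `P ∪ L`, canonically -/
structure IsE (N : Subgroup G) (q : ℕ) (E : Subgroup G) : Prop where
  le : E ≤ N
  card : Nat.card E = q ^ 2
  sq : ∀ x ∈ E, x * x = 1

theorem IsE.cj {E : Subgroup G} (h : IsE N q E) (g : G) : IsE (cj g N) q (P3.cj g E) :=
  ⟨cj_mono h.le, by rw [card_cj, h.card], sq_cj h.sq g⟩

theorem PS.isE (h : PS N q P L) {A : Subgroup G} (hA : A ∈ P) : IsE N q A :=
  ⟨h.h1.le A hA, h.h1.card A hA, h.h1.sq A hA⟩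

theorem PS.of_isE (h : PS N q P L) {E : Subgroup G} (hE : IsE N q E) : ∃ P L, PS N q P L ∧ E ∈ P := by
  rcases h.char hE.le hE.card hE.sq with h1 | h1
  · exact ⟨P, L, h, h1⟩
  · exact ⟨L, P, h.symm, h1⟩

/-- canonical version of `YY` -/
def YYc (N : Subgroup G) (q : ℕ) (A : Subgroup G) : Subgroup G :=
  ⨆ E ∈ {E : Subgroup G | IsE N q E ∧ E ⊓ A ≠ ⊥}, E

theorem le_YYc {A E : Subgroup G} (hE : IsE N q E) (hEA : E ⊓ A ≠ ⊥) : E ≤ YYc N q A :=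
  le_iSup₂_of_le (f := fun (E : Subgroup G) (_ : E ∈ {E : Subgroup G | IsE N q E ∧ E ⊓ A ≠ ⊥}) => E)
    E ⟨hE, hEA⟩ le_rfl

theorem YYc_le {A M : Subgroup G} (h : ∀ E, IsE N q E → E ⊓ A ≠ ⊥ → E ≤ M) : YYc N q A ≤ M :=
  iSup₂_le fun E hE => h E hE.1 hE.2

theorem PS.YYc_eq (h : PS N q P L) {A : Subgroup G} (hA : A ∈ P) : YYc N q A = YY L A := by
  apply le_antisymm
  · refine YYc_le fun E hE hEA => ?_
    rcases h.char hE.le hE.card hE.sq with h1 | h1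
    · obtain ⟨x, hx, hx1⟩ := exists_mem_of_ne_bot hEA
      have : E = A := h.ti' h1 hA (Subgroup.mem_inf.1 hx).1 (Subgroup.mem_inf.1 hx).2 hx1
      rw [this]; exact h.symm.le_YY' hA
    · exact le_YY h1 hEA
  · exact YY_le fun B hB hBA => le_YYc (h.symm.isE hB) hBA

theorem YYc_cj (g : G) (A : Subgroup G) : YYc (cj g N) q (cj g A) ≤ cj g (YYc N q A) := by
  refine YYc_le fun E hE hEA => ?_
  have h1 : IsE N q (cj g⁻¹ E) := by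
    have := hE.cj g⁻¹
    rwa [cj_inv_cj] at this
  have h2 : cj g⁻¹ E ⊓ A ≠ ⊥ := by
    have h3 : cj g⁻¹ E ⊓ A = cj g⁻¹ (E ⊓ cj g A) := by rw [cj_inf, cj_inv_cj]
    rw [h3]; exact fun h4 => hEA (cj_eq_bot.1 h4)
  have h3 := cj_mono (g := g) (le_YYc h1 h2)
  rwa [cj_cj_inv] at h3

end Cfsg.Agent.P3
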