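import Cfsg.Agent.P3.Fam3
import Cfsg.Agent.P3.Geo5

/-! Every 2-element of `N_a` fixing `b` lies in `N_b`. -/

set_option autoImplicit false
set_option linter.all false

namespace Cfsg.Agent.P3

open Subgroup MulAction

variable {G Ω : Type*} [Group G] [Finite G] [Finite Ω] [MulAction G Ω] {q : ℕ} {N : Ω → Subgroup G}

/-- Borel type -/
def BT (N : Ω → Subgroup G) (q : ℕ) (a b : Ω) : Prop :=
  ∃ U, IsFl (N a) q U ∧ U ≤ stabilizer G b ∧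
    ∀ T, T ≤ N a → T ≤ stabilizer G b → IsPGroup 2 T → T ≤ U

/-- parabolic type -/
def PT (N : Ω → Subgroup G) (q : ℕ) (a b : Ω) : Prop :=
  ∃ A, IsE (N a) q A ∧ YYc (N a) q A ≤ stabilizer G b ∧ ∀ x ∈ N a, x • b = b → cj x A = A

theorem Fam.dich (F : Fam G Ω q N) {a b : Ω} (hab : a ≠ b) : BT N q a b ∨ PT N q a b := by
  obtain ⟨P, L, h⟩ := F.ps a
  obtain ⟨U, hU, hUb⟩ := F.exists_fl hab
  obtain ⟨A, hA, B, hB, hAB, rfl⟩ := h.fl hU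
  rcases h.L7 hA hB hAB (H := N a ⊓ stabilizer G b) inf_le_left (le_inf hU.le hUb) with h1 | h1 | h1 | h1
  · left
    refine ⟨_, hU, hUb, fun T hTa hTb hT x hx => ?_⟩
    obtain ⟨k, hk⟩ := hT ⟨x, hx⟩
    have h2 := h1 x (Subgroup.mem_inf.2 ⟨hTa hx, hTb hx⟩)
    exact h.syl A hA B hB hAB x (hTa hx) ⟨k, congrArg Subtype.val hk⟩ h2.1 h2.2
  · right
    refine ⟨B, h.symm.isE hB, ?_, fun x hx hxb => h1.2 x (Subgroup.mem_inf.2 ⟨hx, hxb⟩)⟩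
    rw [h.symm.YYc_eq hB]; exact h1.1.trans inf_le_right
  · right
    refine ⟨A, h.isE hA, ?_, fun x hx hxb => h1.2 x (Subgroup.mem_inf.2 ⟨hx, hxb⟩)⟩
    rw [h.YYc_eq hA]; exact h1.1.trans inf_le_right
  · exfalso
    obtain ⟨n, hn, h2⟩ := F.moves hab
    exact h2 (Subgroup.mem_inf.1 (h1 ▸ hn)).2

theorem cj_le_stab {g : G} {U : Subgroup G} {b : Ω} (h : U ≤ stabilizer G b) :
    cj g U ≤ stabilizer G (g • b) := by
  intro x hx
  rw [mem_cj] at hx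
  have h1 := h hx
  rw [mem_stabilizer_iff, mul_smul, mul_smul, inv_smul_eq_iff] at h1
  exact h1

theorem Fam.BT_cj (F : Fam G Ω q N) {a b : Ω} (h : BT N q a b) (g : G) : BT N q (g • a) (g • b) := by
  obtain ⟨U, hU, hUb, hT⟩ := h
  refine ⟨cj g U, by rw [← F.conj]; exact hU.cj g, cj_le_stab hUb, fun T hTa hTb hT2 => ?_⟩
  have h1 : cj g⁻¹ T ≤ U := by
    refine hT _ ?_ ?_ (isPGroup_cj hT2 _)
    · have := cj_mono (g := g⁻¹) hTa
      rwa [F.conj, inv_smul_smul] at this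
    · have := cj_le_stab (g := g⁻¹) hTb
      rwa [inv_smul_smul] at this
  have := cj_mono (g := g) h1
  rwa [cj_cj_inv] at this

theorem Fam.PT_cj (F : Fam G Ω q N) {a b : Ω} (h : PT N q a b) (g : G) : PT N q (g • a) (g • b) := by
  obtain ⟨A, hA, hAb, hf⟩ := h
  refine ⟨cj g A, by rw [← F.conj]; exact hA.cj g, ?_, fun x hx hxb => ?_⟩
  · rw [← F.conj]
    exact (YYc_cj g A).trans (cj_le_stab hAb)
  · have h1 : g⁻¹ * x * g ∈ N a := by rw [← mem_cj, F.conj]; exact hx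
    have h2 : (g⁻¹ * x * g) • b = b := by
      rw [mul_smul, mul_smul, inv_smul_eq_iff]; exact hxb
    have h3 := hf _ h1 h2
    have h4 : cj x (cj g A) = cj g (cj (g⁻¹ * x * g) A) := by
      rw [← cj_mul, ← cj_mul]; congr 1; simp [mul_assoc]
    rw [h4, h3]

theorem Fam.dich_all (F : Fam G Ω q N) :
    (∀ a b : Ω, a ≠ b → BT N q a b) ∨ (∀ a b : Ω, a ≠ b → PT N q a b) := by
  by_cases h : ∃ a b : Ω, a ≠ b ∧ BT N q a b
  · left
    obtain ⟨a, b, hab, h1⟩ := h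
    intro c d hcd
    obtain ⟨g, rfl, rfl⟩ := F.tt a b c d hab hcd
    exact F.BT_cj h1 g
  · right
    push Not at h
    intro a b hab
    exact (F.dich hab).resolve_left (h a b hab)

/-- P-type -/
theorem Fam.eq_of_PT (F : Fam G Ω q N) {a b : Ω} (hab : a ≠ b) (hPT : PT N q a b) {S : Subgroup G}
    (hS : Sy N q a b S) : S ⊓ N b = S ⊓ N a := by
  obtain ⟨A, hAE, hAY, hf⟩ := hPT
  obtain ⟨P₀, L₀, h₀⟩ := F.ps a
  obtain ⟨P, L, h, hA⟩ := h₀.of_isE hAE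
  rw [h.YYc_eq hA] at hAY
  obtain ⟨d, hdS, hda, hdb, hd2⟩ := F.exists_D4 hab hS
  obtain ⟨k, hk⟩ := hS.pg ⟨d, hdS⟩
  have h1 : YY L A ≤ N a ⊓ N b := by
    refine h.symm.K2 hA (N' := N a ⊓ stabilizer G b) (le_inf h.symm.YY_le_N hAY) inf_le_left
      (fun g hg => hf g (Subgroup.mem_inf.1 hg).1 (Subgroup.mem_inf.1 hg).2)
      (le_inf inf_le_left fun x hx => F.le b x (Subgroup.mem_inf.1 hx).2) ?_
      (m := d) (Subgroup.mem_inf.2 ⟨hda, hdb⟩) ⟨k, congrArg Subtype.val hk⟩ hd2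
    intro g hg m hm
    exact Subgroup.mem_inf.2 ⟨(N a).mul_mem ((N a).mul_mem (Subgroup.mem_inf.1 hg).1 (Subgroup.mem_inf.1 hm).1)
      ((N a).inv_mem (Subgroup.mem_inf.1 hg).1), F.mem_conj' (Subgroup.mem_inf.1 hg).2 (Subgroup.mem_inf.1 hm).2⟩
  obtain ⟨A₁, hA₁, B, hB, hAB, hU⟩ := h.fl hS.fa
  have h2 : A = A₁ := by
    refine h.fix_U hA₁ hB hAB hA fun x hx => ?_
    rw [← hU] at hx
    exact hf x (Subgroup.mem_inf.1 hx).2 (hS.sb (Subgroup.mem_inf.1 hx).1)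
  subst h2
  have h3 : S ⊓ N a ≤ S ⊓ N b := by
    refine le_inf inf_le_left ?_
    rw [hU]
    exact (sup_le (h.symm.le_YY' hA) (le_YY hB (inf_ne hAB))).trans (h1.trans inf_le_right)
  exact (Subgroup.eq_of_le_of_card_ge h3 (by rw [hS.fa.card, hS.fb.card])).symm

/-- B-type, main computation -/
theorem Fam.BT_aux (F : Fam G Ω q N) (U : Ω → Ω → Subgroup G)
    (hU1 : ∀ a b, a ≠ b → IsFl (N a) q (U a b)) (hU2 : ∀ a b, a ≠ b → U a b ≤ stabilizer G b)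
    (hU3 : ∀ a b, a ≠ b → ∀ T, T ≤ N a → T ≤ stabilizer G b → IsPGroup 2 T → T ≤ U a b)
    {a b : Ω} (hab : a ≠ b) {P L : Set (Subgroup G)} (h : PS (N a) q P L) {A B : Subgroup G}
    (hA : A ∈ P) (hB : B ∈ L) (hAB : A ⊓ B ≠ ⊥) (hU : U a b = A ⊔ B) :
    ∀ x ∈ A, ∃ u ∈ U b a, ∃ c ∈ Ct N b, x = u * c := by
  have hq := h.two_le
  have hU4 : ∀ c d, c ≠ d → ∀ x ∈ N c, (∃ k : ℕ, x ^ 2 ^ k = 1) → x • d = d → x ∈ U c d := by
    intro c d hcd x hx h2 hxd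
    exact hU3 c d hcd (zpowers x) (by rwa [Subgroup.zpowers_le]) (by rwa [Subgroup.zpowers_le])
      (isPGroup_zpowers h2) (mem_zpowers x)
  have hD : ∀ c d, c ≠ d → ∃ x ∈ U c d, x ∈ U d c ∧ x * x ≠ 1 := by
    intro c d hcd
    obtain ⟨S, hS⟩ := F.exists_sy hcd
    obtain ⟨x, hxS, hxc, hxd, hx2⟩ := F.exists_D4 hcd hS
    obtain ⟨k, hk⟩ := hS.pg ⟨x, hxS⟩
    have hk' : ∃ k : ℕ, x ^ 2 ^ k = 1 := ⟨k, congrArg Subtype.val hk⟩
    exact ⟨x, hU4 c d hcd x hxc hk' (F.le d x hxd), hU4 d c (Ne.symm hcd) x hxd hk' (F.le c x hxc), hx2⟩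
  have hZle : ∀ c d, c ≠ d → Zc (U d c) ≤ Zc (U c d) := by
    intro c d hcd z hz
    obtain ⟨x, hxc, hxd, hx2⟩ := hD c d hcd
    obtain ⟨P₁, L₁, h₁⟩ := F.ps d
    obtain ⟨A₁, hA₁, B₁, hB₁, hAB₁, hV⟩ := h₁.fl (hU1 d c (Ne.symm hcd))
    obtain ⟨P₂, L₂, h₂⟩ := F.ps c
    obtain ⟨A₂, hA₂, B₂, hB₂, hAB₂, hW⟩ := h₂.fl (hU1 c d hcd)
    have hzc := (mem_Zc.1 hz).2 x hxd
    rw [hV, h₁.zc hA₁ hB₁ hAB₁] at hz
    have hz2 := h₁.h1.sq A₁ hA₁ z (Subgroup.mem_inf.1 hz).1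
    have hxZ : x ∉ A₁ ⊓ B₁ := fun h3 => hx2 (h₁.h1.sq A₁ hA₁ x (Subgroup.mem_inf.1 h3).1)
    have hx' := hxd
    rw [hV] at hx'
    obtain ⟨y, hy, h3⟩ := h₁.comm_surj' hA₁ hB₁ hAB₁ hx' hxZ hz
    rw [← hV] at hy
    have hxNc := (hU1 c d hcd).le hxc
    have hzNc : z ∈ N c := by
      have h4 := (N c).mul_mem hxNc (F.mem_conj' (hU2 d c (Ne.symm hcd) hy) ((N c).inv_mem hxNc))
      rw [← h3]; simpa [mul_assoc] using h4
    have hzd : z • d = d := F.le d z (h₁.h1.le A₁ hA₁ (Subgroup.mem_inf.1 hz).1)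
    have hzU := hU4 c d hcd z hzNc ⟨1, by simpa [pow_two] using hz2⟩ hzd
    rw [hW] at hzU hxc ⊢
    rw [h₂.zc hA₂ hB₂ hAB₂]
    exact h₂.cent_of_order4 hA₂ hB₂ hAB₂ hxc hx2 hzU hz2 hzc
  have hZ : ∀ c d, c ≠ d → Zc (U c d) = Zc (U d c) := fun c d hcd =>
    le_antisymm (hZle d c (Ne.symm hcd)) (hZle c d hcd)
  have hZp : ∀ c d, IsPGroup 2 (U c d) → IsPGroup 2 (Zc (U c d)) := fun c d h1 => h1.to_le inf_le_left
  -- the third point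
  obtain ⟨B', hB', hB'A, hne, -⟩ := h.symm.third hA B B
  have hAB' := inf_ne hB'A
  obtain ⟨n, hn, hnA, hnB⟩ := h.trans_flag hA hB hAB hA hB' hAB'
  have hna : n • a = a := F.le a n hn
  set c := n • b with hc
  have hac : a ≠ c := fun e => hab (smul_left_cancel n (by rw [hna]; exact e))
  have hUc : U a c = A ⊔ B' := by
    have h1 : cj n (U a b) ≤ U a c := by
      refine hU3 a c hac _ ?_ ?_ (isPGroup_cj (hU1 a b hab).pg n)
      · have := cj_mono (g := n) (hU1 a b hab).le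
        rwa [F.conj, hna] at this
      · exact cj_le_stab (hU2 a b hab)
    have h2 := Subgroup.eq_of_le_of_card_ge h1 (by rw [card_cj, (hU1 a b hab).card, (hU1 a c hac).card])
    rw [← h2, hU, cj_sup, hnA, hnB]
  have hbc : b ≠ c := by
    intro e
    rw [← e, hU] at hUc
    obtain ⟨x, hx, hx2⟩ := h.exists_order4 (h.isFl hA hB hAB)
    have hx' := hx
    rw [hUc] at hx'
    have := h.inf_U' hA hB hB' (Ne.symm hne) hAB hAB' hx hx'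
    exact hx2 (h.h1.sq A hA x this)
  have hneb : U b a ≠ U b c := by
    intro e
    obtain ⟨d, hd1, hd2, hd3⟩ := hD a b hab
    rw [e] at hd2
    have hda := (hU1 a b hab).le hd1
    obtain ⟨k, hk⟩ := (hU1 a b hab).pg ⟨d, hd1⟩
    have hd4 := hU4 a c hac d hda ⟨k, congrArg Subtype.val hk⟩ (hU2 b c hbc hd2)
    rw [hU] at hd1
    rw [hUc] at hd4
    exact hd3 (h.h1.sq A hA d (h.inf_U' hA hB hB' (Ne.symm hne) hAB hAB' hd1 hd4))
  have hnec : U c b ≠ U c a := by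
    intro e
    obtain ⟨d, hd1, hd2, hd3⟩ := hD a c hac
    rw [← e] at hd2
    have hda := (hU1 a c hac).le hd1
    obtain ⟨k, hk⟩ := (hU1 a c hac).pg ⟨d, hd1⟩
    have hd4 := hU4 a b hab d hda ⟨k, congrArg Subtype.val hk⟩ (hU2 c b (Ne.symm hbc) hd2)
    rw [hU] at hd4
    rw [hUc] at hd1
    exact hd3 (h.h1.sq A hA d (h.inf_U' hA hB hB' (Ne.symm hne) hAB hAB' hd4 hd1))
  have hXab : Zc (U a b) = A ⊓ B := by rw [hU, h.zc hA hB hAB]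
  have hXac : Zc (U a c) = A ⊓ B' := by rw [hUc, h.zc hA hB' hAB']
  have hZN : ∀ c d, c ≠ d → Zc (U c d) ≤ N c := fun c d hcd => inf_le_left.trans (hU1 c d hcd).le
  -- `X_ba ≤ U_bc`
  have h1 : Zc (U b a) ≤ U b c := by
    refine hU3 b c hbc _ (hZN b a (Ne.symm hab)) ?_ (hZp _ _ (hU1 b a (Ne.symm hab)).pg)
    rw [← hZ a b hab, hXab]
    exact (inf_le_left.trans (le_sup_left (b := B'))).trans (hUc ▸ hU2 a c hac)
  obtain ⟨P₀, L₀, h₀⟩ := F.ps b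
  obtain ⟨Pb, Lb, hb, Eb, hEb, B₁, hB₁, B₂, hB₂, hne12, hE1, hE2, hV, hW⟩ :=
    h₀.two_flags (hU1 b a (Ne.symm hab)) (hU1 b c hbc) hneb h1
  have hXba : Zc (U b a) = Eb ⊓ B₁ := by rw [hV, hb.zc hEb hB₁ hE1]
  have hXbc : Zc (U b c) = Eb ⊓ B₂ := by rw [hW, hb.zc hEb hB₂ hE2]
  -- `X_cb ≤ U_ca`
  have h2 : Zc (U c b) ≤ U c a := by
    refine hU3 c a (Ne.symm hac) _ (hZN c b (Ne.symm hbc)) ?_ (hZp _ _ (hU1 c b (Ne.symm hbc)).pg)
    rw [hZ c b (Ne.symm hbc), hXbc]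
    exact (inf_le_left.trans (le_sup_left (b := B₁))).trans (hV ▸ hU2 b a (Ne.symm hab))
  obtain ⟨P₀', L₀', h₀'⟩ := F.ps c
  obtain ⟨Pc, Lc, hc', Ec, hEc, C₁, hC₁, C₂, hC₂, hneC, hEC1, hEC2, hV', hW'⟩ :=
    h₀'.two_flags (hU1 c b (Ne.symm hbc)) (hU1 c a (Ne.symm hac)) hnec h2
  have hXcb : Zc (U c b) = Ec ⊓ C₁ := by rw [hV', hc'.zc hEc hC₁ hEC1]
  have hXca : Zc (U c a) = Ec ⊓ C₂ := by rw [hW', hc'.zc hEc hC₂ hEC2]
  -- `X_ac` centralises `E_b`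
  have key : ∀ x ∈ A ⊓ B', ∃ e ∈ U b a, ∃ c' ∈ Ct N b, x = e * c' := by
    intro x hx
    have hxEc : x ∈ Ec := by
      rw [← hXac, hZ a c hac, hXca] at hx
      exact (Subgroup.mem_inf.1 hx).1
    have hxb : x • b = b := hU2 a b hab (by rw [hU]; exact mem_sup_left (Subgroup.mem_inf.1 hx).1)
    have hcomm : ∀ y ∈ Eb, x * y = y * x := by
      intro y hy
      obtain ⟨y₁, hy₁, y₂, hy₂, rfl⟩ := hb.split hEb hB₁ hB₂ hne12 hE1 hE2 hy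
      have e1 : x * y₁ = y₁ * x := by
        rw [← hXba, ← hZ a b hab, hXab] at hy₁
        exact h.comm hA (Subgroup.mem_inf.1 hx).1 (Subgroup.mem_inf.1 hy₁).1
      have e2 : x * y₂ = y₂ * x := by
        rw [← hXbc, hZ b c hbc, hXcb] at hy₂
        exact hc'.comm hEc hxEc (Subgroup.mem_inf.1 hy₂).1
      rw [← mul_assoc, e1, mul_assoc, e2, mul_assoc]
    obtain ⟨e, he, c', hcc, h3⟩ := hb.K6 hEb (F.Nz hxb) hcomm
    exact ⟨e, by rw [hV]; exact mem_sup_left he, c', hcc, h3⟩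
  intro x hx
  obtain ⟨x₁, hx₁, x₂, hx₂, rfl⟩ := h.split hA hB hB' (Ne.symm hne) hAB hAB' hx
  obtain ⟨e, he, c', hcc, h3⟩ := key x₂ hx₂
  refine ⟨x₁ * e, (U b a).mul_mem ?_ he, c', hcc, by rw [h3, mul_assoc]⟩
  rw [← hXab, hZ a b hab] at hx₁
  exact (mem_Zc.1 hx₁).1

theorem Fam.eq_of_BT (F : Fam G Ω q N) (hBT : ∀ a b : Ω, a ≠ b → BT N q a b) {a b : Ω} (hab : a ≠ b)
    {S : Subgroup G} (hS : Sy N q a b S) : S ⊓ N b = S ⊓ N a := by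
  haveI := F.ne
  choose! U hU1 hU2 hU3 using hBT
  have key : ∀ a b : Ω, a ≠ b → ∀ w ∈ U a b, ∃ u ∈ U b a, ∃ c ∈ Ct N b, w = u * c := by
    intro a b hab w hw
    obtain ⟨P, L, h⟩ := F.ps a
    obtain ⟨A, hA, B, hB, hAB, hU⟩ := h.fl (hU1 a b hab)
    rw [hU] at hw
    obtain ⟨x, hx, y, hy, rfl⟩ := (h.mem_sup hA hB hAB).1 hw
    obtain ⟨u, hu, c, hc, h1⟩ := F.BT_aux U hU1 hU2 hU3 hab h hA hB hAB hU x hx
    obtain ⟨v, hv, d, hd, h2⟩ := F.BT_aux U hU1 hU2 hU3 hab h.symm hB hA (inf_ne hAB) (by rw [hU, sup_comm]) y hy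
    refine ⟨u * v, (U b a).mul_mem hu hv, c * d, (Ct N b).mul_mem hc hd, ?_⟩
    have h3 : c * v = v * c := Fam.ct_comm hc ((hU1 b a (Ne.symm hab)).le hv)
    rw [h1, h2]
    calc u * c * (v * d) = u * (c * v) * d := by simp only [mul_assoc]
      _ = u * v * (c * d) := by rw [h3]; simp only [mul_assoc]
  have hSU : ∀ {a b : Ω}, a ≠ b → Sy N q a b S → S ⊓ N a = U a b := by
    intro a b hab hS
    exact Subgroup.eq_of_le_of_card_ge (hU3 a b hab _ inf_le_right (inf_le_left.trans hS.sb) (hS.pg.to_le inf_le_left))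
      (by rw [hS.fa.card, (hU1 a b hab).card])
  have e1 := hSU hab hS
  have e2 := hSU (Ne.symm hab) hS.symm
  refine F.lem3 hab hS ?_ ?_
  · rw [e1, e2]; exact key b a (Ne.symm hab)
  · rw [e1, e2]; exact key a b hab

/-- (*) -/
theorem Fam.star (F : Fam G Ω q N) {a b : Ω} {x : G} (hx : x ∈ N a) (h2 : ∃ k : ℕ, x ^ 2 ^ k = 1)
    (hxb : x • b = b) : x ∈ N b := by
  by_cases hab : a = b
  · rw [← hab]; exact hx
  obtain ⟨S, hS⟩ := F.exists_sy hab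
  have heq : S ⊓ N b = S ⊓ N a := by
    rcases F.dich_all with h | h
    · exact F.eq_of_BT h hab hS
    · exact F.eq_of_PT hab (h a b hab) hS
  obtain ⟨g, hga, hgb, hle⟩ := hS.univ (zpowers x) (by rw [Subgroup.zpowers_le]; exact F.le a x hx)
    (by rwa [Subgroup.zpowers_le]) (isPGroup_zpowers h2)
  have h3 : g * x * g⁻¹ ∈ S ⊓ N a := Subgroup.mem_inf.2 ⟨hle (cj_mem (mem_zpowers x)), F.mem_conj' hga hx⟩
  rw [← heq] at h3
  have h4 := F.mem_conj' (g := g⁻¹) (b := b) (by rw [inv_smul_eq_iff, hgb]) (Subgroup.mem_inf.1 h3).2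
  simpa [mul_assoc] using h4

end Cfsg.Agent.P3
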