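import Cfsg.Agent.P3.Fam4

/-! Uniform description of lines and planes. -/

set_option autoImplicit false
set_option linter.all false

namespace Cfsg.Agent.P3

open Subgroup MulAction

section
variable {G : Type*} [Group G] [Finite G] {N : Subgroup G} {q : ℕ} {P L : Set (Subgroup G)}

theorem PS.fl_mem (h : PS N q P L) {B U : Subgroup G} (hB : B ∈ L) (hU : IsFl N q U) (hBU : B ≤ U) :
    ∃ A ∈ P, A ⊓ B ≠ ⊥ ∧ U = A ⊔ B := by
  obtain ⟨A₀, hA₀, B₀, hB₀, h1, rfl⟩ := h.fl hU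
  rcases h.char_U hA₀ hB₀ h1 (h.h2.card B hB) (h.h2.sq B hB) hBU with h2 | h2
  · exact absurd (h2 ▸ hB) (h.disj hA₀)
  · subst h2
    exact ⟨A₀, hA₀, h1, rfl⟩

/-- the only point fixed by all elements of `A` -/
theorem PS.fix_A (h : PS N q P L) {A X : Subgroup G} (hA : A ∈ P) (hX : X ∈ P)
    (hf : ∀ x ∈ A, cj x X = X) : X = A := by
  by_contra hne
  obtain ⟨B, ⟨hB, h1, h2⟩, -⟩ := h.h1.join A hA X hX (Ne.symm hne)
  obtain ⟨a, ha, haB⟩ := h.exists_not_mem hA hB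
  exact haB (h.mem_of_fix hA hX (Ne.symm hne) hB h1 h2 ha (hf a ha))

theorem PS.trans_P (h : PS N q P L) {A A' : Subgroup G} (hA : A ∈ P) (hA' : A' ∈ P) :
    ∃ g ∈ N, cj g A = A' := h.symm.trans_L hA hA'

/-- a member of `P` fixed by a member of `L` is incident with it -/
theorem PS.inc_of_fix (h : PS N q P L) {A B : Subgroup G} (hA : A ∈ P) (hB : B ∈ L)
    (hf : ∀ x ∈ B, cj x A = A) : A ⊓ B ≠ ⊥ := by
  intro h1
  obtain ⟨b, hb, hb1⟩ := exists_mem_of_ne_bot (h.symm.ne_bot hB)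
  exact hb1 (h.symm.reg_free hB hA (inf_eq h1) hb (hf b hb))

theorem PS.U_le_YY (h : PS N q P L) {A B : Subgroup G} (hA : A ∈ P) (hB : B ∈ L) (hAB : A ⊓ B ≠ ⊥) :
    A ⊔ B ≤ YY L A :=
  sup_le (h.symm.le_YY' hA) (le_YY hB (inf_ne hAB))

end

variable {G Ω : Type*} [Group G] [Finite G] [Finite Ω] [MulAction G Ω] {q : ℕ} {N : Ω → Subgroup G}

structure GP (N : Ω → Subgroup G) (q : ℕ) (PL : Ω → Subgroup G → Prop) : Prop where
  u1 : ∀ a b c : Ω, a ≠ b → ∀ U U' : Subgroup G, IsFl (N a) q U → U ≤ stabilizer G b → IsFl (N a) q U' →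
    U' ≤ stabilizer G b → U ≤ stabilizer G c → U' ≤ stabilizer G c
  ex : ∀ a : Ω, ∃ B, PL a B
  p0 : ∀ (a : Ω) (B : Subgroup G), PL a B → IsE (N a) q B
  p1 : ∀ (a b : Ω) (B : Subgroup G), PL a B → B ≤ stabilizer G b → PL b B
  p2 : ∀ (a b : Ω) (B : Subgroup G), PL a B → a ≠ b → B ≤ stabilizer G b → ∃ U, IsFl (N a) q U ∧ B ≤ U ∧ U ≤ stabilizer G b
  p3 : ∀ (a b : Ω) (B U : Subgroup G) (x : G), PL a B → a ≠ b → B ≤ stabilizer G b → IsFl (N a) q U → B ≤ U → x ∈ U → x ∉ B →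
    x • b = b → U ≤ stabilizer G b
  p4 : ∀ (a b : Ω) (B U U' : Subgroup G), PL a B → a ≠ b → IsFl (N a) q U → B ≤ U → U ≤ stabilizer G b → IsFl (N a) q U' →
    B ≤ U' → U' ≤ stabilizer G b → U = U'
  p5 : ∀ (g : G) (a : Ω) (B : Subgroup G), PL a B → PL (g • a) (cj g B)

theorem two_pow_of_pg {U : Subgroup G} (h : IsPGroup 2 U) {x : G} (hx : x ∈ U) : ∃ k : ℕ, x ^ 2 ^ k = 1 := by
  obtain ⟨k, hk⟩ := h ⟨x, hx⟩
  exact ⟨k, congrArg Subtype.val hk⟩

theorem Fam.star_le (F : Fam G Ω q N) {a b : Ω} {T : Subgroup G} (hT : T ≤ N a) (h2 : IsPGroup 2 T)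
    (hTb : T ≤ stabilizer G b) : T ≤ N b := fun x hx =>
  F.star (hT hx) (two_pow_of_pg h2 hx) (hTb hx)

theorem Fam.star_fl (F : Fam G Ω q N) {a b : Ω} {U : Subgroup G} (hU : IsFl (N a) q U)
    (hUb : U ≤ stabilizer G b) : IsFl (N b) q U := ⟨F.star_le hU.le hU.pg hUb, hU.pg, hU.card⟩

theorem IsE.pg {N : Subgroup G} {E : Subgroup G} (h : IsE N q E) : IsPGroup 2 E := fun x =>
  ⟨1, Subtype.ext (by
    have := h.sq x x.2
    simpa [pow_two] using this)⟩

theorem Fam.star_E (F : Fam G Ω q N) {a b : Ω} {E : Subgroup G} (hE : IsE (N a) q E)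
    (hEb : E ≤ stabilizer G b) : IsE (N b) q E := ⟨F.star_le hE.le hE.pg hEb, hE.card, hE.sq⟩

theorem BT.eq {a b : Ω} (h : BT N q a b) {U U' : Subgroup G} (hU : IsFl (N a) q U)
    (hUb : U ≤ stabilizer G b) (hU' : IsFl (N a) q U') (hUb' : U' ≤ stabilizer G b) : U = U' := by
  obtain ⟨V, hV, hVb, hT⟩ := h
  have h1 : U = V := Subgroup.eq_of_le_of_card_ge (hT U hU.le hUb hU.pg) (by rw [hU.card, hV.card])
  have h2 : U' = V := Subgroup.eq_of_le_of_card_ge (hT U' hU'.le hUb' hU'.pg) (by rw [hU'.card, hV.card])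
  rw [h1, h2]

/-- uniform description, Borel type -/
theorem Fam.gp_BT (F : Fam G Ω q N) (hBT : ∀ a b : Ω, a ≠ b → BT N q a b) :
    GP N q (fun a B => IsE (N a) q B) where
  u1 a b c hab U U' hU hUb hU' hUb' hUc := by
    rw [← (hBT a b hab).eq hU hUb hU' hUb']; exact hUc
  ex a := by
    obtain ⟨P, L, h⟩ := F.ps a
    obtain ⟨U, hU⟩ := h.exists_flag
    obtain ⟨A, hA, B, hB, hAB, rfl⟩ := h.fl hU
    exact ⟨A, h.isE hA⟩
  p0 a B h := h
  p1 a b B h hb := F.star_E h hb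
  p2 a b B h hab hBb := by
    obtain ⟨V, hV, hVb, hT⟩ := hBT a b hab
    exact ⟨V, hV, hT B h.le hBb h.pg, hVb⟩
  p3 a b B U x hB hab hBb hU hBU hxU hxB hxb := by
    obtain ⟨V, hV, hVb, hT⟩ := hBT a b hab
    obtain ⟨P₀, L₀, h₀⟩ := F.ps a
    obtain ⟨L, P, h, hBL⟩ := h₀.of_isE hB
    obtain ⟨A, hA, hAB, rfl⟩ := h.symm.fl_mem hBL hU hBU
    obtain ⟨A', hA', hAB', rfl⟩ := h.symm.fl_mem hBL hV (hT B hB.le hBb hB.pg)
    by_cases hne : A = A'
    · rw [hne]; exact hVb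
    exfalso
    apply hxB
    have h2 : zpowers x ≤ A' ⊔ B := hT (zpowers x) (by rw [Subgroup.zpowers_le]; exact hU.le hxU)
      (by rwa [Subgroup.zpowers_le]) (isPGroup_zpowers (two_pow_of_pg hU.pg hxU))
    refine h.inf_U' hBL hA hA' hne (inf_ne hAB) (inf_ne hAB') (by rwa [sup_comm]) ?_
    rw [sup_comm]; exact h2 (mem_zpowers x)
  p4 a b B U U' hB hab hU hBU hUb hU' hBU' hUb' := (hBT a b hab).eq hU hUb hU' hUb'
  p5 g a B hB := by rw [← F.conj]; exact hB.cj g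

/-- the data for parabolic type -/
structure PD (N : Ω → Subgroup G) (q : ℕ) (E : Ω → Ω → Subgroup G) : Prop where
  e1 : ∀ a b, a ≠ b → IsE (N a) q (E a b)
  e2 : ∀ a b, a ≠ b → YYc (N a) q (E a b) ≤ stabilizer G b
  e3 : ∀ a b, a ≠ b → ∀ x ∈ N a, x • b = b → cj x (E a b) = E a b

/-- a member of `P ∪ L` inside `N a` normalised by `N_ab` is `E a b` -/
theorem PD.eq {E : Ω → Ω → Subgroup G} (D : PD N q E) (F : Fam G Ω q N) {a b : Ω} (hab : a ≠ b)
    {X : Subgroup G} (hX : IsE (N a) q X) (hf : ∀ x ∈ N a, x • b = b → cj x X = X) : X = E a b := by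
  obtain ⟨P₀, L₀, h₀⟩ := F.ps a
  obtain ⟨P, L, h, hE⟩ := h₀.of_isE (D.e1 a b hab)
  obtain ⟨U, hU, hUb⟩ := F.exists_fl hab
  obtain ⟨A, hA, B, hB, hAB, rfl⟩ := h.fl hU
  have h1 : E a b = A := h.fix_U hA hB hAB hE fun x hx => D.e3 a b hab x (hU.le hx) (hUb hx)
  rcases h.char hX.le hX.card hX.sq with h2 | h2
  · rw [h1]
    exact h.fix_U hA hB hAB h2 fun x hx => hf x (hU.le hx) (hUb hx)
  · exfalso
    have h3 : X = B := h.symm.fix_U hB hA (inf_ne hAB) h2 fun x hx => by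
      rw [sup_comm] at hx
      exact hf x (hU.le hx) (hUb hx)
    obtain ⟨B', hB', hB'A, hne, -⟩ := h.symm.third hA B B
    obtain ⟨g, hg, h4⟩ := h.symm.trans_on hA hB hB' (inf_ne hAB) hB'A
    apply hne
    rw [← h4, ← h3]
    refine (hf g (h.symm.YY_le_N hg) ?_)
    have h5 := D.e2 a b hab
    rw [h.YYc_eq hE, h1] at h5
    exact h5 hg

theorem PD.conj {E : Ω → Ω → Subgroup G} (D : PD N q E) (F : Fam G Ω q N) {a b : Ω} (hab : a ≠ b) (g : G) :
    cj g (E a b) = E (g • a) (g • b) := by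
  refine D.eq F (Fam.smul_ne hab) ?_ ?_
  · rw [← F.conj]; exact (D.e1 a b hab).cj g
  · intro x hx hxb
    have h1 : g⁻¹ * x * g ∈ N a := by rw [← mem_cj, F.conj]; exact hx
    have h2 : (g⁻¹ * x * g) • b = b := by
      rw [mul_smul, mul_smul, inv_smul_eq_iff]; exact hxb
    have h3 := D.e3 a b hab _ h1 h2
    have h4 : cj x (cj g (E a b)) = cj g (cj (g⁻¹ * x * g) (E a b)) := by
      rw [← cj_mul, ← cj_mul]; congr 1; simp [mul_assoc]
    rw [h4, h3]

/-- all `E a b` have the same type -/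
theorem PD.type {E : Ω → Ω → Subgroup G} (D : PD N q E) (F : Fam G Ω q N) (a : Ω) :
    ∃ P L, PS (N a) q P L ∧ ∀ b, b ≠ a → E a b ∈ P := by
  classical
  obtain ⟨P, L, h⟩ := F.ps a
  set SP : Set Ω := {b | b ≠ a ∧ E a b ∈ P} with hSP
  set SL : Set Ω := {b | b ≠ a ∧ E a b ∈ L} with hSL
  have hun : SP ∪ SL = ({a}ᶜ : Set Ω) := by
    ext b
    constructor
    · rintro (h1 | h1)
      · exact h1.1
      · exact h1.1
    · intro h1
      have hb : b ≠ a := h1
      have h2 := D.e1 a b (Ne.symm hb)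
      rcases h.char h2.le h2.card h2.sq with h3 | h3
      · left; exact ⟨hb, h3⟩
      · right; exact ⟨hb, h3⟩
  have hdis : Disjoint SP SL := by
    rw [Set.disjoint_left]
    rintro b ⟨_, h1⟩ ⟨_, h2⟩
    exact h.disj h1 h2
  rcases Set.eq_empty_or_nonempty SL with hL | ⟨b', hb', hbL⟩
  · refine ⟨P, L, h, fun b hb => ?_⟩
    have : b ∈ SP ∪ SL := by rw [hun]; exact hb
    rw [hL, Set.union_empty] at this
    exact this.2
  rcases Set.eq_empty_or_nonempty SP with hP | ⟨b, hb, hbP⟩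
  · refine ⟨L, P, h.symm, fun b hb => ?_⟩
    have : b ∈ SP ∪ SL := by rw [hun]; exact hb
    rw [hP, Set.empty_union] at this
    exact this.2
  exfalso
  obtain ⟨g, hga, hgb⟩ := F.tt a b a b' (Ne.symm hb) (Ne.symm hb')
  have hconj : ∀ c, c ≠ a → cj g (E a c) = E a (g • c) := by
    intro c hc
    have := D.conj F (Ne.symm hc) g
    rwa [hga] at this
  have hgbL : cj g (E a b) ∈ L := by rw [hconj b hb, hgb]; exact hbL
  have hPL : ∀ X ∈ P, cj g X ∈ L := by
    intro X hX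
    rcases h.cj_mem_union (F.Nz hga) (Or.inl hX) with h1 | h1
    · exact absurd hgbL (h.disj ((h.pres (F.Nz hga) hX h1).1 _ hbP))
    · exact h1
  have hLP : ∀ X ∈ L, cj g X ∈ P := by
    intro X hX
    rcases h.cj_mem_union (F.Nz hga) (Or.inr hX) with h1 | h1
    · exact h1
    · exact absurd ((h.symm.pres (F.Nz hga) hX h1).2 _ hbP) (h.symm.disj hgbL)
  have hne : ∀ c, c ≠ a → g • c ≠ a := by
    intro c hc e
    exact hc (smul_left_cancel g (e.trans hga.symm))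
  have himg : SL = (fun x => g • x) '' SP := by
    ext c
    constructor
    · rintro ⟨hc, hcL⟩
      have hc' : g⁻¹ • c ≠ a := by
        intro e; rw [inv_smul_eq_iff, hga] at e; exact hc e
      refine ⟨g⁻¹ • c, ⟨hc', ?_⟩, smul_inv_smul g c⟩
      have h2 := D.e1 a (g⁻¹ • c) (Ne.symm hc')
      rcases h.char h2.le h2.card h2.sq with h3 | h3
      · exact h3
      · exfalso
        have h4 := hLP _ h3
        rw [hconj _ hc', smul_inv_smul] at h4
        exact h.disj h4 hcL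
    · rintro ⟨d, ⟨hd, hdP⟩, rfl⟩
      refine ⟨hne d hd, ?_⟩
      show E a (g • d) ∈ L
      rw [← hconj d hd]; exact hPL _ hdP
  have hcard : SL.ncard = SP.ncard := by
    rw [himg]; exact Set.ncard_image_of_injective _ (MulAction.injective g)
  have h1 := Set.ncard_union_eq hdis
  rw [hun, hcard] at h1
  have h2 := Set.ncard_add_ncard_compl ({a} : Set Ω)
  rw [Set.ncard_singleton, h1] at h2
  obtain ⟨m, hm⟩ := F.even
  omega

/-- `Fix(E a b)` -/
theorem PD.fix_E {E : Ω → Ω → Subgroup G} (D : PD N q E) (F : Fam G Ω q N) {a b c : Ω} (hab : a ≠ b)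
    (hac : a ≠ c) (h : E a b ≤ stabilizer G c) : E a c = E a b := by
  obtain ⟨P, L, hp, hE⟩ := D.type F a
  exact hp.fix_A (hE b (Ne.symm hab)) (hE c (Ne.symm hac)) fun x hx =>
    D.e3 a c hac x ((D.e1 a b hab).le hx) (h hx)

theorem PD.symm {E : Ω → Ω → Subgroup G} (D : PD N q E) (F : Fam G Ω q N) {a b : Ω} (hab : a ≠ b) :
    E b a = E a b := by
  -- both are the intersection of the flag groups fixing `a` and `b`
  have key : ∀ a b : Ω, a ≠ b → E a b ≤ E b a := by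
    intro a b hab
    obtain ⟨P, L, h, hE⟩ := D.type F b
    have hA := hE a hab
    obtain ⟨B₁, hB₁, h1⟩ := h.exists_inc hA
    obtain ⟨B₂, hB₂, hB₂A, hne, -⟩ := h.symm.third hA B₁ B₁
    have h2 := inf_ne hB₂A
    have hsub : ∀ B ∈ L, E b a ⊓ B ≠ ⊥ → E a b ≤ E b a ⊔ B := by
      intro B hB hB1
      have hfl := h.isFl hA hB hB1
      have hUa : E b a ⊔ B ≤ stabilizer G a := by
        have := D.e2 b a (Ne.symm hab)
        rw [h.YYc_eq hA] at this
        exact (h.U_le_YY hA hB hB1).trans this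
      have hfl' := F.star_fl hfl hUa
      obtain ⟨P', L', h', hE'⟩ := D.type F a
      obtain ⟨A', hA', B', hB', hAB', hU'⟩ := h'.fl hfl'
      have : E a b = A' := h'.fix_U hA' hB' hAB' (hE' b (Ne.symm hab)) fun x hx => by
        rw [← hU'] at hx
        exact D.e3 a b hab x (hfl'.le hx) (F.le b x (hfl.le hx))
      rw [this, hU']; exact le_sup_left
    intro x hx
    exact h.inf_U' hA hB₁ hB₂ (Ne.symm hne) h1 h2 (hsub B₁ hB₁ h1 hx) (hsub B₂ hB₂ h2 hx)
  exact le_antisymm (key b a (Ne.symm hab)) (key a b hab)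

/-- uniform description, parabolic type -/
theorem PD.gp {E : Ω → Ω → Subgroup G} (D : PD N q E) (F : Fam G Ω q N) :
    GP N q (fun a B => IsE (N a) q B ∧ ∀ b, b ≠ a → E a b ≠ B) := by
  -- members of plane type are lines
  have hL : ∀ {a : Ω} {P L : Set (Subgroup G)}, PS (N a) q P L → (∀ b, b ≠ a → E a b ∈ P) → ∀ B,
      (IsE (N a) q B ∧ ∀ b, b ≠ a → E a b ≠ B) → B ∈ L := by
    intro a P L h hE B hB
    rcases h.char hB.1.le hB.1.card hB.1.sq with h1 | h1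
    · exfalso
      obtain ⟨b, hb⟩ := F.exists_ne a
      obtain ⟨n, hn, h2⟩ := h.trans_P (hE b hb) h1
      have hna : n • a = a := F.le a n hn
      have h3 := D.conj F (Ne.symm hb) n
      rw [hna, h2] at h3
      refine hB.2 (n • b) ?_ h3.symm
      intro e
      exact hb (smul_left_cancel n (e.trans hna.symm))
    · exact h1
  have hEinc : ∀ {a b : Ω} {P L : Set (Subgroup G)} {B : Subgroup G}, b ≠ a → PS (N a) q P L →
      (∀ b, b ≠ a → E a b ∈ P) → B ∈ L → B ≤ stabilizer G b → E a b ⊓ B ≠ ⊥ := by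
    intro a b P L B hb h hE hB hBb
    exact h.inc_of_fix (hE b hb) hB fun x hx => D.e3 a b (Ne.symm hb) x (h.h2.le B hB hx) (hBb hx)
  have hUst : ∀ {a b : Ω} {P L : Set (Subgroup G)} {B : Subgroup G}, b ≠ a → PS (N a) q P L →
      (∀ b, b ≠ a → E a b ∈ P) → B ∈ L → E a b ⊓ B ≠ ⊥ → E a b ⊔ B ≤ stabilizer G b := by
    intro a b P L B hb h hE hB hEB
    have := D.e2 a b (Ne.symm hb)
    rw [h.YYc_eq (hE b hb)] at this
    exact (h.U_le_YY (hE b hb) hB hEB).trans this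
  constructor
  · -- u1
    intro a b c hab U U' hU hUb hU' hUb' hUc
    by_cases hac : a = c
    · rw [← hac]; exact fun x hx => F.le a x (hU'.le hx)
    obtain ⟨P, L, h, hE⟩ := D.type F a
    have hEb := hE b (Ne.symm hab)
    have key : ∀ V, IsFl (N a) q V → V ≤ stabilizer G b → ∃ B ∈ L, E a b ⊓ B ≠ ⊥ ∧ V = E a b ⊔ B := by
      intro V hV hVb
      obtain ⟨A, hA, B, hB, hAB, rfl⟩ := h.fl hV
      have : E a b = A := h.fix_U hA hB hAB hEb fun x hx => D.e3 a b hab x (hV.le hx) (hVb hx)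
      exact ⟨B, hB, by rw [this]; exact hAB, by rw [this]⟩
    obtain ⟨B, hB, hB1, rfl⟩ := key U hU hUb
    obtain ⟨B', hB', hB1', rfl⟩ := key U' hU' hUb'
    have h1 : E a c = E a b := D.fix_E F hab hac (le_sup_left.trans hUc)
    have h2 := hUst (Ne.symm hac) h hE hB' (by rw [h1]; exact hB1')
    rwa [h1] at h2
  · -- ex
    intro a
    obtain ⟨P, L, h, hE⟩ := D.type F a
    obtain ⟨b, hb⟩ := F.exists_ne a
    obtain ⟨B, hB, -⟩ := h.exists_inc (hE b hb)
    exact ⟨B, h.symm.isE hB, fun c hc e => h.disj (hE c hc) (e ▸ hB)⟩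
  · exact fun a B hB => hB.1
  · -- p1
    intro a b B hB hBb
    by_cases hab : a = b
    · rw [← hab]; exact hB
    refine ⟨F.star_E hB.1 hBb, fun c hc e => ?_⟩
    have h1 : E b a = E b c := D.fix_E F (Ne.symm hc) (Ne.symm hab) (by
      rw [e]; exact fun x hx => F.le a x (hB.1.le hx))
    have h2 := D.symm F hab
    exact hB.2 b (Ne.symm hab) (by rw [← h2, h1, e])
  · -- p2
    intro a b B hB hab hBb
    obtain ⟨P, L, h, hE⟩ := D.type F a
    have hBL := hL h hE B hB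
    have h1 := hEinc (Ne.symm hab) h hE hBL hBb
    exact ⟨E a b ⊔ B, h.isFl (hE b (Ne.symm hab)) hBL h1, le_sup_right, hUst (Ne.symm hab) h hE hBL h1⟩
  · -- p3
    intro a b B U x hB hab hBb hU hBU hxU hxB hxb
    obtain ⟨P, L, h, hE⟩ := D.type F a
    have hBL := hL h hE B hB
    have h1 := hEinc (Ne.symm hab) h hE hBL hBb
    obtain ⟨A, hA, hAB, rfl⟩ := h.fl_mem hBL hU hBU
    have h2 : E a b = A := by
      by_contra hne
      apply hxB
      refine h.symm.inf_U hBL hA (hE b (Ne.symm hab)) (Ne.symm hne) (inf_ne hAB) (inf_ne h1)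
        (by rwa [sup_comm]) (D.e3 a b hab x (hU.le hxU) hxb)
    rw [← h2]; exact hUst (Ne.symm hab) h hE hBL h1
  · -- p4
    intro a b B U U' hB hab hU hBU hUb hU' hBU' hUb'
    obtain ⟨P, L, h, hE⟩ := D.type F a
    have hBL := hL h hE B hB
    have key : ∀ V, IsFl (N a) q V → V ≤ stabilizer G b → B ≤ V → V = E a b ⊔ B := by
      intro V hV hVb hBV
      obtain ⟨A, hA, hAB, rfl⟩ := h.fl_mem hBL hV hBV
      have : E a b = A := h.fix_U hA hBL hAB (hE b (Ne.symm hab)) fun x hx =>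
        D.e3 a b hab x (hV.le hx) (hVb hx)
      rw [this]
    rw [key U hU hUb hBU, key U' hU' hUb' hBU']
  · -- p5
    intro g a B hB
    refine ⟨by rw [← F.conj]; exact hB.1.cj g, fun b hb e => ?_⟩
    have hb' : g⁻¹ • b ≠ a := by
      intro e'; rw [inv_smul_eq_iff] at e'; exact hb e'
    have h1 := D.conj F (Ne.symm hb') g
    rw [smul_inv_smul, e] at h1
    exact hB.2 _ hb' (cj_inj h1)

end Cfsg.Agent.P3
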