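import Cfsg.Agent.P3.AffI
import Cfsg.Agent.H55.PS3

/-! Assembly: the family, and `n` is odd. -/

set_option autoImplicit false
set_option linter.all false

open scoped Pointwise

namespace Cfsg.Agent.P3

open Subgroup MulAction

/-- the family of conjugates -/
theorem exists_fam {G Ω : Type*} [Group G] [Finite G] [Fintype Ω] [MulAction G Ω] [FaithfulSMul G Ω]
    (h2 : MulAction.IsMultiplyPretransitive G Ω 2) (hev : Even (Fintype.card Ω)) (a : Ω) (N : Subgroup G)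
    (hNle : N ≤ MulAction.stabilizer G a) (hNnormal : ∀ g ∈ MulAction.stabilizer G a, ∀ x ∈ N, g * x * g⁻¹ ∈ N)
    (n : ℕ) (hn : 1 ≤ n) {F : Type} [Field F] [Fintype F] (hF : Fintype.card F = 2 ^ n)
    (e : ↥N ≃* Matrix.ProjectiveSpecialLinearGroup (Fin 3) F) :
    ∃ Nf : Ω → Subgroup G, Nf a = N ∧ Fam G Ω (2 ^ n) Nf ∧ ∀ b, Nonempty (↥(Nf b) ≃* ↥N) := by
  rw [MulAction.is_two_pretransitive_iff] at h2
  have hcard : Nat.card Ω = Fintype.card Ω := Nat.card_eq_fintype_card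
  have hex : ∀ x : Ω, ∃ y, y ≠ x := by
    intro x
    by_contra hcon
    push Not at hcon
    have h1 : Fintype.card Ω = 1 := by
      rw [← hcard, Nat.card_eq_one_iff_unique]
      exact ⟨⟨fun y z => by rw [hcon y, hcon z]⟩, ⟨x⟩⟩
    rw [h1] at hev
    exact absurd hev (by decide)
  have htr : ∀ b : Ω, ∃ g : G, g • a = b := by
    intro b
    by_cases hab : a = b
    · exact ⟨1, by rw [one_smul, hab]⟩
    · obtain ⟨g, h1, -⟩ := h2 (a := a) (b := b) (c := b) (d := a) hab (Ne.symm hab)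
      exact ⟨g, h1⟩
  choose g hg using htr
  have hcjN : ∀ x : G, x • a = a → cj x N = N := fun x hx => cj_eq_of_le (cj_le_of x (hNnormal x hx))
  have key : ∀ x : G, cj x N = cj (g (x • a)) N := by
    intro x
    have h1 : ((g (x • a))⁻¹ * x) • a = a := by rw [mul_smul, inv_smul_eq_iff, hg]
    have h3 := hcjN _ h1
    calc cj x N = cj (g (x • a) * ((g (x • a))⁻¹ * x)) N := by rw [mul_inv_cancel_left]
      _ = cj (g (x • a)) N := by rw [cj_mul, h3]
  refine ⟨fun b => cj (g b) N, hcjN _ (hg a), ?_, fun b => ⟨(N.equivMapOfInjective _ (MulAut.conj (g b)).injective).symm⟩⟩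
  refine ⟨?_, ?_, ?_, ?_, ?_, ?_, ⟨a⟩⟩
  · intro b x hx
    rw [mem_cj] at hx
    have h3 : ((g b)⁻¹ * x * g b) • a = a := hNle hx
    rw [mul_smul, mul_smul, inv_smul_eq_iff, hg b] at h3
    exact h3
  · intro x b
    show cj x (cj (g b) N) = cj (g (x • b)) N
    rw [← cj_mul, key (x * g b), mul_smul, hg b]
  · intro b
    exact H55.exists_ps (cj (g b) N) n hn hF
      ((N.equivMapOfInjective _ (MulAut.conj (g b)).injective).symm.trans e)
  · exact fun a b c d hab hcd => h2 hab hcd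
  · rw [hcard]; exact hev
  · intro x hx
    exact FaithfulSMul.eq_of_smul_eq_smul (α := Ω) fun y => by rw [hx y, one_smul]

/-- `n` is odd in the affine case -/
theorem PD.odd {G Ω : Type*} [Group G] [Finite G] [Finite Ω] [MulAction G Ω] {q : ℕ} {N : Ω → Subgroup G}
    {E : Ω → Ω → Subgroup G} (D : PD N q E) (F : Fam G Ω q N)
    (hk : ∀ a b : Ω, a ≠ b → (ln N q a b).ncard = q) {n : ℕ} (hn : 1 ≤ n) (hq : q = 2 ^ n) {V : Subgroup G}
    (hV : V.Normal) (hVc : Nat.card V = q ^ 3) (hVt : ∀ x y : Ω, ∃ r ∈ V, r • x = y)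
    (hVs : ∀ x : Ω, ∀ r ∈ V, r • x = x → r = 1) : Odd n := by
  classical
  by_contra hodd
  rw [Nat.not_odd_iff_even] at hodd
  obtain ⟨m, hm⟩ := hodd
  have h3 : 3 ∣ q - 1 := by
    rw [hq, hm, ← two_mul, pow_mul]
    have h1 := Nat.sub_dvd_pow_sub_pow (2 ^ 2) 1 m
    rw [one_pow] at h1
    simpa using h1
  have hq1 : q ≠ 1 := by
    have h2 := F.ne
    obtain ⟨a⟩ := h2
    obtain ⟨P, L, h⟩ := F.ps a
    have := h.two_le
    omega
  obtain ⟨a⟩ := F.ne
  obtain ⟨P, L, h, hE⟩ := D.type F a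
  obtain ⟨x, hxN, hx1, A₁, hA₁, A₂, hA₂, A₃, hA₃, h12, h13, h23, hx1', hx2', hx3', hfix⟩ := h.h1.omega h3 hq1
  have hxa : x • a = a := F.le a x hxN
  have hxA : ∀ A ∈ ({A₁, A₂, A₃} : Set (Subgroup G)), A ∈ P ∧ x ∈ YY L A := by
    rintro A (rfl | rfl | rfl)
    · exact ⟨hA₁, hx1'⟩
    · exact ⟨hA₂, hx2'⟩
    · exact ⟨hA₃, hx3'⟩
  have hFix : {b : Ω | x • b = b} \ {a} = ⋃ A ∈ ({A₁, A₂, A₃} : Set (Subgroup G)), {b | b ≠ a ∧ E a b = A} := by
    ext b
    simp only [Set.mem_iUnion, Set.mem_diff, Set.mem_singleton_iff, exists_prop, Set.mem_setOf_eq]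
    constructor
    · rintro ⟨hb, hba⟩
      refine ⟨E a b, ?_, hba, rfl⟩
      rcases hfix (E a b) (hE b hba) (D.e3 a b (Ne.symm hba) x hxN hb) with h4 | h4 | h4
      · left; exact h4
      · right; left; exact h4
      · right; right; exact h4
    · rintro ⟨A, hA, hba, hbA⟩
      refine ⟨?_, hba⟩
      have h4 := D.e2 a b (Ne.symm hba)
      rw [h.YYc_eq (hE b hba), hbA] at h4
      exact h4 (hxA A hA).2
  have hcount := ncard_biUnion_const ({A₁, A₂, A₃} : Set (Subgroup G)) (fun A => {b : Ω | b ≠ a ∧ E a b = A})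
    (q - 1) (by
      intro A hA
      obtain ⟨b, hb, h4⟩ := D.surj F h hE (hxA A hA).1
      have h5 : {c | c ≠ a ∧ E a c = A} = ln N q a b \ {a} := by
        ext c
        constructor
        · rintro ⟨hc, hc'⟩
          exact ⟨(D.mem_ln F (Ne.symm hb) (Ne.symm hc)).2 (hc'.trans h4.symm), hc⟩
        · rintro ⟨hc, hca⟩
          exact ⟨hca, ((D.mem_ln F (Ne.symm hb) (Ne.symm hca)).1 hc).trans h4⟩
      rw [h5, Set.ncard_diff_singleton_of_mem (ln_left F a b), hk a b (Ne.symm hb)]) (by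
      intro A hA A' hA' hne
      rw [Set.disjoint_left]
      rintro c ⟨_, hc⟩ ⟨_, hc'⟩
      exact hne (hc.symm.trans hc'))
  rw [← hFix, Set.ncard_diff_singleton_of_mem (show a ∈ {b : Ω | x • b = b} from hxa)] at hcount
  have h3c : ({A₁, A₂, A₃} : Set (Subgroup G)).ncard = 3 := by
    rw [Set.ncard_eq_three]; exact ⟨A₁, A₂, A₃, h12, h13, h23, rfl⟩
  rw [h3c] at hcount
  have hpos : 0 < {b : Ω | x • b = b}.ncard := (Set.ncard_pos).2 ⟨a, hxa⟩
  -- the centralizer of `x` in `V`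
  set C : Subgroup G := V ⊓ centralizer ({x} : Set G) with hC
  have hmemC : ∀ r, r ∈ C ↔ r ∈ V ∧ x * r = r * x := by
    intro r
    rw [hC, Subgroup.mem_inf, Subgroup.mem_centralizer_singleton_iff]
    exact ⟨fun h => ⟨h.1, h.2.symm⟩, fun h => ⟨h.1, h.2.symm⟩⟩
  let φ : C → {b : Ω | x • b = b} := fun r => ⟨(r : G) • a, by
    have h4 := ((hmemC r).1 r.2).2
    show x • (r : G) • a = (r : G) • a
    rw [← mul_smul, h4, mul_smul, hxa]⟩
  have hφ : Function.Bijective φ := by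
    constructor
    · rintro ⟨r, hr⟩ ⟨s, hs⟩ he
      have h4 : r • a = s • a := congrArg Subtype.val he
      have h5 : (r⁻¹ * s) • a = a := by rw [mul_smul, ← h4, inv_smul_smul]
      have h6 := hVs a _ (V.mul_mem (V.inv_mem ((hmemC r).1 hr).1) ((hmemC s).1 hs).1) h5
      exact Subtype.ext (inv_mul_eq_one.1 h6)
    · rintro ⟨b, hb⟩
      obtain ⟨r, hr, hrb⟩ := hVt a b
      have h4 : x * r * x⁻¹ ∈ V := hV.conj_mem r hr x
      have h5 : (r⁻¹ * (x * r * x⁻¹)) • a = a := by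
        have h6 : x⁻¹ • a = a := by rw [inv_smul_eq_iff, hxa]
        have hb' : x • b = b := hb
        rw [mul_smul, mul_smul, mul_smul, h6, hrb, hb', ← hrb, inv_smul_smul]
      have h6 := hVs a _ (V.mul_mem (V.inv_mem hr) h4) h5
      rw [inv_mul_eq_one] at h6
      refine ⟨⟨r, (hmemC r).2 ⟨hr, ?_⟩⟩, Subtype.ext hrb⟩
      calc x * r = x * r * x⁻¹ * x := by simp
        _ = r * x := by rw [← h6]
  have hCc : Nat.card C = {b : Ω | x • b = b}.ncard := by
    rw [Nat.card_congr (Equiv.ofBijective φ hφ), Nat.card_coe_set_eq]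
  have hdvd : Nat.card C ∣ Nat.card V := Subgroup.card_dvd_of_le inf_le_left
  rw [hVc, hCc, hq, ← pow_mul] at hdvd
  obtain ⟨j, -, hj⟩ := (Nat.dvd_prime_pow Nat.prime_two).1 hdvd
  have h4 : 2 ^ j + 2 = 3 * 2 ^ n := by
    rw [← hj]
    have : 1 ≤ 2 ^ n := Nat.one_le_two_pow
    rw [hq] at hcount
    omega
  obtain ⟨i, hi⟩ : ∃ i, n = i + 2 := ⟨n - 2, by omega⟩
  rw [hi, pow_add] at h4
  have hi1 : 1 ≤ 2 ^ i := Nat.one_le_two_pow
  rcases j with _ | _ | j
  · omega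
  · omega
  · rw [pow_succ, pow_succ] at h4
    omega

end Cfsg.Agent.P3
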