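import Cfsg.Agent.P3.Def

/-! Basic facts on conjugates and the first consequences of the axioms. -/

set_option autoImplicit false
set_option linter.all false

namespace Cfsg.Agent.P3

open Subgroup

section cjsec
variable {G : Type*} [Group G]

theorem mem_cj {g x : G} {A : Subgroup G} : x ∈ cj g A ↔ g⁻¹ * x * g ∈ A := by
  unfold cj
  rw [Subgroup.mem_map]
  constructor
  · rintro ⟨y, hy, rfl⟩
    simpa [mul_assoc] using hy
  · intro h
    exact ⟨_, h, by simp [mul_assoc]⟩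

theorem cj_mem {g x : G} {A : Subgroup G} (h : x ∈ A) : g * x * g⁻¹ ∈ cj g A := by
  rw [mem_cj]; simpa [mul_assoc] using h

theorem cj_one (A : Subgroup G) : cj 1 A = A := by
  ext x; simp [mem_cj]

theorem cj_mul (g h : G) (A : Subgroup G) : cj (g * h) A = cj g (cj h A) := by
  ext x; simp only [mem_cj, mul_inv_rev, mul_assoc]

theorem cj_inv_cj (g : G) (A : Subgroup G) : cj g⁻¹ (cj g A) = A := by
  rw [← cj_mul, inv_mul_cancel, cj_one]

theorem cj_cj_inv (g : G) (A : Subgroup G) : cj g (cj g⁻¹ A) = A := by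
  rw [← cj_mul, mul_inv_cancel, cj_one]

theorem cj_inj {g : G} {A B : Subgroup G} (h : cj g A = cj g B) : A = B := by
  have := congrArg (cj g⁻¹) h
  rwa [cj_inv_cj, cj_inv_cj] at this

theorem cj_inf (g : G) (A B : Subgroup G) : cj g (A ⊓ B) = cj g A ⊓ cj g B := by
  ext x; simp [mem_cj, Subgroup.mem_inf]

theorem cj_mono {g : G} {A B : Subgroup G} (h : A ≤ B) : cj g A ≤ cj g B := Subgroup.map_mono h

theorem cj_le_iff {g : G} {A B : Subgroup G} : cj g A ≤ cj g B ↔ A ≤ B :=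
  ⟨fun h => by simpa [cj_inv_cj] using cj_mono (g := g⁻¹) h, cj_mono⟩

theorem cj_bot (g : G) : cj g (⊥ : Subgroup G) = ⊥ := Subgroup.map_bot _

theorem cj_sup (g : G) (A B : Subgroup G) : cj g (A ⊔ B) = cj g A ⊔ cj g B := Subgroup.map_sup _ _ _

theorem cj_eq_bot {g : G} {A : Subgroup G} : cj g A = ⊥ ↔ A = ⊥ :=
  ⟨fun h => cj_inj (h.trans (cj_bot g).symm), fun h => by rw [h, cj_bot]⟩

theorem card_cj (g : G) (A : Subgroup G) : Nat.card (cj g A) = Nat.card A :=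
  Nat.card_congr ((A.equivMapOfInjective _ (MulAut.conj g).injective).toEquiv.symm)

theorem cj_self {g : G} {A : Subgroup G} (h : g ∈ A) : cj g A = A := by
  ext x
  rw [mem_cj]
  constructor
  · intro hx
    have := A.mul_mem (A.mul_mem h hx) (A.inv_mem h)
    simpa [mul_assoc] using this
  · intro hx
    exact A.mul_mem (A.mul_mem (A.inv_mem h) hx) h

theorem cj_inv_eq {g : G} {A B : Subgroup G} (h : cj g A = B) : cj g⁻¹ B = A := by
  rw [← h, cj_inv_cj]

theorem cj_of_comm {g : G} {A : Subgroup G} (h : ∀ x ∈ A, g * x = x * g) : cj g A = A := by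
  ext x
  rw [mem_cj]
  constructor
  · intro hx
    have h1 := h _ hx
    have h2 : x = g⁻¹ * x * g := by
      have h3 : g * (g⁻¹ * x * g) = (g⁻¹ * x * g) * g := h1
      have h4 : x * g = g⁻¹ * x * g * g := by simpa [mul_assoc] using h3
      exact mul_right_cancel h4
    rw [h2]; exact hx
  · intro hx
    have h1 : g⁻¹ * x * g = x := by rw [mul_assoc, ← h x hx]; simp
    rw [h1]; exact hx

theorem cj_pow_eq {g : G} {A : Subgroup G} (h : cj g A = A) (k : ℕ) : cj (g ^ k) A = A := by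
  induction k with
  | zero => rw [pow_zero, cj_one]
  | succ k ih => rw [pow_succ, cj_mul, h, ih]

theorem cj_le_of (g : G) {A B : Subgroup G} (h : ∀ x ∈ A, g * x * g⁻¹ ∈ B) : cj g A ≤ B := by
  intro x hx
  rw [mem_cj] at hx
  have := h _ hx
  simpa [mul_assoc] using this

theorem cj_eq_of_le [Finite G] {g : G} {A : Subgroup G} (h : cj g A ≤ A) : cj g A = A :=
  Subgroup.eq_of_le_of_card_ge h (le_of_eq (card_cj g A).symm)

theorem conj_mem_of_cj {g x : G} {A B : Subgroup G} (h : cj g A = B) (hx : x ∈ A) : g * x * g⁻¹ ∈ B :=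
  h ▸ cj_mem hx

theorem mem_centralizer_iff' {N : Subgroup G} {c : G} :
    c ∈ centralizer (N : Set G) ↔ ∀ x ∈ N, c * x = x * c := by
  rw [Subgroup.mem_centralizer_iff]
  exact ⟨fun h x hx => (h x hx).symm, fun h x hx => (h x hx).symm⟩

/-- counting a union of pairwise disjoint sets of the same size -/
theorem ncard_biUnion_const {α ι : Type*} [Finite α] [Finite ι] (S : Set ι) (f : ι → Set α) (k : ℕ)
    (hk : ∀ i ∈ S, (f i).ncard = k) (hd : ∀ i ∈ S, ∀ j ∈ S, i ≠ j → Disjoint (f i) (f j)) :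
    (⋃ i ∈ S, f i).ncard = S.ncard * k := by
  classical
  haveI := Fintype.ofFinite α
  haveI := Fintype.ofFinite ι
  have h1 : (⋃ i ∈ S, f i) = ((S.toFinset.biUnion fun i => (f i).toFinset : Finset α) : Set α) := by
    ext x; simp
  rw [h1, Set.ncard_coe_finset, Finset.card_biUnion, Finset.sum_congr rfl (g := fun _ => k)]
  · rw [Finset.sum_const, smul_eq_mul, Set.ncard_eq_toFinset_card']
  · intro i hi
    rw [← Set.ncard_eq_toFinset_card']
    exact hk i (by simpa using hi)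
  · intro i hi j hj hij
    have := hd i (by simpa using hi) j (by simpa using hj) hij
    exact Set.disjoint_toFinset.2 this

/-- a 2-group acting on a set of odd size has a fixed point -/
theorem exists_fixed {α : Type*} [Finite α] [Finite G] (f : G → α → α) (h1 : ∀ x, f 1 x = x)
    (hm : ∀ g h x, f (g * h) x = f g (f h x)) (T : Subgroup G) (hT : IsPGroup 2 T) (S : Set α)
    (hodd : Odd S.ncard) (hinv : ∀ t ∈ T, ∀ s ∈ S, f t s ∈ S) : ∃ s ∈ S, ∀ t ∈ T, f t s = s := by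
  letI : MulAction T S :=
    { smul := fun t s => ⟨f t s, hinv t t.2 s s.2⟩
      one_smul := fun s => Subtype.ext (h1 s)
      mul_smul := fun t u s => Subtype.ext (hm t u s) }
  have h2 := hT.nonempty_fixed_point_of_prime_not_dvd_card S (by
    rw [Nat.card_coe_set_eq]
    intro h
    exact (Nat.not_even_iff_odd.2 hodd) (even_iff_two_dvd.2 h))
  obtain ⟨s, hs⟩ := h2
  exact ⟨s, s.2, fun t ht => congrArg Subtype.val (hs ⟨t, ht⟩)⟩

theorem isPGroup_zpowers {g : G} (h : ∃ k : ℕ, g ^ 2 ^ k = 1) : IsPGroup 2 (zpowers g) := by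
  obtain ⟨k, hk⟩ := h
  intro x
  obtain ⟨x, hx⟩ := x
  obtain ⟨m, rfl⟩ := Subgroup.mem_zpowers_iff.1 hx
  refine ⟨k, Subtype.ext ?_⟩
  rw [Subgroup.coe_pow, Subgroup.coe_one]
  show (g ^ m) ^ 2 ^ k = 1
  rw [← zpow_natCast, zpow_comm, zpow_natCast, hk, one_zpow]

/-- element version -/
theorem exists_fixed_elt {α : Type*} [Finite α] [Finite G] (f : G → α → α) (h1 : ∀ x, f 1 x = x)
    (hm : ∀ g h x, f (g * h) x = f g (f h x)) {g : G} (hg : ∃ k : ℕ, g ^ 2 ^ k = 1) (S : Set α)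
    (hodd : Odd S.ncard) (hinv : ∀ s ∈ S, f g s ∈ S) : ∃ s ∈ S, f g s = s := by
  have h3 : ∀ k : ℕ, ∀ s ∈ S, f (g ^ k) s ∈ S := by
    intro k
    induction k with
    | zero => intro s hs; rw [pow_zero, h1]; exact hs
    | succ k ih => intro s hs; rw [pow_succ, hm]; exact ih _ (hinv s hs)
  obtain ⟨s, hs, h4⟩ := exists_fixed f h1 hm (zpowers g) (isPGroup_zpowers hg) S hodd (by
    intro t ht s hs
    obtain ⟨k, rfl⟩ := (mem_powers_iff_mem_zpowers (x := g) (y := t)).2 ht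
    exact h3 k s hs)
  exact ⟨s, hs, h4 g (Subgroup.mem_zpowers g)⟩

theorem mem_sup_of_norm {A B : Subgroup G} (h : ∀ b ∈ B, cj b A = A) {x : G} :
    x ∈ A ⊔ B ↔ ∃ a ∈ A, ∃ b ∈ B, x = a * b := by
  constructor
  · intro hx
    let K : Subgroup G :=
      { carrier := {x | ∃ a ∈ A, ∃ b ∈ B, x = a * b}
        one_mem' := ⟨1, A.one_mem, 1, B.one_mem, by simp⟩
        mul_mem' := by
          rintro _ _ ⟨a, ha, b, hb, rfl⟩ ⟨a', ha', b', hb', rfl⟩
          refine ⟨a * (b * a' * b⁻¹), A.mul_mem ha (conj_mem_of_cj (h b hb) ha'), b * b', B.mul_mem hb hb', ?_⟩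
          simp [mul_assoc]
        inv_mem' := by
          rintro _ ⟨a, ha, b, hb, rfl⟩
          refine ⟨b⁻¹ * a⁻¹ * b⁻¹⁻¹, conj_mem_of_cj (h _ (B.inv_mem hb)) (A.inv_mem ha), b⁻¹, B.inv_mem hb, ?_⟩
          simp [mul_assoc] }
    have h1 : A ≤ K := fun a ha => ⟨a, ha, 1, B.one_mem, by simp⟩
    have h2 : B ≤ K := fun b hb => ⟨1, A.one_mem, b, hb, by simp⟩
    exact (sup_le h1 h2) hx
  · rintro ⟨a, ha, b, hb, rfl⟩
    exact mul_mem (mem_sup_left ha) (mem_sup_right hb)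

theorem card_sup_mul [Finite G] {A B : Subgroup G} (h : ∀ b ∈ B, cj b A = A) :
    Nat.card ↥(A ⊔ B) * Nat.card ↥(A ⊓ B) = Nat.card A * Nat.card B := by
  have h1 : Nat.card (↥(A ⊔ B) × ↥(A ⊓ B)) = Nat.card (↥A × ↥B) := by
    -- the map `(a, b) ↦ a * b` has fibres `A ⊓ B`
    classical
    have key : ∀ x : ↥(A ⊔ B), ∃ p : ↥A × ↥B, (x : G) = p.1 * p.2 := by
      rintro ⟨x, hx⟩
      obtain ⟨a, ha, b, hb, rfl⟩ := (mem_sup_of_norm h).1 hx
      exact ⟨⟨⟨a, ha⟩, ⟨b, hb⟩⟩, rfl⟩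
    choose s hs using key
    refine Nat.card_congr
      { toFun := fun p => ⟨⟨(s p.1).1 * p.2, A.mul_mem (s p.1).1.2 (Subgroup.mem_inf.1 p.2.2).1⟩,
          ⟨(p.2 : G)⁻¹ * (s p.1).2, B.mul_mem (B.inv_mem (Subgroup.mem_inf.1 p.2.2).2) (s p.1).2.2⟩⟩
        invFun := fun p => (⟨⟨(p.1 : G) * p.2, mul_mem (mem_sup_left p.1.2) (mem_sup_right p.2.2)⟩,
          ⟨((s ⟨(p.1 : G) * p.2, mul_mem (mem_sup_left p.1.2) (mem_sup_right p.2.2)⟩).1 : G)⁻¹ * p.1, ?_⟩⟩)
        left_inv := ?_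
        right_inv := ?_ }
    · have h2 := hs ⟨(p.1 : G) * p.2, mul_mem (mem_sup_left p.1.2) (mem_sup_right p.2.2)⟩
      refine Subgroup.mem_inf.2 ⟨A.mul_mem (A.inv_mem (Subtype.prop _)) p.1.2, ?_⟩
      set t := s ⟨(p.1 : G) * p.2, mul_mem (mem_sup_left p.1.2) (mem_sup_right p.2.2)⟩ with ht
      have h3 : (p.1 : G) * p.2 = t.1 * t.2 := h2
      have h4 : (t.1 : G)⁻¹ * p.1 = t.2 * (p.2 : G)⁻¹ := by
        rw [eq_mul_inv_iff_mul_eq, mul_assoc, h3]; simp
      rw [h4]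
      exact B.mul_mem t.2.2 (B.inv_mem p.2.2)
    · rintro ⟨x, y⟩
      have h5 : (((s x).1 : G) * y) * ((y : G)⁻¹ * (s x).2) = x := by
        rw [hs x]; simp [mul_assoc]
      have h6 : (⟨(((s x).1 : G) * y) * ((y : G)⁻¹ * (s x).2), mul_mem
          (mem_sup_left (A.mul_mem (s x).1.2 (Subgroup.mem_inf.1 y.2).1))
          (mem_sup_right (B.mul_mem (B.inv_mem (Subgroup.mem_inf.1 y.2).2) (s x).2.2))⟩ : ↥(A ⊔ B)) = x :=
        Subtype.ext h5
      refine Prod.ext h6 (Subtype.ext ?_)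
      show ((s ⟨(((s x).1 : G) * y) * ((y : G)⁻¹ * (s x).2), _⟩).1 : G)⁻¹ * (((s x).1 : G) * y) = y
      rw [h6]; simp
    · rintro ⟨a, b⟩
      have h2 := hs ⟨(a : G) * b, mul_mem (mem_sup_left a.2) (mem_sup_right b.2)⟩
      refine Prod.ext (Subtype.ext ?_) (Subtype.ext ?_)
      · show ((s _).1 : G) * (((s _).1 : G)⁻¹ * a) = a
        simp
      · show (((s _).1 : G)⁻¹ * a)⁻¹ * (s _).2 = b
        have h3 : (a : G) * b = (s ⟨(a : G) * b, mul_mem (mem_sup_left a.2) (mem_sup_right b.2)⟩).1 *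
          (s ⟨(a : G) * b, mul_mem (mem_sup_left a.2) (mem_sup_right b.2)⟩).2 := h2
        rw [mul_inv_rev, inv_inv, mul_assoc, ← h3]; simp
  rwa [Nat.card_prod, Nat.card_prod] at h1

end cjsec

end Cfsg.Agent.P3
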