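import Cfsg.Agent.P3.Geo1

/-! Elementary consequences of the axioms `PS`. -/

set_option autoImplicit false
set_option linter.all false

namespace Cfsg.Agent.P3

open Subgroup

variable {G : Type*} [Group G] [Finite G] {N : Subgroup G} {q : ℕ} {P L : Set (Subgroup G)}

theorem PS.symm (h : PS N q P L) : PS N q L P where
  pow := h.pow
  simple := h.simple
  h1 := h.h2
  h2 := h.h1
  syl := fun A hA B hB hAB g hg hk h1 h2 => by
    have := h.syl B hB A hA (by rwa [inf_comm]) g hg hk h2 h1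
    rwa [sup_comm]

theorem PS.two_le (h : PS N q P L) : 2 ≤ q := by
  obtain ⟨n, hn, rfl⟩ := h.pow
  calc 2 = 2 ^ 1 := by norm_num
    _ ≤ 2 ^ n := Nat.pow_le_pow_right (by norm_num) hn

theorem PS.even (h : PS N q P L) : Even q := by
  obtain ⟨n, hn, rfl⟩ := h.pow
  exact Even.pow_of_ne_zero ⟨1, rfl⟩ (by omega)

theorem PS.ne_bot (h : PS N q P L) {A : Subgroup G} (hA : A ∈ P) : A ≠ ⊥ := by
  rintro rfl
  have h1 := h.h1.card _ hA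
  have h2 := h.two_le
  rw [Subgroup.card_bot] at h1
  nlinarith

theorem PS.comm (h : PS N q P L) {A : Subgroup G} (hA : A ∈ P) {x y : G} (hx : x ∈ A) (hy : y ∈ A) :
    x * y = y * x := by
  have h1 := h.h1.sq A hA x hx
  have h2 := h.h1.sq A hA y hy
  have h3 := h.h1.sq A hA _ (A.mul_mem hx hy)
  have h4 : x⁻¹ = x := inv_eq_of_mul_eq_one_left h1
  have h5 : y⁻¹ = y := inv_eq_of_mul_eq_one_left h2
  have h6 : (x * y)⁻¹ = x * y := inv_eq_of_mul_eq_one_left h3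
  rw [← h6, mul_inv_rev, h4, h5]

theorem inv_of_sq {x : G} (h : x * x = 1) : x⁻¹ = x := inv_eq_of_mul_eq_one_left h

theorem PS.ti' (h : PS N q P L) {A A' : Subgroup G} (hA : A ∈ P) (hA' : A' ∈ P) {x : G} (hx : x ∈ A)
    (hx' : x ∈ A') (h1 : x ≠ 1) : A = A' := by
  by_contra hne
  have := h.h1.ti A hA A' hA' hne
  exact h1 ((Subgroup.mem_bot).1 (this ▸ Subgroup.mem_inf.2 ⟨hx, hx'⟩))

theorem exists_mem_of_ne_bot {A : Subgroup G} (h : A ≠ ⊥) : ∃ x ∈ A, x ≠ 1 := by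
  exact (Subgroup.nontrivial_iff_exists_ne_one A).1 ((Subgroup.nontrivial_iff_ne_bot A).2 h)

theorem ne_bot_of_mem {A : Subgroup G} {x : G} (hx : x ∈ A) (h1 : x ≠ 1) : A ≠ ⊥ := by
  rintro rfl
  exact h1 (Subgroup.mem_bot.1 hx)

theorem PS.disj (h : PS N q P L) {A : Subgroup G} (hA : A ∈ P) : A ∉ L := by
  intro hL
  have h1 := h.h1.inc A hA A hL (by rw [inf_idem]; exact h.ne_bot hA)
  rw [inf_idem, h.h1.card A hA] at h1
  have := h.two_le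
  nlinarith

/-- every element of `A` lies in a member of `L`. -/
theorem PS.cover (h : PS N q P L) {A : Subgroup G} (hA : A ∈ P) {x : G} (hx : x ∈ A) (h1 : x ≠ 1) :
    ∃ B ∈ L, x ∈ B := by
  have hq := h.two_le
  set S : Set (Subgroup G) := {B | B ∈ L ∧ A ⊓ B ≠ ⊥} with hS
  have hcount := ncard_biUnion_const S (fun B => ((A ⊓ B : Subgroup G) : Set G) \ {1}) (q - 1) (by
    rintro B ⟨hB, hAB⟩
    rw [Set.ncard_diff_singleton_of_mem (Subgroup.one_mem _)]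
    have := h.h1.inc A hA B hB hAB
    rw [← this]
    rfl) (by
    rintro B ⟨hB, hAB⟩ B' ⟨hB', hAB'⟩ hne
    rw [Set.disjoint_left]
    rintro y ⟨hy, hy1⟩ ⟨hy', _⟩
    exact hne (h.symm.ti' hB hB' (Subgroup.mem_inf.1 hy).2 (Subgroup.mem_inf.1 hy').2 hy1))
  rw [h.h1.deg A hA] at hcount
  have hsub : (⋃ B ∈ S, ((A ⊓ B : Subgroup G) : Set G) \ {1}) ⊆ (A : Set G) \ {1} := by
    intro y hy
    simp only [Set.mem_iUnion] at hy
    obtain ⟨B, hB, hy, hy1⟩ := hy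
    exact ⟨(Subgroup.mem_inf.1 hy).1, hy1⟩
  have hA1 : ((A : Set G) \ {1}).ncard = q ^ 2 - 1 := by
    rw [Set.ncard_diff_singleton_of_mem A.one_mem]
    have := h.h1.card A hA
    rw [← this]; rfl
  have heq := Set.eq_of_subset_of_ncard_le hsub (by
    rw [hA1, hcount]
    obtain ⟨m, rfl⟩ : ∃ m, q = m + 1 := ⟨q - 1, by omega⟩
    have : (m + 1 + 1) * (m + 1 - 1) = (m + 1) ^ 2 - 1 := by
      simp only [Nat.add_sub_cancel]
      have : (m + 1) ^ 2 = (m + 1 + 1) * m + 1 := by ring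
      omega
    omega)
  have hx2 : x ∈ (⋃ B ∈ S, ((A ⊓ B : Subgroup G) : Set G) \ {1}) := by
    rw [heq]; exact ⟨hx, h1⟩
  simp only [Set.mem_iUnion] at hx2
  obtain ⟨B, hB, hy, hy1⟩ := hx2
  exact ⟨B, hB.1, (Subgroup.mem_inf.1 hy).2⟩

/-- `A` is semiregular on the lines not through `A`. -/
theorem PS.reg_free (h : PS N q P L) {A B : Subgroup G} (hA : A ∈ P) (hB : B ∈ L) (hAB : A ⊓ B = ⊥)
    {a : G} (ha : a ∈ A) (hfix : cj a B = B) : a = 1 := by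
  classical
  have hq := h.two_le
  set T : Set (Subgroup G) := {B | B ∈ L ∧ A ⊓ B = ⊥} with hT
  have hTc : T.ncard = q ^ 2 := by
    have h1 : T = L \ {B | B ∈ L ∧ A ⊓ B ≠ ⊥} := by
      ext B; simp only [hT, Set.mem_setOf_eq, Set.mem_diff]
      tauto
    rw [h1, Set.ncard_diff (fun B hB => hB.1), h.h1.deg A hA, h.h2.ncard]
    omega
  let f : A → T := fun x => ⟨cj (x : G) B, h.h2.conj _ (h.h1.le A hA x.2) B hB, by
    have : A ⊓ cj (x : G) B = cj (x : G) (A ⊓ B) := by rw [cj_inf, cj_self x.2]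
    rw [this, hAB, cj_bot]⟩
  have hsurj : Function.Surjective f := by
    rintro ⟨B', hB', hAB'⟩
    obtain ⟨x, hx, h1⟩ := h.h1.reg A hA B hB B' hB' hAB hAB'
    exact ⟨⟨x, hx⟩, Subtype.ext h1⟩
  have hbij : Function.Bijective f := by
    refine (Nat.bijective_iff_surjective_and_card f).2 ⟨hsurj, ?_⟩
    rw [h.h1.card A hA, Nat.card_coe_set_eq, hTc]
  have h2 : f ⟨a, ha⟩ = f ⟨1, A.one_mem⟩ := Subtype.ext (by
    show cj a B = cj 1 B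
    rw [hfix, cj_one])
  exact congrArg Subtype.val (hbij.1 h2)

theorem PS.fix_iff (h : PS N q P L) {A B : Subgroup G} (hA : A ∈ P) (hB : B ∈ L) {a : G} (ha : a ∈ A)
    (h1 : a ≠ 1) : cj a B = B ↔ A ⊓ B ≠ ⊥ :=
  ⟨fun hf hAB => h1 (h.reg_free hA hB hAB ha hf), fun hAB => h.h1.norm A hA B hB hAB a ha⟩

theorem PS.join_eq (h : PS N q P L) {A A' B B' : Subgroup G} (hA : A ∈ P) (hA' : A' ∈ P) (hne : A ≠ A')
    (hB : B ∈ L) (hB' : B' ∈ L) (h1 : A ⊓ B ≠ ⊥) (h2 : A' ⊓ B ≠ ⊥) (h3 : A ⊓ B' ≠ ⊥)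
    (h4 : A' ⊓ B' ≠ ⊥) : B = B' :=
  (h.h1.join A hA A' hA' hne).unique ⟨hB, h1, h2⟩ ⟨hB', h3, h4⟩

theorem inf_ne {A B : Subgroup G} (h : A ⊓ B ≠ ⊥) : B ⊓ A ≠ ⊥ := by rwa [inf_comm]

theorem inf_eq {A B : Subgroup G} (h : A ⊓ B = ⊥) : B ⊓ A = ⊥ := by rwa [inf_comm]

theorem inf_ne_of_mem {A B : Subgroup G} {x : G} (h : x ∈ A) (h' : x ∈ B) (h1 : x ≠ 1) : A ⊓ B ≠ ⊥ :=
  ne_bot_of_mem (Subgroup.mem_inf.2 ⟨h, h'⟩) h1

/-- an element `a ∈ A` fixing a second point of the line `B` through `A` lies in `B`. -/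
theorem PS.mem_of_fix (h : PS N q P L) {A A' B : Subgroup G} (hA : A ∈ P) (hA' : A' ∈ P) (hne : A ≠ A')
    (hB : B ∈ L) (h1 : A ⊓ B ≠ ⊥) (h2 : A' ⊓ B ≠ ⊥) {a : G} (ha : a ∈ A) (hf : cj a A' = A') : a ∈ B := by
  by_cases ha1 : a = 1
  · rw [ha1]; exact B.one_mem
  obtain ⟨B', hB', haB'⟩ := h.cover hA ha ha1
  have h3 : B' ⊓ A' ≠ ⊥ := (h.symm.fix_iff hB' hA' haB' ha1).1 hf
  have := h.join_eq hA hA' hne hB' hB (inf_ne_of_mem ha haB' ha1) (inf_ne h3) h1 h2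
  rwa [← this]

theorem PS.comm_ne (h : PS N q P L) {A B : Subgroup G} (hA : A ∈ P) (hB : B ∈ L) (h1 : A ⊓ B ≠ ⊥)
    {a b : G} (ha : a ∈ A) (haB : a ∉ B) (hb : b ∈ B) (hc : a * b = b * a) : b ∈ A := by
  by_cases hb1 : b = 1
  · rw [hb1]; exact A.one_mem
  have ha1 : a ≠ 1 := fun h => haB (h ▸ B.one_mem)
  obtain ⟨A', hA', hbA'⟩ := h.symm.cover hB hb hb1
  by_cases hne : A = A'
  · rwa [hne]
  exfalso
  apply haB
  have h2 : A' ⊓ B ≠ ⊥ := inf_ne_of_mem hbA' hb hb1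
  refine h.mem_of_fix hA hA' hne hB h1 h2 ha ?_
  -- `cj a A' ∋ b`
  have h3 : b ∈ cj a A' := by
    rw [mem_cj]
    have : a⁻¹ * b * a = b := by rw [mul_assoc, ← hc]; simp
    rw [this]; exact hbA'
  exact h.ti' (h.h1.conj a (h.h1.le A hA ha) A' hA') hA' h3 hbA' hb1

theorem PS.mem_sup (h : PS N q P L) {A B : Subgroup G} (hA : A ∈ P) (hB : B ∈ L) (h1 : A ⊓ B ≠ ⊥)
    {x : G} : x ∈ A ⊔ B ↔ ∃ a ∈ A, ∃ b ∈ B, x = a * b :=
  mem_sup_of_norm (fun b hb => h.h2.norm B hB A hA (inf_ne h1) b hb)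

theorem PS.card_U (h : PS N q P L) {A B : Subgroup G} (hA : A ∈ P) (hB : B ∈ L) (h1 : A ⊓ B ≠ ⊥) :
    Nat.card ↥(A ⊔ B) = q ^ 3 := by
  have h2 := card_sup_mul (A := A) (B := B) (fun b hb => h.h2.norm B hB A hA (inf_ne h1) b hb)
  rw [h.h1.inc A hA B hB h1, h.h1.card A hA, h.h2.card B hB] at h2
  have := h.two_le
  have h3 : Nat.card ↥(A ⊔ B) * q = q ^ 3 * q := by rw [h2]; ring
  exact Nat.eq_of_mul_eq_mul_right (by omega) h3

theorem PS.comm_mem (h : PS N q P L) {A B : Subgroup G} (hA : A ∈ P) (hB : B ∈ L) (h1 : A ⊓ B ≠ ⊥)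
    {a b : G} (ha : a ∈ A) (hb : b ∈ B) : a * b * a⁻¹ * b⁻¹ ∈ A ⊓ B := by
  refine Subgroup.mem_inf.2 ⟨?_, ?_⟩
  · have := conj_mem_of_cj (h.h2.norm B hB A hA (inf_ne h1) b hb) (A.inv_mem ha)
    have := A.mul_mem ha this
    simpa [mul_assoc] using this
  · have := conj_mem_of_cj (h.h1.norm A hA B hB h1 a ha) hb
    exact B.mul_mem this (B.inv_mem hb)

/-- `A ⊓ B` is central in `A ⊔ B`. -/
theorem PS.central (h : PS N q P L) {A B : Subgroup G} (hA : A ∈ P) (hB : B ∈ L) (h1 : A ⊓ B ≠ ⊥)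
    {z x : G} (hz : z ∈ A ⊓ B) (hx : x ∈ A ⊔ B) : z * x = x * z := by
  obtain ⟨a, ha, b, hb, rfl⟩ := (h.mem_sup hA hB h1).1 hx
  rw [← mul_assoc, h.comm hA (Subgroup.mem_inf.1 hz).1 ha, mul_assoc,
    h.symm.comm hB (Subgroup.mem_inf.1 hz).2 hb, mul_assoc]

/-- elements outside `A ∪ B` have order `4`. -/
theorem PS.order4 (h : PS N q P L) {A B : Subgroup G} (hA : A ∈ P) (hB : B ∈ L) (h1 : A ⊓ B ≠ ⊥)
    {x : G} (hx : x ∈ A ⊔ B) (hxA : x ∉ A) (hxB : x ∉ B) : x * x ≠ 1 := by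
  obtain ⟨a, ha, b, hb, rfl⟩ := (h.mem_sup hA hB h1).1 hx
  intro h2
  have haB : a ∉ B := fun h3 => hxB (B.mul_mem h3 hb)
  have hbA : b ∉ A := fun h3 => hxA (A.mul_mem ha h3)
  apply hbA
  refine h.comm_ne hA hB h1 ha haB hb ?_
  have h3 := inv_of_sq h2
  rw [mul_inv_rev, inv_of_sq (h.h1.sq A hA a ha), inv_of_sq (h.h2.sq B hB b hb)] at h3
  exact h3.symm

theorem PS.sq_mem (h : PS N q P L) {A B : Subgroup G} (hA : A ∈ P) (hB : B ∈ L) (h1 : A ⊓ B ≠ ⊥)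
    {x : G} (hx : x ∈ A ⊔ B) : x * x ∈ A ⊓ B := by
  obtain ⟨a, ha, b, hb, rfl⟩ := (h.mem_sup hA hB h1).1 hx
  have h2 := h.comm_mem hA hB h1 ha hb
  rw [inv_of_sq (h.h1.sq A hA a ha), inv_of_sq (h.h2.sq B hB b hb)] at h2
  simpa [mul_assoc] using h2

theorem PS.pow4 (h : PS N q P L) {A B : Subgroup G} (hA : A ∈ P) (hB : B ∈ L) (h1 : A ⊓ B ≠ ⊥)
    {x : G} (hx : x ∈ A ⊔ B) : x ^ 2 ^ 2 = 1 := by
  have h2 := h.sq_mem hA hB h1 hx
  have h3 := h.h1.sq A hA _ (Subgroup.mem_inf.1 h2).1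
  have : x ^ 2 ^ 2 = (x * x) * (x * x) := by norm_num [pow_succ, mul_assoc]
  rw [this, h3]

theorem PS.le_sup_cases (h : PS N q P L) {A B : Subgroup G} (hA : A ∈ P) (hB : B ∈ L) (h1 : A ⊓ B ≠ ⊥)
    {D : Subgroup G} (hD : D ≤ A ⊔ B) (hsq : ∀ x ∈ D, x * x = 1) : D ≤ A ∨ D ≤ B := by
  refine SubgroupClass.subset_union.1 fun x hx => ?_
  by_contra hcon
  rw [Set.mem_union, not_or] at hcon
  exact h.order4 hA hB h1 (hD hx) hcon.1 hcon.2 (hsq x hx)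

/-- `[a, B] = A ⊓ B` for `a ∈ A \ B` -/
theorem PS.comm_surj (h : PS N q P L) {A B : Subgroup G} (hA : A ∈ P) (hB : B ∈ L) (h1 : A ⊓ B ≠ ⊥)
    {a : G} (ha : a ∈ A) (haB : a ∉ B) {z : G} (hz : z ∈ A ⊓ B) : ∃ y ∈ B, a * y * a⁻¹ * y⁻¹ = z := by
  have hq := h.two_le
  let φ : B →* G :=
    { toFun := fun y => a * y * a⁻¹ * (y : G)⁻¹
      map_one' := by simp
      map_mul' := by
        rintro ⟨x, hx⟩ ⟨y, hy⟩
        have h2 := h.symm.comm hB (Subgroup.mem_inf.1 (h.comm_mem hA hB h1 ha hy)).2 (B.inv_mem hx)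
        show a * (x * y) * a⁻¹ * (x * y)⁻¹ = (a * x * a⁻¹ * x⁻¹) * (a * y * a⁻¹ * y⁻¹)
        have h3 : a * (x * y) * a⁻¹ * (x * y)⁻¹ = (a * x * a⁻¹) * ((a * y * a⁻¹ * y⁻¹) * x⁻¹) := by
          simp [mul_assoc]
        rw [h3, h2]; simp [mul_assoc] }
  have hker : ∀ y : B, y ∈ φ.ker ↔ (y : G) ∈ A := by
    rintro ⟨y, hy⟩
    rw [MonoidHom.mem_ker]
    show a * y * a⁻¹ * y⁻¹ = 1 ↔ y ∈ A
    constructor
    · intro h2
      refine h.comm_ne hA hB h1 ha haB hy ?_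
      rw [mul_inv_eq_one, mul_inv_eq_iff_eq_mul] at h2
      exact h2
    · intro h2
      rw [mul_inv_eq_one, mul_inv_eq_iff_eq_mul]
      exact h.comm hA ha h2
  have hkc : Nat.card φ.ker = q := by
    rw [← h.h1.inc A hA B hB h1]
    refine Nat.card_congr
      { toFun := fun y => ⟨(y : B), Subgroup.mem_inf.2 ⟨(hker y).1 y.2, (y : B).2⟩⟩
        invFun := fun y => ⟨⟨y, (Subgroup.mem_inf.1 y.2).2⟩, (hker _).2 (Subgroup.mem_inf.1 y.2).1⟩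
        left_inv := fun y => by simp
        right_inv := fun y => by simp }
  have h2 : Nat.card φ.ker * φ.ker.index = Nat.card B := Subgroup.card_mul_index _
  rw [Subgroup.index_ker, hkc, h.h2.card B hB] at h2
  have h3 : Nat.card φ.range = q := Nat.eq_of_mul_eq_mul_left (show 0 < q by omega) (by rw [h2]; ring)
  have h4 : φ.range ≤ A ⊓ B := by
    rintro _ ⟨y, rfl⟩
    exact h.comm_mem hA hB h1 ha y.2
  have h5 : φ.range = A ⊓ B := Subgroup.eq_of_le_of_card_ge h4 (by rw [h3, h.h1.inc A hA B hB h1])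
  rw [← h5] at hz
  obtain ⟨y, hy⟩ := hz
  exact ⟨y, y.2, hy⟩

/-- `[d, U] = Z(U)` for `d ∉ Z(U)` -/
theorem PS.comm_surj' (h : PS N q P L) {A B : Subgroup G} (hA : A ∈ P) (hB : B ∈ L) (h1 : A ⊓ B ≠ ⊥)
    {d : G} (hd : d ∈ A ⊔ B) (hdZ : d ∉ A ⊓ B) {z : G} (hz : z ∈ A ⊓ B) :
    ∃ y ∈ A ⊔ B, d * y * d⁻¹ * y⁻¹ = z := by
  obtain ⟨a, ha, b, hb, rfl⟩ := (h.mem_sup hA hB h1).1 hd
  by_cases haB : a ∈ B
  · have hbA : b ∉ A := fun h3 => hdZ (Subgroup.mem_inf.2 ⟨A.mul_mem ha h3, B.mul_mem haB hb⟩)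
    obtain ⟨y, hy, h2⟩ := h.symm.comm_surj hB hA (inf_ne h1) hb hbA (z := z) (by rwa [inf_comm])
    refine ⟨y, mem_sup_left hy, ?_⟩
    have h3 : a * b * y * (a * b)⁻¹ * y⁻¹ = a * ((b * y * b⁻¹ * y⁻¹) * (y * a⁻¹ * y⁻¹)) := by
      simp [mul_assoc]
    rw [h3, h2]
    have h4 : y * a⁻¹ * y⁻¹ = a⁻¹ := by
      rw [h.comm hA hy (A.inv_mem ha)]; simp
    rw [h4, h.comm hA (Subgroup.mem_inf.1 hz).1 (A.inv_mem ha)]; simp
  · obtain ⟨y, hy, h2⟩ := h.comm_surj hA hB h1 ha haB hz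
    refine ⟨y, mem_sup_right hy, ?_⟩
    have h3 : a * b * y * (a * b)⁻¹ * y⁻¹ = a * (b * y * b⁻¹) * a⁻¹ * y⁻¹ := by
      simp [mul_assoc]
    rw [h3]
    have h4 : b * y * b⁻¹ = y := by
      rw [h.symm.comm hB hb hy]; simp
    rw [h4, h2]

end Cfsg.Agent.P3
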