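import Cfsg.Agent.P3.Geo2

/-! 2-subgroups, automorphisms and overgroups of Sylow 2-subgroups. -/

set_option autoImplicit false
set_option linter.all false

namespace Cfsg.Agent.P3

open Subgroup

variable {G : Type*} [Group G] [Finite G] {N : Subgroup G} {q : ℕ} {P L : Set (Subgroup G)}

theorem PS.odd_card (h : PS N q P L) : Odd P.ncard := by
  rw [h.h1.ncard]
  obtain ⟨m, hm⟩ := h.even
  exact ⟨2 * m ^ 2 + m, by rw [hm]; ring⟩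

theorem PS.odd_deg (h : PS N q P L) {A : Subgroup G} (hA : A ∈ P) : Odd {B | B ∈ L ∧ A ⊓ B ≠ ⊥}.ncard := by
  rw [h.h1.deg A hA]
  exact h.even.add_one

/-- every 2-subgroup of `N` is contained in a flag group -/
theorem PS.sylow (h : PS N q P L) {T : Subgroup G} (hTN : T ≤ N) (hT : IsPGroup 2 T) :
    ∃ A ∈ P, ∃ B ∈ L, A ⊓ B ≠ ⊥ ∧ T ≤ A ⊔ B := by
  obtain ⟨A, hA, hA2⟩ := exists_fixed cj cj_one cj_mul T hT P h.odd_card
    (fun t ht A hA => h.h1.conj t (hTN ht) A hA)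
  obtain ⟨B, ⟨hB, hAB⟩, hB2⟩ := exists_fixed cj cj_one cj_mul T hT {B | B ∈ L ∧ A ⊓ B ≠ ⊥} (h.odd_deg hA)
    (fun t ht B hB => ⟨h.h2.conj t (hTN ht) B hB.1, by
      have := cj_inf t A B
      rw [hA2 t ht] at this
      rw [← this]
      exact fun h3 => hB.2 (cj_eq_bot.1 h3)⟩)
  refine ⟨A, hA, B, hB, hAB, fun t ht => ?_⟩
  obtain ⟨k, hk⟩ := hT ⟨t, ht⟩
  exact h.syl A hA B hB hAB t (hTN ht) ⟨k, congrArg Subtype.val hk⟩ (hA2 t ht) (hB2 t ht)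

theorem PS.isPGroup (h : PS N q P L) {A : Subgroup G} (hA : A ∈ P) : IsPGroup 2 A := by
  intro x
  exact ⟨1, Subtype.ext (by
    have := h.h1.sq A hA x x.2
    simpa [pow_two] using this)⟩

theorem PS.isPGroup_U (h : PS N q P L) {A B : Subgroup G} (hA : A ∈ P) (hB : B ∈ L) (h1 : A ⊓ B ≠ ⊥) :
    IsPGroup 2 ↥(A ⊔ B) := by
  intro x
  exact ⟨2, Subtype.ext (by
    have := h.pow4 hA hB h1 x.2
    simpa using this)⟩

theorem PS.eq_of_le (h : PS N q P L) {A E : Subgroup G} (hA : A ∈ P) (hE : Nat.card E = q ^ 2)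
    (hle : E ≤ A) : E = A :=
  Subgroup.eq_of_le_of_card_ge hle (by rw [h.h1.card A hA, hE])

/-- members of `P ∪ L` inside a flag group -/
theorem PS.char_U (h : PS N q P L) {A B : Subgroup G} (hA : A ∈ P) (hB : B ∈ L) (h1 : A ⊓ B ≠ ⊥)
    {E : Subgroup G} (hE : Nat.card E = q ^ 2) (hsq : ∀ x ∈ E, x * x = 1) (hle : E ≤ A ⊔ B) :
    E = A ∨ E = B :=
  (h.le_sup_cases hA hB h1 hle hsq).imp (h.eq_of_le hA hE) (h.symm.eq_of_le hB hE)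

theorem PS.char (h : PS N q P L) {E : Subgroup G} (hEN : E ≤ N) (hE : Nat.card E = q ^ 2)
    (hsq : ∀ x ∈ E, x * x = 1) : E ∈ P ∨ E ∈ L := by
  have hT : IsPGroup 2 E := fun x => ⟨1, Subtype.ext (by
    have := hsq x x.2
    simpa [pow_two] using this)⟩
  obtain ⟨A, hA, B, hB, h1, hle⟩ := h.sylow hEN hT
  rcases h.char_U hA hB h1 hE hsq hle with h2 | h2
  · left; rw [h2]; exact hA
  · right; rw [h2]; exact hB

/-- `g` normalises `N` -/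
def Nz (g : G) (N : Subgroup G) : Prop := ∀ x ∈ N, g * x * g⁻¹ ∈ N

omit [Finite G] in
theorem Nz.mul {g g' : G} (h : Nz g N) (h' : Nz g' N) : Nz (g * g') N := by
  intro x hx
  have := h _ (h' x hx)
  simpa [mul_assoc] using this

theorem Nz.cj_eq {g : G} (h : Nz g N) : cj g N = N := cj_eq_of_le (cj_le_of g h)

theorem Nz.inv {g : G} (h : Nz g N) : Nz g⁻¹ N := by
  intro x hx
  have h1 : cj g⁻¹ N = N := cj_inv_eq h.cj_eq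
  exact conj_mem_of_cj h1 hx

omit [Finite G] in
theorem Nz.of_mem {g : G} (h : g ∈ N) : Nz g N := fun x hx => N.mul_mem (N.mul_mem h hx) (N.inv_mem h)

theorem sq_cj {A : Subgroup G} (hsq : ∀ x ∈ A, x * x = 1) (g : G) : ∀ x ∈ cj g A, x * x = 1 := by
  intro x hx
  rw [mem_cj] at hx
  have h1 := hsq _ hx
  have h2 : g⁻¹ * (x * x) * g = 1 := by
    rw [← h1]; simp [mul_assoc]
  have h3 : x * x = g * (g⁻¹ * (x * x) * g) * g⁻¹ := by simp [mul_assoc]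
  rw [h3, h2]; simp

theorem PS.cj_mem_union (h : PS N q P L) {g : G} (hg : Nz g N) {E : Subgroup G} (hE : E ∈ P ∨ E ∈ L) :
    cj g E ∈ P ∨ cj g E ∈ L := by
  have h1 : E ≤ N ∧ Nat.card E = q ^ 2 ∧ ∀ x ∈ E, x * x = 1 := by
    rcases hE with hE | hE
    · exact ⟨h.h1.le E hE, h.h1.card E hE, h.h1.sq E hE⟩
    · exact ⟨h.h2.le E hE, h.h2.card E hE, h.h2.sq E hE⟩
  refine h.char ?_ (by rw [card_cj, h1.2.1]) (sq_cj h1.2.2 g)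
  calc cj g E ≤ cj g N := cj_mono h1.1
    _ = N := hg.cj_eq

theorem PS.exists_inc (h : PS N q P L) {A : Subgroup G} (hA : A ∈ P) : ∃ B ∈ L, A ⊓ B ≠ ⊥ := by
  have h1 := h.h1.deg A hA
  obtain ⟨B, hB⟩ : {B | B ∈ L ∧ A ⊓ B ≠ ⊥}.Nonempty := by
    rw [Set.nonempty_iff_ne_empty]
    intro h2
    rw [h2, Set.ncard_empty] at h1
    omega
  exact ⟨B, hB.1, hB.2⟩

theorem PS.exists_not_inc (h : PS N q P L) {A : Subgroup G} (hA : A ∈ P) : ∃ B ∈ L, A ⊓ B = ⊥ := by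
  by_contra hcon
  push Not at hcon
  have h1 := h.h1.deg A hA
  have h2 : {B | B ∈ L ∧ A ⊓ B ≠ ⊥} = L := by
    ext B; exact ⟨fun hB => hB.1, fun hB => ⟨hB, hcon B hB⟩⟩
  rw [h2, h.h2.ncard] at h1
  have := h.two_le
  nlinarith

/-- a normalising element mapping one point to a point preserves points and lines -/
theorem PS.pres (h : PS N q P L) {g : G} (hg : Nz g N) {A : Subgroup G} (hA : A ∈ P) (hgA : cj g A ∈ P) :
    (∀ A' ∈ P, cj g A' ∈ P) ∧ ∀ B ∈ L, cj g B ∈ L := by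
  have inc : ∀ {X Y : Subgroup G}, X ⊓ Y ≠ ⊥ → cj g X ⊓ cj g Y ≠ ⊥ := by
    intro X Y hXY
    rw [← cj_inf]; exact fun h3 => hXY (cj_eq_bot.1 h3)
  have s1 : ∀ A' ∈ P, cj g A' ∈ P → ∀ B ∈ L, A' ⊓ B ≠ ⊥ → cj g B ∈ L := by
    intro A' hA' hgA' B hB hAB
    rcases h.cj_mem_union hg (Or.inr hB) with h1 | h1
    · exfalso
      obtain ⟨x, hx, hx1⟩ := exists_mem_of_ne_bot (inc hAB)
      have := h.ti' hgA' h1 (Subgroup.mem_inf.1 hx).1 (Subgroup.mem_inf.1 hx).2 hx1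
      exact h.disj hA' (cj_inj this ▸ hB)
    · exact h1
  have s2 : ∀ B ∈ L, cj g B ∈ L → ∀ A' ∈ P, A' ⊓ B ≠ ⊥ → cj g A' ∈ P := by
    intro B hB hgB A' hA' hAB
    rcases h.cj_mem_union hg (Or.inl hA') with h1 | h1
    · exact h1
    · exfalso
      obtain ⟨x, hx, hx1⟩ := exists_mem_of_ne_bot (inc hAB)
      have := h.symm.ti' hgB h1 (Subgroup.mem_inf.1 hx).2 (Subgroup.mem_inf.1 hx).1 hx1
      exact h.disj hA' (cj_inj this ▸ hB)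
  have s3 : ∀ A' ∈ P, cj g A' ∈ P := by
    intro A' hA'
    by_cases hne : A = A'
    · rw [← hne]; exact hgA
    obtain ⟨B, ⟨hB, h1, h2⟩, -⟩ := h.h1.join A hA A' hA' hne
    exact s2 B hB (s1 A hA hgA B hB h1) A' hA' h2
  refine ⟨s3, fun B hB => ?_⟩
  obtain ⟨A', hA', h1⟩ := h.symm.exists_inc hB
  exact s1 A' hA' (s3 A' hA') B hB (inf_ne h1)

/-- an element normalising `N` and fixing all lines centralises `N` -/
theorem PS.cent_of_fix (h : PS N q P L) {g : G} (hg : Nz g N) (hf : ∀ B ∈ L, cj g B = B) :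
    g ∈ centralizer (N : Set G) := by
  rw [mem_centralizer_iff']
  intro x hx
  have h1 : g * x * g⁻¹ * x⁻¹ = 1 := by
    refine h.h2.faith _ (N.mul_mem (hg x hx) (N.inv_mem hx)) fun B hB => ?_
    have h2 : cj x⁻¹ B ∈ L := h.h2.conj _ (N.inv_mem hx) B hB
    rw [cj_mul, cj_mul, cj_mul, cj_inv_eq (hf _ h2), cj_cj_inv, hf B hB]
  rw [mul_inv_eq_one, mul_inv_eq_iff_eq_mul] at h1
  exact h1

/-- K6 -/
theorem PS.K6 (h : PS N q P L) {A : Subgroup G} (hA : A ∈ P) {g : G} (hg : Nz g N)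
    (hc : ∀ x ∈ A, g * x = x * g) : ∃ a ∈ A, ∃ c ∈ centralizer (N : Set G), g = a * c := by
  have hgA : cj g A = A := cj_of_comm hc
  obtain ⟨hP, hL⟩ := h.pres hg hA (by rw [hgA]; exact hA)
  have h1 : ∀ B ∈ L, A ⊓ B ≠ ⊥ → cj g B = B := by
    intro B hB hAB
    obtain ⟨x, hx, hx1⟩ := exists_mem_of_ne_bot hAB
    refine h.symm.ti' (hL B hB) hB (x := x) ?_ (Subgroup.mem_inf.1 hx).2 hx1
    rw [mem_cj]
    have : g⁻¹ * x * g = x := by rw [mul_assoc, ← hc x (Subgroup.mem_inf.1 hx).1]; simp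
    rw [this]; exact (Subgroup.mem_inf.1 hx).2
  obtain ⟨μ, hμ, hAμ⟩ := h.exists_not_inc hA
  have hAμ' : A ⊓ cj g μ = ⊥ := by
    have := cj_inf g A μ
    rw [hgA, hAμ, cj_bot] at this
    exact this.symm
  obtain ⟨a, ha, h2⟩ := h.h1.reg A hA (cj g μ) (hL μ hμ) μ hμ hAμ' hAμ
  have haN := h.h1.le A hA ha
  refine ⟨a⁻¹, A.inv_mem ha, a * g, ?_, by simp⟩
  refine h.cent_of_fix ((Nz.of_mem haN).mul hg) fun B hB => ?_
  by_cases hAB : A ⊓ B = ⊥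
  · obtain ⟨a', ha', h3⟩ := h.h1.reg A hA μ hμ B hB hAμ hAB
    have h4 : a * g * a' = a' * (a * g) := by
      rw [mul_assoc, hc a' ha', ← mul_assoc, h.comm hA ha ha', mul_assoc]
    rw [← h3, ← cj_mul, h4, cj_mul, cj_mul a g, h2]
  · rw [cj_mul, h1 B hB hAB, h.h1.norm A hA B hB hAB a ha]

/-- `B` is transitive on the lines through `A` other than `B`. -/
theorem PS.trans_lines (h : PS N q P L) {A B B₁ B₂ : Subgroup G} (hA : A ∈ P) (hB : B ∈ L)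
    (hAB : A ⊓ B ≠ ⊥) (hB₁ : B₁ ∈ L) (hAB₁ : A ⊓ B₁ ≠ ⊥) (hne₁ : B₁ ≠ B) (hB₂ : B₂ ∈ L)
    (hAB₂ : A ⊓ B₂ ≠ ⊥) (hne₂ : B₂ ≠ B) : ∃ b ∈ B, cj b B₁ = B₂ := by
  have hq := h.two_le
  -- another point on `B`
  obtain ⟨A', ⟨hA', hA'B⟩, hne⟩ : ∃ A' ∈ {A' | A' ∈ P ∧ B ⊓ A' ≠ ⊥}, A' ≠ A := by
    refine Set.exists_ne_of_one_lt_ncard ?_ A
    rw [h.h2.deg B hB]; omega
  have hA'B' := inf_ne hA'B
  have e1 : A' ⊓ B₁ = ⊥ := by
    by_contra h3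
    exact hne₁ (h.join_eq hA hA' (Ne.symm hne) hB₁ hB hAB₁ h3 hAB hA'B')
  have e2 : A' ⊓ B₂ = ⊥ := by
    by_contra h3
    exact hne₂ (h.join_eq hA hA' (Ne.symm hne) hB₂ hB hAB₂ h3 hAB hA'B')
  obtain ⟨a, ha, h4⟩ := h.h1.reg A' hA' B₁ hB₁ B₂ hB₂ e1 e2
  refine ⟨a, ?_, h4⟩
  have haN := h.h1.le A' hA' ha
  have haB : cj a B = B := h.h1.norm A' hA' B hB hA'B' a ha
  -- `cj a A` is the common point of `B` and `B₂`
  have h5 : cj a A = A := by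
    refine h.symm.join_eq hB₂ hB hne₂ (h.h1.conj a haN A hA) hA ?_ ?_ (inf_ne hAB₂) (inf_ne hAB)
    · rw [← h4, ← cj_inf]; exact fun h6 => hAB₁ (inf_eq (cj_eq_bot.1 h6))
    · have : B ⊓ cj a A = cj a (B ⊓ A) := by rw [cj_inf, haB]
      rw [this]; exact fun h6 => hAB (inf_eq (cj_eq_bot.1 h6))
  exact h.mem_of_fix hA' hA hne hB hA'B' hAB ha h5

theorem pow_aux {A : Subgroup G} {a g : G} (ha : a ∈ A) (hg : cj g A = A) (k : ℕ) :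
    ∃ a' ∈ A, (a * g) ^ k = a' * g ^ k := by
  induction k with
  | zero => exact ⟨1, A.one_mem, by simp⟩
  | succ k ih =>
    obtain ⟨a', ha', h1⟩ := ih
    refine ⟨a' * (g ^ k * a * (g ^ k)⁻¹), A.mul_mem ha' (conj_mem_of_cj (cj_pow_eq hg k) ha), ?_⟩
    rw [pow_succ, h1, pow_succ]; simp [mul_assoc]

theorem two_elt_mul {A : Subgroup G} {a g : G} (hA : ∀ x ∈ A, x ^ 2 ^ 2 = 1) (ha : a ∈ A)
    (hg : cj g A = A) (h : ∃ k : ℕ, g ^ 2 ^ k = 1) : ∃ k : ℕ, (a * g) ^ 2 ^ k = 1 := by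
  obtain ⟨k, hk⟩ := h
  obtain ⟨a', ha', h1⟩ := pow_aux ha hg (2 ^ k)
  refine ⟨k + 2, ?_⟩
  rw [pow_add, pow_mul, h1, hk, mul_one, hA a' ha']

/-- K0 -/
theorem PS.K0 (h : PS N q P L) {A : Subgroup G} (hA : A ∈ P) {g : G} (hg : Nz g N)
    (h2g : ∃ k : ℕ, g ^ 2 ^ k = 1) (hgA : cj g A = A) (hgB : ∀ B ∈ L, A ⊓ B ≠ ⊥ → cj g B = B) :
    ∃ a ∈ A, ∃ c ∈ centralizer (N : Set G), g = a * c := by
  have hq := h.two_le
  obtain ⟨μ, hμ, hAμ⟩ := h.exists_not_inc hA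
  obtain ⟨hP0, hL0⟩ := h.pres hg hA (by rw [hgA]; exact hA)
  have hAμ' : A ⊓ cj g μ = ⊥ := by
    have := cj_inf g A μ
    rw [hgA, hAμ, cj_bot] at this
    exact this.symm
  obtain ⟨a, ha, h2⟩ := h.h1.reg A hA (cj g μ) (hL0 μ hμ) μ hμ hAμ' hAμ
  have haN := h.h1.le A hA ha
  refine ⟨a⁻¹, A.inv_mem ha, a * g, ?_, by simp⟩
  set g' := a * g with hg'
  have hn : Nz g' N := (Nz.of_mem haN).mul hg
  have hg'2 : ∃ k : ℕ, g' ^ 2 ^ k = 1 := two_elt_mul (fun x hx => by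
    have := h.h1.sq A hA x hx
    rw [show x ^ 2 ^ 2 = (x * x) * (x * x) by norm_num [pow_succ, mul_assoc], this, one_mul]) ha hgA h2g
  have hA' : cj g' A = A := by rw [cj_mul, hgA, cj_self ha]
  have hB' : ∀ B ∈ L, A ⊓ B ≠ ⊥ → cj g' B = B := fun B hB hAB => by
    rw [cj_mul, hgB B hB hAB, h.h1.norm A hA B hB hAB a ha]
  have hμ' : cj g' μ = μ := by rw [cj_mul, h2]
  obtain ⟨hP, hL⟩ := h.pres hn hA (by rw [hA']; exact hA)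
  have inc : ∀ {X Y X' Y' : Subgroup G}, X ⊓ Y ≠ ⊥ → cj g' X = X' → cj g' Y = Y' → X' ⊓ Y' ≠ ⊥ := by
    rintro X Y X' Y' hXY rfl rfl
    rw [← cj_inf]; exact fun h3 => hXY (cj_eq_bot.1 h3)
  -- meets of fixed lines are fixed, joins of fixed points are fixed
  have meet : ∀ B ∈ L, ∀ B' ∈ L, B ≠ B' → cj g' B = B → cj g' B' = B' → ∀ X ∈ P, X ⊓ B ≠ ⊥ →
      X ⊓ B' ≠ ⊥ → cj g' X = X := by
    intro B hB B' hB' hne e1 e2 X hX hXB hXB'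
    exact h.symm.join_eq hB hB' hne (hP X hX) hX (inf_ne (inc hXB rfl e1)) (inf_ne (inc hXB' rfl e2))
      (inf_ne hXB) (inf_ne hXB')
  have join : ∀ X ∈ P, ∀ X' ∈ P, X ≠ X' → cj g' X = X → cj g' X' = X' → ∀ B ∈ L, X ⊓ B ≠ ⊥ →
      X' ⊓ B ≠ ⊥ → cj g' B = B := by
    intro X hX X' hX' hne e1 e2 B hB hXB hXB'
    exact h.join_eq hX hX' hne (hL B hB) hB (inc hXB e1 rfl) (inc hXB' e2 rfl) hXB hXB'
  have hμpts : ∀ X ∈ P, X ⊓ μ ≠ ⊥ → cj g' X = X := by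
    intro X hX hXμ
    have hne : A ≠ X := by rintro rfl; exact hXμ hAμ
    obtain ⟨B, ⟨hB, h3, h4⟩, -⟩ := h.h1.join A hA X hX hne
    have hBμ : B ≠ μ := by rintro rfl; exact h3 hAμ
    exact meet B hB μ hμ hBμ (hB' B hB h3) hμ' X hX h4 hXμ
  obtain ⟨B₀, hB₀, hAB₀⟩ := h.exists_inc hA
  have hB₀μ : B₀ ≠ μ := by rintro rfl; exact hAB₀ hAμ
  obtain ⟨A₀, ⟨hA₀, h5, h6⟩, -⟩ := h.symm.h1.join B₀ hB₀ μ hμ hB₀μ
  have hA₀ne : A₀ ≠ A := by rintro rfl; exact h6 (inf_eq hAμ)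
  -- a third fixed point on `B₀`
  obtain ⟨A₁, ⟨⟨⟨hA₁, hB₀A₁⟩, hne1⟩, hne2⟩, hfix⟩ := exists_fixed_elt cj cj_one cj_mul hg'2
    (({X | X ∈ P ∧ B₀ ⊓ X ≠ ⊥} \ {A}) \ {A₀}) (by
      rw [Set.ncard_diff_singleton_of_mem, Set.ncard_diff_singleton_of_mem, h.h2.deg B₀ hB₀]
      · obtain ⟨m, hm⟩ := h.even
        exact ⟨m - 1, by omega⟩
      · exact ⟨hA, inf_ne hAB₀⟩
      · exact ⟨⟨hA₀, h5⟩, hA₀ne⟩) (by
      rintro X ⟨⟨⟨hX, hX2⟩, hX3⟩, hX4⟩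
      refine ⟨⟨⟨hP X hX, inc hX2 (hB' B₀ hB₀ hAB₀) rfl⟩, fun e => hX3 ?_⟩, fun e => hX4 ?_⟩
      · exact cj_inj (e.trans hA'.symm)
      · exact cj_inj (e.trans (hμpts A₀ hA₀ (inf_ne h6)).symm))
  have hne1' : A₁ ≠ A := hne1
  have hne2' : A₁ ≠ A₀ := hne2
  have hA₁μ : A₁ ⊓ μ = ⊥ := by
    by_contra h7
    exact hne2' (h.symm.join_eq hB₀ hμ hB₀μ hA₁ hA₀ hB₀A₁ (inf_ne h7) h5 h6)
  -- all points off `B₀`
  have hoff : ∀ Y ∈ P, Y ⊓ B₀ = ⊥ → cj g' Y = Y := by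
    intro Y hY hYB
    have hAY : A ≠ Y := by rintro rfl; exact hAB₀ hYB
    have hA₁Y : A₁ ≠ Y := by rintro rfl; exact hB₀A₁ (inf_eq hYB)
    obtain ⟨B, ⟨hB, h7, h8⟩, -⟩ := h.h1.join A hA Y hY hAY
    obtain ⟨m, ⟨hm, h9, h10⟩, -⟩ := h.h1.join A₁ hA₁ Y hY hA₁Y
    have hmμ : m ≠ μ := by rintro rfl; exact h9 hA₁μ
    obtain ⟨X, ⟨hX, h11, h12⟩, -⟩ := h.symm.h1.join m hm μ hμ hmμ
    have hXne : A₁ ≠ X := by rintro rfl; exact h12 (inf_eq hA₁μ)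
    have hmfix : cj g' m = m := join A₁ hA₁ X hX hXne hfix (hμpts X hX (inf_ne h12)) m hm h9 (inf_ne h11)
    have hBm : B ≠ m := by
      rintro rfl
      have := h.join_eq hA hA₁ (Ne.symm hne1') hB hB₀ h7 h9 hAB₀ (inf_ne hB₀A₁)
      rw [this] at h8
      exact h8 hYB
    exact meet B hB m hm hBm (hB' B hB h7) hmfix Y hY h8 h10
  refine h.cent_of_fix hn fun B hB => ?_
  by_cases hBB₀ : B = B₀
  · rw [hBB₀]; exact hB' B₀ hB₀ hAB₀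
  -- two points of `B` off `B₀`
  obtain ⟨Z, ⟨hZ, h7, h8⟩, -⟩ := h.symm.h1.join B hB B₀ hB₀ hBB₀
  obtain ⟨X, ⟨⟨hX, hX1⟩, hX2⟩, X', ⟨⟨hX', hX'1⟩, hX'2⟩, hne⟩ : ∃ X ∈ ({X | X ∈ P ∧ B ⊓ X ≠ ⊥} \ {Z}),
      ∃ X' ∈ ({X | X ∈ P ∧ B ⊓ X ≠ ⊥} \ {Z}), X ≠ X' := by
    refine (Set.one_lt_ncard).1 ?_
    rw [Set.ncard_diff_singleton_of_mem (show Z ∈ {X | X ∈ P ∧ B ⊓ X ≠ ⊥} from ⟨hZ, h7⟩), h.h2.deg B hB]
    omega
  have offB : ∀ X ∈ P, B ⊓ X ≠ ⊥ → X ≠ Z → X ⊓ B₀ = ⊥ := by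
    intro X hX hX1 hX2
    by_contra h9
    exact hX2 (h.symm.join_eq hB hB₀ hBB₀ hX hZ hX1 (inf_ne h9) h7 h8)
  exact join X hX X' hX' hne (hoff X hX (offB X hX hX1 hX2)) (hoff X' hX' (offB X' hX' hX'1 hX'2)) B hB
    (inf_ne hX1) (inf_ne hX'1)

theorem PS.K1_aux (h : PS N q P L) {A B D : Subgroup G} (hA : A ∈ P) (hB : B ∈ L) (hAB : A ⊓ B ≠ ⊥)
    (hD : D ≤ A) {g : G} (hg : Nz g N) (h2g : ∃ k : ℕ, g ^ 2 ^ k = 1)
    (hc : ∀ u ∈ A ⊔ B, g * u * g⁻¹ * u⁻¹ ∈ D) :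
    ∃ u ∈ A ⊔ B, ∃ c ∈ centralizer (N : Set G), g = u * c := by
  have hq := h.two_le
  have hc' : ∀ u ∈ A ⊔ B, g * u * g⁻¹ ∈ A ⊔ B := by
    intro u hu
    have := mul_mem (mem_sup_left (T := B) (hD (hc u hu))) hu
    simpa [mul_assoc] using this
  have hgU : cj g (A ⊔ B) = A ⊔ B := cj_eq_of_le (cj_le_of g hc')
  have hgA : cj g A = A := by
    refine cj_eq_of_le (cj_le_of g fun x hx => ?_)
    have := A.mul_mem (hD (hc x (mem_sup_left hx))) hx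
    simpa [mul_assoc] using this
  obtain ⟨hP, hL⟩ := h.pres hg hA (by rw [hgA]; exact hA)
  have hgB : cj g B = B := by
    rcases h.char_U hA hB hAB (E := cj g B) (by rw [card_cj, h.h2.card B hB]) (sq_cj (h.h2.sq B hB) g)
      (by rw [← hgU]; exact cj_mono le_sup_right) with h3 | h3
    · exact absurd (h3 ▸ hL B hB) (h.disj hA)
    · exact h3
  -- a second line through `A`
  obtain ⟨B₁, ⟨hB₁, hAB₁⟩, hne⟩ : ∃ B₁ ∈ {B | B ∈ L ∧ A ⊓ B ≠ ⊥}, B₁ ≠ B := by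
    refine Set.exists_ne_of_one_lt_ncard ?_ B
    rw [h.h1.deg A hA]; omega
  have hgAB : ∀ B' ∈ L, A ⊓ B' ≠ ⊥ → A ⊓ cj g B' ≠ ⊥ := by
    intro B' hB' h3 h4
    have := cj_inf g A B'
    rw [hgA, h4, cj_eq_bot] at this
    exact h3 this
  obtain ⟨b, hb, h3⟩ := h.trans_lines hA hB hAB (hL B₁ hB₁) (hgAB B₁ hB₁ hAB₁)
    (fun e => hne (cj_inj (e.trans hgB.symm))) hB₁ hAB₁ hne
  have hbN := h.h2.le B hB hb
  have hbA : cj b A = A := h.h2.norm B hB A hA (inf_ne hAB) b hb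
  obtain ⟨a, ha, c, hcc, h4⟩ := h.K0 hA (g := b * g) ((Nz.of_mem hbN).mul hg)
    (two_elt_mul (A := A ⊔ B) (fun x hx => h.pow4 hA hB hAB hx) (mem_sup_right hb) hgU h2g)
    (by rw [cj_mul, hgA, hbA]) (by
      intro B₂ hB₂ hAB₂
      by_cases hne₂ : B₂ = B
      · rw [hne₂, cj_mul, hgB, cj_self hb]
      obtain ⟨b', hb', h5⟩ := h.trans_lines hA hB hAB hB₁ hAB₁ hne hB₂ hAB₂ hne₂
      have hd : g * b' * g⁻¹ * b'⁻¹ ∈ A := hD (hc b' (mem_sup_right hb'))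
      -- `b g b' = a'' b' (b g)`
      have h6 : b * g * b' = (b * (g * b' * g⁻¹ * b'⁻¹) * b⁻¹) * b' * (b * g) := by
        have : b * b' = b' * b := h.symm.comm hB hb hb'
        calc b * g * b' = b * (g * b' * g⁻¹ * b'⁻¹) * b' * g := by simp [mul_assoc]
          _ = b * (g * b' * g⁻¹ * b'⁻¹) * b⁻¹ * (b * b') * g := by simp [mul_assoc]
          _ = _ := by rw [this]; simp only [mul_assoc]
      have h7 : b * (g * b' * g⁻¹ * b'⁻¹) * b⁻¹ ∈ A := conj_mem_of_cj hbA hd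
      have h8 : cj (b * g) B₂ = cj (b * g * b') B₁ := by rw [cj_mul _ b', h5]
      rw [h8, h6, cj_mul, cj_mul b g, h3, cj_mul, h5]
      exact h.h1.norm A hA B₂ hB₂ hAB₂ _ h7)
  refine ⟨b⁻¹ * a, mul_mem (mem_sup_right (B.inv_mem hb)) (mem_sup_left ha), c, hcc, ?_⟩
  rw [mul_assoc, ← h4]; simp

/-- K1 -/
theorem PS.K1 (h : PS N q P L) {A B D : Subgroup G} (hA : A ∈ P) (hB : B ∈ L) (hAB : A ⊓ B ≠ ⊥)
    (hD : D ≤ A ⊔ B) (hDsq : ∀ x ∈ D, x * x = 1) {g : G} (hg : Nz g N) (h2g : ∃ k : ℕ, g ^ 2 ^ k = 1)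
    (hc : ∀ u ∈ A ⊔ B, g * u * g⁻¹ * u⁻¹ ∈ D) :
    ∃ u ∈ A ⊔ B, ∃ c ∈ centralizer (N : Set G), g = u * c := by
  rcases h.le_sup_cases hA hB hAB hD hDsq with h1 | h1
  · exact h.K1_aux hA hB hAB h1 hg h2g hc
  · have := h.symm.K1_aux hB hA (inf_ne hAB) h1 hg h2g (by rwa [sup_comm] at hc)
    rwa [sup_comm] at this

end Cfsg.Agent.P3
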