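import Cfsg.Agent.P3.Geo3

/-! The parabolic subgroups. -/

set_option autoImplicit false
set_option linter.all false

namespace Cfsg.Agent.P3

open Subgroup

variable {G : Type*} [Group G] [Finite G] {N : Subgroup G} {q : ℕ} {P L : Set (Subgroup G)}

omit [Finite G] in
theorem le_YY {A B : Subgroup G} (hA : A ∈ P) (hAB : A ⊓ B ≠ ⊥) : A ≤ YY P B :=
  le_iSup₂_of_le (f := fun (A : Subgroup G) (_ : A ∈ {A : Subgroup G | A ∈ P ∧ A ⊓ B ≠ ⊥}) => A) A ⟨hA, hAB⟩ le_rfl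

omit [Finite G] in
theorem YY_le {B M : Subgroup G} (h : ∀ A ∈ P, A ⊓ B ≠ ⊥ → A ≤ M) : YY P B ≤ M :=
  iSup₂_le fun A hA => h A hA.1 hA.2

theorem PS.YY_le_N (h : PS N q P L) {B : Subgroup G} : YY P B ≤ N := YY_le fun A hA _ => h.h1.le A hA

theorem norm_subgroup_le {B M : Subgroup G} (h : ∀ A ∈ P, A ⊓ B ≠ ⊥ → ∀ a ∈ A, cj a B = B) :
    ∀ g ∈ YY P B, cj g B = B := by
  let K : Subgroup G :=
    { carrier := {g | cj g B = B}
      one_mem' := cj_one B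
      mul_mem' := fun {x y} hx hy => by
        show cj (x * y) B = B
        rw [cj_mul, hy, hx]
      inv_mem' := fun {x} hx => cj_inv_eq hx }
  exact fun g hg => (YY_le (M := K) (fun A hA hAB a ha => h A hA hAB a ha)) hg

theorem PS.YY_norm (h : PS N q P L) {B : Subgroup G} (hB : B ∈ L) : ∀ g ∈ YY P B, cj g B = B :=
  norm_subgroup_le (M := ⊥) fun A hA hAB a ha => h.h1.norm A hA B hB hAB a ha

theorem PS.le_YY' (h : PS N q P L) {B : Subgroup G} (hB : B ∈ L) : B ≤ YY P B := by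
  intro b hb
  by_cases hb1 : b = 1
  · rw [hb1]; exact one_mem _
  obtain ⟨A, hA, hbA⟩ := h.symm.cover hB hb hb1
  exact le_YY hA (inf_ne_of_mem hbA hb hb1) hbA

theorem PS.third (h : PS N q P L) {B : Subgroup G} (hB : B ∈ L) (A₁ A₂ : Subgroup G) :
    ∃ A ∈ P, A ⊓ B ≠ ⊥ ∧ A ≠ A₁ ∧ A ≠ A₂ := by
  have hq := h.two_le
  have h1 : 2 < {A' | A' ∈ P ∧ B ⊓ A' ≠ ⊥}.ncard := by rw [h.h2.deg B hB]; omega
  by_contra hcon
  push Not at hcon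
  have h2 : {A' | A' ∈ P ∧ B ⊓ A' ≠ ⊥} ⊆ {A₁, A₂} := by
    rintro A ⟨hA, hAB⟩
    by_cases h3 : A = A₁
    · left; exact h3
    · right; exact hcon A hA (inf_ne hAB) h3
  have h3 := Set.ncard_le_ncard h2
  have h4 := Set.ncard_insert_le A₁ {A₂}
  rw [Set.ncard_singleton] at h4
  omega

theorem PS.trans_on (h : PS N q P L) {B : Subgroup G} (hB : B ∈ L) {A₁ A₂ : Subgroup G} (hA₁ : A₁ ∈ P)
    (hA₂ : A₂ ∈ P) (h1 : A₁ ⊓ B ≠ ⊥) (h2 : A₂ ⊓ B ≠ ⊥) : ∃ g ∈ YY P B, cj g A₁ = A₂ := by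
  obtain ⟨A, hA, hAB, hne1, hne2⟩ := h.third hB A₁ A₂
  obtain ⟨g, hg, h3⟩ := h.symm.trans_lines hB hA (inf_ne hAB) hA₁ (inf_ne h1) (Ne.symm hne1) hA₂
    (inf_ne h2) (Ne.symm hne2)
  exact ⟨g, le_YY hA hAB hg, h3⟩

/-- `N` is transitive on lines. -/
theorem PS.trans_L (h : PS N q P L) {B B' : Subgroup G} (hB : B ∈ L) (hB' : B' ∈ L) :
    ∃ g ∈ N, cj g B = B' := by
  by_cases hne : B = B'
  · exact ⟨1, N.one_mem, by rw [cj_one, hne]⟩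
  obtain ⟨A, ⟨hA, h1, h2⟩, -⟩ := h.symm.h1.join B hB B' hB' hne
  obtain ⟨B'', hB'', h3, hne1, hne2⟩ := h.symm.third hA B B'
  obtain ⟨g, hg, h4⟩ := h.trans_lines hA hB'' (inf_ne h3) hB (inf_ne h1) (Ne.symm hne1) hB'
    (inf_ne h2) (Ne.symm hne2)
  exact ⟨g, h.h2.le B'' hB'' hg, h4⟩

/-- `N` is transitive on flags. -/
theorem PS.trans_flag (h : PS N q P L) {A B A' B' : Subgroup G} (hA : A ∈ P) (hB : B ∈ L)
    (hAB : A ⊓ B ≠ ⊥) (hA' : A' ∈ P) (hB' : B' ∈ L) (hAB' : A' ⊓ B' ≠ ⊥) :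
    ∃ g ∈ N, cj g A = A' ∧ cj g B = B' := by
  obtain ⟨g, hg, h1⟩ := h.trans_L hB hB'
  have h2 : cj g A ⊓ B' ≠ ⊥ := by
    rw [← h1, ← cj_inf]; exact fun h3 => hAB (cj_eq_bot.1 h3)
  obtain ⟨g', hg', h3⟩ := h.trans_on hB' (h.h1.conj g hg A hA) hA' h2 hAB'
  exact ⟨g' * g, N.mul_mem (h.YY_le_N hg') hg, by rw [cj_mul, h3], by rw [cj_mul, h1, h.YY_norm hB' g' hg']⟩

/-- the torus is transitive on the points of `B` other than `A`, `A'`. -/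
theorem PS.torus_trans (h : PS N q P L) {B A A' : Subgroup G} (hB : B ∈ L) (hA : A ∈ P) (hA' : A' ∈ P)
    (hne : A ≠ A') (hAB : A ⊓ B ≠ ⊥) (hA'B : A' ⊓ B ≠ ⊥) {t : G} (ht : orderOf t = q - 1)
    (htN : t ∈ N) (htA : cj t A = A) (htA' : cj t A' = A') (htB : cj t B = B)
    (hsr : ∀ A'' ∈ P, A'' ⊓ B ≠ ⊥ → ∀ i : ℕ, t ^ i ≠ 1 → cj (t ^ i) A'' = A'' → A'' = A ∨ A'' = A')
    {X Y : Subgroup G} (hX : X ∈ P) (hXB : X ⊓ B ≠ ⊥) (hXA : X ≠ A) (hXA' : X ≠ A') (hY : Y ∈ P)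
    (hYB : Y ⊓ B ≠ ⊥) (hYA : Y ≠ A) (hYA' : Y ≠ A') : ∃ i : ℕ, cj (t ^ i) X = Y := by
  classical
  have hq := h.two_le
  set S : Set (Subgroup G) := ({X | X ∈ P ∧ B ⊓ X ≠ ⊥} \ {A}) \ {A'} with hS
  have hSc : S.ncard = q - 1 := by
    rw [hS, Set.ncard_diff_singleton_of_mem (show A' ∈ {X | X ∈ P ∧ B ⊓ X ≠ ⊥} \ {A} from
      ⟨⟨hA', inf_ne hA'B⟩, Ne.symm hne⟩),
      Set.ncard_diff_singleton_of_mem (show A ∈ {X | X ∈ P ∧ B ⊓ X ≠ ⊥} from ⟨hA, inf_ne hAB⟩), h.h2.deg B hB]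
    omega
  have hmem : ∀ i : ℕ, cj (t ^ i) X ∈ S := by
    intro i
    refine ⟨⟨⟨h.h1.conj _ (N.pow_mem htN i) X hX, ?_⟩, fun e => hXA ?_⟩, fun e => hXA' ?_⟩
    · have : B ⊓ cj (t ^ i) X = cj (t ^ i) (B ⊓ X) := by rw [cj_inf, cj_pow_eq htB]
      rw [this]; exact fun h3 => hXB (inf_eq (cj_eq_bot.1 h3))
    · exact cj_inj (e.trans (cj_pow_eq htA i).symm)
    · exact cj_inj (e.trans (cj_pow_eq htA' i).symm)
  let f : Fin (q - 1) → S := fun i => ⟨cj (t ^ (i : ℕ)) X, hmem i⟩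
  have hinj : ∀ i j : ℕ, i < j → j < q - 1 → cj (t ^ i) X ≠ cj (t ^ j) X := by
    intro i j hij hj he
    have h1 : cj (t ^ (j - i)) X = X := by
      have h2 : t ^ j = t ^ i * t ^ (j - i) := by rw [← pow_add]; congr 1; omega
      rw [h2, cj_mul] at he
      exact (cj_inj he).symm
    have h3 : t ^ (j - i) ≠ 1 := by
      intro h4
      have h5 := orderOf_dvd_of_pow_eq_one h4
      rw [ht] at h5
      exact absurd (Nat.le_of_dvd (by omega) h5) (by omega)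
    rcases hsr X hX hXB _ h3 h1 with h4 | h4
    · exact hXA h4
    · exact hXA' h4
  have hfi : Function.Injective f := by
    intro i j hij
    have h1 : cj (t ^ (i : ℕ)) X = cj (t ^ (j : ℕ)) X := congrArg Subtype.val hij
    rcases lt_trichotomy (i : ℕ) (j : ℕ) with h2 | h2 | h2
    · exact absurd h1 (hinj i j h2 j.2)
    · exact Fin.ext h2
    · exact absurd h1.symm (hinj j i h2 i.2)
  have hbij : Function.Bijective f := by
    refine (Nat.bijective_iff_injective_and_card f).2 ⟨hfi, ?_⟩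
    rw [Nat.card_coe_set_eq, hSc, Nat.card_fin]
  obtain ⟨i, hi⟩ := hbij.2 ⟨Y, ⟨⟨⟨hY, inf_ne hYB⟩, hYA⟩, hYA'⟩⟩
  exact ⟨i, congrArg Subtype.val hi⟩

/-- K2 -/
theorem PS.K2 (h : PS N q P L) {B : Subgroup G} (hB : B ∈ L) {M N' : Subgroup G} (hYN : YY P B ≤ N')
    (hN'N : N' ≤ N) (hN'B : ∀ g ∈ N', cj g B = B) (hMN : M ≤ N') (hMn : ∀ g ∈ N', ∀ m ∈ M, g * m * g⁻¹ ∈ M)
    {m : G} (hm : m ∈ M) (hm4 : ∃ k : ℕ, m ^ 2 ^ k = 1) (hm2 : m * m ≠ 1) : YY P B ≤ M := by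
  have hmN := hN'N (hMN hm)
  obtain ⟨A, ⟨hA, hBA⟩, hfA⟩ := exists_fixed_elt cj cj_one cj_mul hm4 {A | A ∈ P ∧ B ⊓ A ≠ ⊥}
    (h.symm.odd_deg hB) (by
      rintro A ⟨hA, hBA⟩
      refine ⟨h.h1.conj m hmN A hA, ?_⟩
      have : B ⊓ cj m A = cj m (B ⊓ A) := by rw [cj_inf, hN'B m (hMN hm)]
      rw [this]; exact fun h3 => hBA (cj_eq_bot.1 h3))
  have hAB := inf_ne hBA
  have hmU := h.syl A hA B hB hAB m hmN hm4 hfA (hN'B m (hMN hm))
  obtain ⟨a, ha, b, hb, rfl⟩ := (h.mem_sup hA hB hAB).1 hmU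
  have haB : a ∉ B := fun h3 => hm2 (h.h2.sq B hB _ (B.mul_mem h3 hb))
  have hBN' : B ≤ N' := (h.le_YY' hB).trans hYN
  have hAN' : A ≤ N' := (le_YY hA hAB).trans hYN
  have hZM : A ⊓ B ≤ M := by
    intro z hz
    obtain ⟨y, hy, h1⟩ := h.comm_surj hA hB hAB ha haB hz
    have h2 : (a * b) * (y * (a * b)⁻¹ * y⁻¹) = z := by
      rw [← h1]
      have h4 : b * y * b⁻¹ = y := by rw [h.symm.comm hB hb hy]; simp
      have : a * b * (y * (a * b)⁻¹ * y⁻¹) = a * (b * y * b⁻¹) * a⁻¹ * y⁻¹ := by simp [mul_assoc]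
      rw [this, h4]
    rw [← h2]
    exact M.mul_mem hm (hMn y (hBN' hy) _ (M.inv_mem hm))
  have hBM : B ≤ M := by
    intro x hx
    by_cases hx1 : x = 1
    · rw [hx1]; exact M.one_mem
    obtain ⟨A', hA', hxA'⟩ := h.symm.cover hB hx hx1
    have hA'B := inf_ne_of_mem hxA' hx hx1
    obtain ⟨g, hg, h1⟩ := h.trans_on hB hA hA' hAB hA'B
    have h2 : cj g (A ⊓ B) = A' ⊓ B := by rw [cj_inf, h1, h.YY_norm hB g hg]
    have h3 : x ∈ cj g (A ⊓ B) := by rw [h2]; exact Subgroup.mem_inf.2 ⟨hxA', hx⟩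
    rw [mem_cj] at h3
    have := hMn g (hYN hg) _ (hZM h3)
    simpa [mul_assoc] using this
  have haM : a ∈ M := by
    have := M.mul_mem hm (M.inv_mem (hBM hb))
    simpa [mul_assoc] using this
  have hAM : A ≤ M := by
    intro x hx
    by_cases hxB : x ∈ B
    · exact hBM hxB
    obtain ⟨A', hA', hA'B, hne, -⟩ := h.third hB A A
    obtain ⟨t, htY, hto, htA, htA', htB, hsr, -⟩ := h.h1.torus B hB A hA A' hA' (Ne.symm hne) hAB hA'B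
    have key : ∀ y ∈ A, y ∉ B → cj y A' ∈ P ∧ cj y A' ⊓ B ≠ ⊥ ∧ cj y A' ≠ A ∧ cj y A' ≠ A' := by
      intro y hy hyB
      have hyB' : cj y B = B := h.h1.norm A hA B hB hAB y hy
      refine ⟨h.h1.conj y (h.h1.le A hA hy) A' hA', ?_, ?_, ?_⟩
      · have : cj y A' ⊓ B = cj y (A' ⊓ B) := by rw [cj_inf, hyB']
        rw [this]; exact fun h3 => hA'B (cj_eq_bot.1 h3)
      · intro h3
        exact hne (cj_inj (h3.trans (cj_self hy).symm))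
      · intro h3
        exact hyB (h.mem_of_fix hA hA' (Ne.symm hne) hB hAB hA'B hy h3)
    obtain ⟨k1, k2, k3, k4⟩ := key a ha haB
    obtain ⟨l1, l2, l3, l4⟩ := key x hx hxB
    obtain ⟨i, hi⟩ := h.torus_trans hB hA hA' (Ne.symm hne) hAB hA'B hto (h.YY_le_N htY) htA htA' htB hsr
      k1 k2 k3 k4 l1 l2 l3 l4
    have hyA : t ^ i * a * (t ^ i)⁻¹ ∈ A := conj_mem_of_cj (cj_pow_eq htA i) ha
    have hyM : t ^ i * a * (t ^ i)⁻¹ ∈ M := hMn _ (N'.pow_mem (hYN htY) i) a haM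
    have h5 : x⁻¹ * (t ^ i * a * (t ^ i)⁻¹) ∈ B := by
      refine h.mem_of_fix hA hA' (Ne.symm hne) hB hAB hA'B (A.mul_mem (A.inv_mem hx) hyA) ?_
      rw [cj_mul, cj_mul, cj_mul, cj_inv_eq (cj_pow_eq htA' i), hi, cj_inv_cj]
    have h6 := M.mul_mem hyM (M.inv_mem (hBM h5))
    simpa [mul_assoc] using h6
  refine YY_le fun A' hA' hA'B => ?_
  obtain ⟨g, hg, h1⟩ := h.trans_on hB hA hA' hAB hA'B
  rw [← h1]
  intro x hx
  rw [mem_cj] at hx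
  have := hMn g (hYN hg) _ (hAM hx)
  simpa [mul_assoc] using this

/-- a subgroup containing all points is `N` -/
theorem PS.eq_N (h : PS N q P L) {H : Subgroup G} (hHN : H ≤ N) (hP : ∀ A ∈ P, A ≤ H) : H = N := by
  haveI := h.simple
  set K : Subgroup G := ⨆ A ∈ P, A with hK
  have hKH : K ≤ H := iSup₂_le hP
  have hPK : ∀ A ∈ P, A ≤ K := fun A hA =>
    le_iSup₂_of_le (f := fun (A : Subgroup G) (_ : A ∈ P) => A) A hA le_rfl
  have hKn : ∀ g ∈ N, K ≤ cj g K := by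
    intro g hg
    refine iSup₂_le fun A hA => ?_
    have h1 := hPK _ (h.h1.conj g⁻¹ (N.inv_mem hg) A hA)
    have h2 := cj_mono (g := g) h1
    rwa [cj_cj_inv] at h2
  have hn : (K.subgroupOf N).Normal := by
    constructor
    intro x hx g
    rw [Subgroup.mem_subgroupOf] at hx ⊢
    have h1 := hKn _ (N.inv_mem g.2) hx
    rw [mem_cj] at h1
    simpa [mul_assoc] using h1
  have hne : K ≠ ⊥ := by
    obtain ⟨A, hA⟩ : P.Nonempty := by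
      rw [Set.nonempty_iff_ne_empty]; intro h1
      have := h.h1.ncard
      rw [h1, Set.ncard_empty] at this
      omega
    intro h1
    exact h.ne_bot hA (le_bot_iff.1 (h1 ▸ hPK A hA))
  rcases hn.eq_bot_or_eq_top with h1 | h1
  · exfalso
    apply hne
    rw [Subgroup.subgroupOf_eq_bot] at h1
    rw [eq_bot_iff]
    intro x hx
    exact Subgroup.disjoint_def.1 h1 hx ((hKH.trans hHN) hx)
  · rw [Subgroup.subgroupOf_eq_top] at h1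
    exact le_antisymm hHN (h1.trans hKH)

/-- L7 -/
theorem PS.L7 (h : PS N q P L) {A B H : Subgroup G} (hA : A ∈ P) (hB : B ∈ L) (hAB : A ⊓ B ≠ ⊥)
    (hHN : H ≤ N) (hU : A ⊔ B ≤ H) :
    (∀ x ∈ H, cj x A = A ∧ cj x B = B) ∨ (YY P B ≤ H ∧ ∀ x ∈ H, cj x B = B) ∨
      (YY L A ≤ H ∧ ∀ x ∈ H, cj x A = A) ∨ H = N := by
  have hAH : A ≤ H := le_sup_left.trans hU
  have hBH : B ≤ H := le_sup_right.trans hU
  -- the mixed cases
  have mixed : ∀ {P L : Set (Subgroup G)} {A B : Subgroup G} (h : PS N q P L), A ∈ P → B ∈ L →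
      A ⊓ B ≠ ⊥ → A ≤ H → (∀ x ∈ H, cj x B = B) → (∃ x ∈ H, cj x A ≠ A) → YY P B ≤ H := by
    intro P L A B h hA hB hAB hAH hHB ⟨x, hx, hne⟩
    refine YY_le fun A' hA' hA'B => ?_
    by_cases hAA' : A' = A
    · rw [hAA']; exact hAH
    have h1 : cj x A ∈ P := h.h1.conj x (hHN hx) A hA
    have h2 : B ⊓ cj x A ≠ ⊥ := by
      have : B ⊓ cj x A = cj x (B ⊓ A) := by rw [cj_inf, hHB x hx]
      rw [this]; exact fun h3 => hAB (inf_eq (cj_eq_bot.1 h3))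
    obtain ⟨a, ha, h3⟩ := h.symm.trans_lines hB hA (inf_ne hAB) h1 h2 hne hA' (inf_ne hA'B) hAA'
    rw [← h3]
    have : ∀ g ∈ H, ∀ X ≤ H, cj g X ≤ H := fun g hg X hX =>
      cj_le_of g fun y hy => H.mul_mem (H.mul_mem hg (hX hy)) (H.inv_mem hg)
    exact this a (hAH ha) _ (this x hx A hAH)
  by_cases hHB : ∀ x ∈ H, cj x B = B
  · by_cases hHA : ∀ x ∈ H, cj x A = A
    · left; exact fun x hx => ⟨hHA x hx, hHB x hx⟩
    · right; left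
      push Not at hHA
      exact ⟨mixed h hA hB hAB hAH hHB hHA, hHB⟩
  · by_cases hHA : ∀ x ∈ H, cj x A = A
    · right; right; left
      push Not at hHB
      exact ⟨mixed h.symm hB hA (inf_ne hAB) hBH hHA hHB, hHA⟩
    right; right; right
    push Not at hHA hHB
    obtain ⟨x₁, hx₁, hne₁⟩ := hHB
    obtain ⟨x₂, hx₂, hne₂⟩ := hHA
    set O : Set (Subgroup G) := {A' | ∃ x ∈ H, cj x A = A'} with hO
    have hOH : ∀ X ∈ O, X ≤ H := by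
      rintro X ⟨x, hx, rfl⟩
      exact cj_le_of x fun y hy => H.mul_mem (H.mul_mem hx (hAH hy)) (H.inv_mem hx)
    have hOP : ∀ X ∈ O, X ∈ P := by
      rintro X ⟨x, hx, rfl⟩
      exact h.h1.conj x (hHN hx) A hA
    have hOinv : ∀ x ∈ H, ∀ X ∈ O, cj x X ∈ O := by
      rintro x hx X ⟨y, hy, rfl⟩
      exact ⟨x * y, H.mul_mem hx hy, by rw [cj_mul]⟩
    have hAO : A ∈ O := ⟨1, H.one_mem, cj_one A⟩
    have hex : ∃ A' ∈ O, A' ≠ A ∧ A' ⊓ B ≠ ⊥ := by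
      by_contra hcon
      push Not at hcon
      set A₁ := cj x₂ A with hA₁
      have hA₁O : A₁ ∈ O := ⟨x₂, hx₂, rfl⟩
      have hA₁P := hOP A₁ hA₁O
      have hA₁B := hcon A₁ hA₁O hne₂
      obtain ⟨A', hA', hA'B, hA'A, -⟩ := h.third hB A A
      have hne3 : A₁ ≠ A' := by rintro e; rw [e] at hA₁B; exact hA'B hA₁B
      obtain ⟨m, ⟨hm, h1, h2⟩, -⟩ := h.h1.join A₁ hA₁P A' hA' hne3
      have hmB : m ≠ B := by rintro rfl; exact h1 hA₁B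
      obtain ⟨A₂, hA₂, hA₂m, hne4, hne5⟩ := h.third hm A₁ A'
      have hA₂B : A₂ ⊓ B = ⊥ := by
        by_contra h3
        exact hne5 (h.symm.join_eq hm hB hmB hA₂ hA' (inf_ne hA₂m) (inf_ne h3) (inf_ne h2) (inf_ne hA'B))
      obtain ⟨b, hb, h4⟩ := h.h2.reg B hB A₁ hA₁P A₂ hA₂ (inf_eq hA₁B) (inf_eq hA₂B)
      have hA₂O : A₂ ∈ O := h4 ▸ hOinv b (hBH hb) A₁ hA₁O
      obtain ⟨a, ha, h5⟩ := h.symm.trans_lines hm hA₁P (inf_ne h1) hA₂ (inf_ne hA₂m) hne4 hA'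
        (inf_ne h2) (Ne.symm hne3)
      have hA'O : A' ∈ O := h5 ▸ hOinv a (hOH A₁ hA₁O ha) A₂ hA₂O
      exact hA'B (hcon A' hA'O hA'A)
    obtain ⟨A', hA'O, hne, hA'B⟩ := hex
    have hon : ∀ X ∈ P, X ⊓ B ≠ ⊥ → X ∈ O := by
      intro X hX hXB
      by_cases hXA : X = A
      · rw [hXA]; exact hAO
      obtain ⟨a, ha, h5⟩ := h.symm.trans_lines hB hA (inf_ne hAB) (hOP A' hA'O) (inf_ne hA'B) hne hX
        (inf_ne hXB) hXA
      exact h5 ▸ hOinv a (hAH ha) A' hA'O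
    -- a point of `O` off `B`
    obtain ⟨Z, hZO, hZB⟩ : ∃ Z ∈ O, Z ⊓ B = ⊥ := by
      set B' := cj x₁ B with hB'
      have hB'L : B' ∈ L := h.h2.conj x₁ (hHN hx₁) B hB
      obtain ⟨W, ⟨hW, h1, h2⟩, -⟩ := h.symm.h1.join B' hB'L B hB hne₁
      obtain ⟨Z, hZ, hZB', hZW, -⟩ := h.third hB'L W W
      refine ⟨Z, ?_, ?_⟩
      · have h3 : cj x₁⁻¹ Z ∈ O := by
          refine hon _ (h.h1.conj _ (N.inv_mem (hHN hx₁)) Z hZ) ?_
          have : cj x₁⁻¹ Z ⊓ B = cj x₁⁻¹ (Z ⊓ B') := by rw [cj_inf, hB', cj_inv_cj]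
          rw [this]; exact fun h3 => hZB' (cj_eq_bot.1 h3)
        have := hOinv x₁ hx₁ _ h3
        rwa [cj_cj_inv] at this
      · by_contra h3
        exact hZW (h.symm.join_eq hB'L hB hne₁ hZ hW (inf_ne hZB') (inf_ne h3) h1 h2)
    refine h.eq_N hHN fun X hX => hOH X ?_
    by_cases hXB : X ⊓ B = ⊥
    · obtain ⟨b, hb, h4⟩ := h.h2.reg B hB Z (hOP Z hZO) X hX (inf_eq hZB) (inf_eq hXB)
      exact h4 ▸ hOinv b (hBH hb) Z hZO
    · exact hon X hX hXB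

end Cfsg.Agent.P3
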